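import Mathlib
import Cfsg.Agent.KC.Def

/-! The search with a shorter list of candidates and a flexible splitting into parts. -/

set_option autoImplicit false

namespace Cfsg.Agent.KC

/-- The multiples of `y` by the first entries, in front of `t`. -/
noncomputable def mulK (nd : L3) (y : ℕ) (t : List ℕ) : List ℕ := L3.rec t (fun d _ _ _ ih => (d *' y) :: ih) nd

/-- Candidates when two new orders are possible. -/
noncomputable def gen2 (nd : L3) (l : List ℕ) : List ℕ :=
  List.rec [] (fun y _ ih => y :: Nat.succ (2 *' y) :: (y *' y) :: mulK nd y ih) l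

/-- The candidates for the element order. -/
noncomputable def stO2 (cl nd : L3) (hi fr : ℕ) (p : ℕ → Bool) : Bool :=
  IF (IF fr =' 2 THEN 40 ≤' hi ELSE false) THEN
    allN hi p (3 :: gen2 nd (2 :: ords nd (ords cl (prods nd)))) 0 ELSE stO cl nd hi fr p

/-- One level of the search. -/
noncomputable def lev2 (K1 : ℕ) (fin : ℕ → L3 → Bool) (k : St → Bool) (st : St) : Bool :=
  St.rec (fun cl nd ps sm s L A nmax dem PP B zp HB pc po pf =>
    (fun lo hi fr => IF lo ≤' hi THEN stO2 cl nd hi fr
      (stA K1 fin k cl nd ps sm s L A nmax PP B zp HB pc po pf lo hi fr (mask nd)) ELSE true)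
    MAX(pc, Nat.succ (L /' A)) (Nat.succ (5 *' s) *' L /' (5 *' A)) (s -' dem)) st

/-- The search below a state. -/
noncomputable def go (K1 : ℕ) (fin : ℕ → L3 → Bool) (n : ℕ) : St → Bool :=
  Nat.rec (fun _ => false) (fun _ ih => lev2 K1 fin ih) n

/-- The part of the search that is selected by a list of residues of hash values. -/
noncomputable def run (K1 : ℕ) (fin : ℕ → L3 → Bool) (l : List (ℕ × ℕ)) : St → Bool :=
  List.rec (go K1 fin K1) (fun a _ ih => Prod.rec (fun M j => sel M j (lev2 K1 fin ih)) a) l

/-- The selected part of the search from the initial state. -/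
noncomputable def chunk (K1 : ℕ) (OK : List ℕ) (l : List (ℕ × ℕ)) : Bool :=
  run K1 (fun N cl => finL OK N (toL cl)) l (st0 K1)

end Cfsg.Agent.KC
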