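import Mathlib
import Cfsg.Agent.KC.Def2

/-! Parts of the search, evaluated by the kernel. -/

set_option autoImplicit false

namespace Cfsg.Agent.KC

theorem c10_0 : chunk 9 [168, 360, 2520, 29120]
    [(1, 0), (1, 0), (13, 0)] = true := by
  decide +kernel

theorem c10_1 : chunk 9 [168, 360, 2520, 29120]
    [(1, 0), (1, 0), (13, 1)] = true := by
  decide +kernel

theorem c10_2 : chunk 9 [168, 360, 2520, 29120]
    [(1, 0), (1, 0), (13, 2)] = true := by
  decide +kernel

theorem c10_3 : chunk 9 [168, 360, 2520, 29120]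
    [(1, 0), (1, 0), (13, 3)] = true := by
  decide +kernel

theorem c10_4 : chunk 9 [168, 360, 2520, 29120]
    [(1, 0), (1, 0), (13, 4)] = true := by
  decide +kernel

theorem c10_5_0 : chunk 9 [168, 360, 2520, 29120]
    [(1, 0), (1, 0), (13, 5), (3, 0)] = true := by
  decide +kernel

theorem c10_5_1 : chunk 9 [168, 360, 2520, 29120]
    [(1, 0), (1, 0), (13, 5), (3, 1)] = true := by
  decide +kernel

theorem c10_5_2 : chunk 9 [168, 360, 2520, 29120]
    [(1, 0), (1, 0), (13, 5), (3, 2)] = true := by
  decide +kernel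

theorem c10_6 : chunk 9 [168, 360, 2520, 29120]
    [(1, 0), (1, 0), (13, 6)] = true := by
  decide +kernel

theorem c10_7_0 : chunk 9 [168, 360, 2520, 29120]
    [(1, 0), (1, 0), (13, 7), (3, 0)] = true := by
  decide +kernel

theorem c10_7_1 : chunk 9 [168, 360, 2520, 29120]
    [(1, 0), (1, 0), (13, 7), (3, 1)] = true := by
  decide +kernel

theorem c10_7_2 : chunk 9 [168, 360, 2520, 29120]
    [(1, 0), (1, 0), (13, 7), (3, 2)] = true := by
  decide +kernel

theorem c10_8 : chunk 9 [168, 360, 2520, 29120]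
    [(1, 0), (1, 0), (13, 8)] = true := by
  decide +kernel

theorem c10_9 : chunk 9 [168, 360, 2520, 29120]
    [(1, 0), (1, 0), (13, 9)] = true := by
  decide +kernel

theorem c10_10 : chunk 9 [168, 360, 2520, 29120]
    [(1, 0), (1, 0), (13, 10)] = true := by
  decide +kernel

theorem c10_11 : chunk 9 [168, 360, 2520, 29120]
    [(1, 0), (1, 0), (13, 11)] = true := by
  decide +kernel

theorem c10_12_0 : chunk 9 [168, 360, 2520, 29120]
    [(1, 0), (1, 0), (13, 12), (5, 0)] = true := by
  decide +kernel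

theorem c10_12_1 : chunk 9 [168, 360, 2520, 29120]
    [(1, 0), (1, 0), (13, 12), (5, 1)] = true := by
  decide +kernel

theorem c10_12_2 : chunk 9 [168, 360, 2520, 29120]
    [(1, 0), (1, 0), (13, 12), (5, 2)] = true := by
  decide +kernel

theorem c10_12_3 : chunk 9 [168, 360, 2520, 29120]
    [(1, 0), (1, 0), (13, 12), (5, 3)] = true := by
  decide +kernel

theorem c10_12_4 : chunk 9 [168, 360, 2520, 29120]
    [(1, 0), (1, 0), (13, 12), (5, 4)] = true := by
  decide +kernel

end Cfsg.Agent.KC
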