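import Mathlib
import Cfsg.Agent.KC.Def

/-! Soundness of the small functions of the search. -/

set_option autoImplicit false

namespace Cfsg.Agent.KC

theorem ite_rec {α : Type} (b : Bool) (t e : α) :
    @Bool.rec (fun _ => α) e t b = if b = true then t else e := by
  cases b <;> rfl

theorem off_iff (M d : ℕ) : OFF(M, d) = true ↔ M.testBit d = false := by
  rw [Nat.beq_eq, Nat.testBit_eq_decide_div_mod_eq, decide_eq_false_iff_not]
  change (M >>> d) % 2 = 0 ↔ _
  rw [Nat.shiftRight_eq_div_pow]
  omega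

theorem testBit_set (M d e : ℕ) : (SET(M, d)).testBit e = (M.testBit e || decide (d = e)) := by
  change (M ||| 2 ^ d).testBit e = _
  rw [Nat.testBit_or, Nat.testBit_two_pow]

theorem allL_cons (h : ℕ) (t : List ℕ) (p : ℕ → Bool) :
    allL (h :: t) p = if p h = true then allL t p else false := by
  rw [← ite_rec]; rfl

theorem allL_sound {l : List ℕ} {p : ℕ → Bool} (h : allL l p = true) : ∀ x ∈ l, p x = true := by
  induction l with
  | nil => simp
  | cons a t ih =>
    rw [allL_cons] at h
    split_ifs at h with ha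
    intro x hx
    rcases List.mem_cons.1 hx with rfl | hx
    · exact ha
    · exact ih h x hx

theorem allR_succ (n : ℕ) (p : ℕ → Bool) :
    allR (n + 1) p = if p n = true then allR n p else false := by
  rw [← ite_rec]; rfl

theorem allR_sound {n : ℕ} {p : ℕ → Bool} (h : allR n p = true) : ∀ i < n, p i = true := by
  induction n with
  | zero => simp
  | succ n ih =>
    rw [allR_succ] at h
    split_ifs at h with ha
    intro i hi
    rcases Nat.lt_succ_iff_lt_or_eq.1 hi with hi | rfl
    · exact ih h i hi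
    · exact ha

theorem allN_cons (hi : ℕ) (p : ℕ → Bool) (h : ℕ) (t : List ℕ) (M : ℕ) :
    allN hi p (h :: t) M = if Nat.ble h hi = true then (if OFF(M, h) = true then
      (if p h = true then allN hi p t SET(M, h) else false) else allN hi p t M)
      else allN hi p t M := by
  rw [← ite_rec, ← ite_rec, ← ite_rec]; rfl

theorem allN_sound {hi : ℕ} {p : ℕ → Bool} {l : List ℕ} {M : ℕ} (h : allN hi p l M = true) :
    ∀ x ∈ l, x ≤ hi → M.testBit x = false → p x = true := by
  induction l generalizing M with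
  | nil => simp
  | cons a t ih =>
    rw [allN_cons] at h
    intro x hx hxh hM
    split_ifs at h with h1 h2 h3
    · by_cases hxa : x = a
      · rw [hxa]; exact h3
      · refine ih h x ((List.mem_cons.1 hx).resolve_left hxa) hxh ?_
        rw [testBit_set, hM]
        simpa using fun e => hxa e.symm
    · rcases List.mem_cons.1 hx with rfl | hx
      · exact absurd ((off_iff _ _).2 hM) h2
      · exact ih h x hx hxh hM
    · rcases List.mem_cons.1 hx with rfl | hx
      · exact absurd (Nat.ble_eq.mpr hxh) h1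
      · exact ih h x hx hxh hM

theorem part_ne_zero {c : ℕ} (hc : c ≠ 0) (m : ℕ) : PART(c, m) ≠ 0 :=
  Nat.gcd_ne_zero_left hc

theorem part_dvd (c m : ℕ) : PART(c, m) ∣ c := Nat.gcd_dvd_left _ _

theorem factorization_le_log2 {c q : ℕ} (hc : c ≠ 0) (hq : q.Prime) :
    c.factorization q ≤ Nat.log2 c := by
  rw [Nat.le_log2 hc]
  calc 2 ^ c.factorization q ≤ q ^ c.factorization q := Nat.pow_le_pow_left hq.two_le _
    _ ≤ c := Nat.ordProj_le q hc

theorem fact_part {c m q : ℕ} (hc : c ≠ 0) (hm : m ≠ 0) (hq : q.Prime) :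
    (PART(c, m)).factorization q = if q ∣ m then c.factorization q else 0 := by
  change (Nat.gcd c (m ^ Nat.log2 c)).factorization q = _
  rw [Nat.factorization_gcd hc (pow_ne_zero _ hm), Nat.factorization_pow, Finsupp.inf_apply,
    Finsupp.smul_apply, smul_eq_mul]
  split_ifs with h
  · refine min_eq_left ((factorization_le_log2 hc hq).trans ?_)
    exact Nat.le_mul_of_pos_right _ (hq.factorization_pos_of_dvd hm h)
  · rw [Nat.factorization_eq_zero_of_not_dvd h, mul_zero]
    exact min_eq_right (Nat.zero_le _)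

theorem fact_div_part {c m q : ℕ} (hc : c ≠ 0) (hm : m ≠ 0) (hq : q.Prime) :
    (c / PART(c, m)).factorization q = if q ∣ m then 0 else c.factorization q := by
  rw [Nat.factorization_div (part_dvd c m), Finsupp.tsub_apply, fact_part hc hm hq]
  split_ifs <;> simp

theorem facL_cons (p : ℕ) (t : List ℕ) (m : ℕ) :
    facL (p :: t) m = if p * p ≤ m then (if m % p = 0 then p :: facL t (m / PART(m, p))
      else facL t m) else (if m = 1 then [] else [m]) := by
  have : facL (p :: t) m = if Nat.ble (p * p) m = true then (if Nat.beq (m % p) 0 = true then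
      p :: facL t (m / PART(m, p)) else facL t m) else
      (if Nat.beq m 1 = true then [] else [m]) := by
    rw [← ite_rec, ← ite_rec, ← ite_rec]; rfl
  simpa only [Nat.ble_eq, Nat.beq_eq] using this

theorem facL_nil (m : ℕ) : facL [] m = if m = 1 then [] else [m] := by
  have : facL [] m = if Nat.beq m 1 = true then [] else [m] := by
    rw [← ite_rec]; rfl
  simpa only [Nat.beq_eq] using this

theorem spec_of_lt_sq {m b : ℕ} (h1 : 1 ≤ m) (hb : m < b * b)
    (h : ∀ q, q.Prime → q ∣ m → b ≤ q) :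
    (if m = 1 then [] else [m] : List ℕ).Nodup ∧
      ∀ q, q ∈ (if m = 1 then [] else [m] : List ℕ) ↔ q.Prime ∧ q ∣ m := by
  split_ifs with hm
  · subst hm
    refine ⟨List.nodup_nil, fun q => ⟨by simp, fun ⟨hq, hd⟩ => ?_⟩⟩
    exact absurd (Nat.dvd_one.1 hd) hq.ne_one
  · have hp : m.Prime := by
      by_contra hn
      have h2 := Nat.minFac_sq_le_self h1 hn
      have h3 := h _ (Nat.minFac_prime hm) (Nat.minFac_dvd m)
      nlinarith
    refine ⟨List.nodup_singleton _, fun q => ?_⟩
    rw [List.mem_singleton]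
    exact ⟨fun e => by rw [e]; exact ⟨hp, dvd_rfl⟩, fun ⟨hq, hd⟩ =>
      (Nat.prime_dvd_prime_iff_eq hq hp).1 hd⟩

theorem facL_gen {l : List ℕ} (hl : l.Pairwise (· < ·)) (hp : ∀ p ∈ l, p.Prime ∧ p < 307)
    {m : ℕ} (h1 : 1 ≤ m) (h2 : m < 307 * 307) (h : ∀ q, q.Prime → q ∣ m → q ∈ l ∨ 307 ≤ q) :
    (facL l m).Nodup ∧ ∀ q, q ∈ facL l m ↔ q.Prime ∧ q ∣ m := by
  induction l generalizing m with
  | nil =>
    rw [facL_nil]
    exact spec_of_lt_sq h1 h2 fun q hq hd => (h q hq hd).resolve_left (by simp)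
  | cons p t ih =>
    have hpp := (hp p List.mem_cons_self).1
    have hp3 := (hp p List.mem_cons_self).2
    have ih' := fun {m : ℕ} => ih (m := m) (List.pairwise_cons.1 hl).2
      fun q hq => hp q (List.mem_cons_of_mem _ hq)
    have hm0 : m ≠ 0 := by omega
    rw [facL_cons]
    by_cases hc : p * p ≤ m
    · rw [if_pos hc]
      by_cases hd : m % p = 0
      · rw [if_pos hd]
        have hd' : p ∣ m := Nat.dvd_of_mod_eq_zero hd
        have hpos : 1 ≤ m / PART(m, p) :=
          Nat.div_pos (Nat.le_of_dvd h1 (part_dvd m p)) (Nat.pos_of_ne_zero (part_ne_zero hm0 p))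
        have key : ∀ q, q.Prime → (q ∣ m / PART(m, p) ↔ q ∣ m ∧ q ≠ p) := by
          intro q hq
          rw [hq.dvd_iff_one_le_factorization (by omega), fact_div_part hm0 hpp.ne_zero hq,
            hq.dvd_iff_one_le_factorization hm0]
          have e' := Nat.prime_dvd_prime_iff_eq hq hpp
          split_ifs with e
          · simp [e'.1 e]
          · have : q ≠ p := fun h => e (e'.2 h)
            simp [this]
        obtain ⟨n1, n2⟩ := ih' hpos (lt_of_le_of_lt (Nat.div_le_self _ _) h2) fun q hq hd => by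
          obtain ⟨a, b⟩ := (key q hq).1 hd
          rcases h q hq a with c | c
          · exact Or.inl ((List.mem_cons.1 c).resolve_left b)
          · exact Or.inr c
        refine ⟨List.nodup_cons.2 ⟨fun hm => ?_, n1⟩, fun q => ?_⟩
        · exact ((key p hpp).1 ((n2 p).1 hm).2).2 rfl
        · rw [List.mem_cons, n2]
          constructor
          · rintro (rfl | ⟨a, b⟩)
            · exact ⟨hpp, hd'⟩
            · exact ⟨a, ((key q a).1 b).1⟩
          · rintro ⟨a, b⟩
            by_cases e : q = p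
            · exact Or.inl e
            · exact Or.inr ⟨a, (key q a).2 ⟨b, e⟩⟩
      · rw [if_neg hd]
        refine ih' h1 h2 fun q hq hd' => ?_
        rcases h q hq hd' with c | c
        · rcases List.mem_cons.1 c with rfl | c
          · exact absurd (Nat.mod_eq_zero_of_dvd hd') hd
          · exact Or.inl c
        · exact Or.inr c
    · rw [if_neg hc]
      refine spec_of_lt_sq h1 (not_le.1 hc) fun q hq hd => ?_
      rcases h q hq hd with c | c
      · rcases List.mem_cons.1 c with rfl | c
        · exact le_rfl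
        · exact ((List.pairwise_cons.1 hl).1 q c).le
      · omega

theorem PL_prime : ∀ p ∈ PL, p.Prime ∧ p < 307 := by
  intro p hp
  simp only [PL, List.mem_cons, List.not_mem_nil, or_false] at hp
  rcases hp with rfl | rfl | rfl | rfl | rfl | rfl | rfl | rfl | rfl | rfl | rfl | rfl | rfl | rfl |
    rfl | rfl | rfl | rfl | rfl | rfl | rfl | rfl | rfl | rfl | rfl | rfl | rfl | rfl | rfl | rfl |
    rfl | rfl | rfl | rfl | rfl | rfl | rfl | rfl | rfl | rfl | rfl | rfl | rfl | rfl | rfl | rfl |
    rfl | rfl | rfl | rfl | rfl | rfl | rfl | rfl | rfl | rfl | rfl | rfl | rfl | rfl | rfl | rfl <;>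
    norm_num

theorem mem_PL {q : ℕ} (hq : q.Prime) (h : q < 307) : q ∈ PL := by
  have : ∀ q < 307, q ∈ PL ∨ q < 2 ∨ ∃ d ∈ [2, 3, 5, 7, 11, 13, 17], d < q ∧ d ∣ q := by
    decide +kernel
  rcases this q h with a | a | ⟨d, hd, h1, h2⟩
  · exact a
  · exact absurd hq.two_le (by omega)
  · rcases (Nat.dvd_prime hq).1 h2 with e | e
    · subst e; simp at hd
    · omega

theorem facL_spec {o : ℕ} (h1 : 1 ≤ o) (h2 : o ≤ 94248) :
    (facL PL o).Nodup ∧ ∀ q, q ∈ facL PL o ↔ q.Prime ∧ q ∣ o :=
  facL_gen (by decide +kernel) PL_prime h1 (by omega) fun q hq _ => by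
    by_cases h : q < 307
    · exact Or.inl (mem_PL hq h)
    · exact Or.inr (not_lt.1 h)

theorem prodL_eq (l : List ℕ) : prodL l = l.prod := by
  induction l with
  | nil => rfl
  | cons a t ih => rw [List.prod_cons, ← ih]; rfl

theorem prodP_eq (l : List ℕ) : prodP l = (l.map fun p => p - 1).prod := by
  induction l with
  | nil => rfl
  | cons a t ih => rw [List.map_cons, List.prod_cons, ← ih]; rfl

theorem totient_eq {o : ℕ} {pr : List ℕ} (ho : o ≠ 0) (hn : pr.Nodup)
    (hpr : ∀ q, q ∈ pr ↔ q.Prime ∧ q ∣ o) : o / prodL pr * prodP pr = Nat.totient o := by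
  have e : pr.toFinset = o.primeFactors := by
    ext q
    rw [List.mem_toFinset, hpr, Nat.mem_primeFactors]
    tauto
  rw [Nat.totient_eq_div_primeFactors_mul, ← e, prodL_eq, prodP_eq,
    List.prod_toFinset _ hn, List.prod_toFinset _ hn, List.map_id']

theorem squarefree_prodL {pr : List ℕ} (hn : pr.Nodup) (hpr : ∀ q ∈ pr, q.Prime) :
    Squarefree (prodL pr) := by
  rw [prodL_eq]
  induction pr with
  | nil => simp
  | cons a t ih =>
    rw [List.prod_cons]
    have ha := hpr a List.mem_cons_self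
    have hc : Nat.Coprime a t.prod := by
      rw [Nat.coprime_list_prod_right_iff]
      intro q hq
      rw [Nat.coprime_primes ha (hpr q (List.mem_cons_of_mem _ hq))]
      rintro rfl
      exact (List.nodup_cons.1 hn).1 hq
    exact (Nat.squarefree_mul hc).2 ⟨ha.prime.squarefree,
      ih (List.nodup_cons.1 hn).2 fun q hq => hpr q (List.mem_cons_of_mem _ hq)⟩

theorem dvd_prodL {pr : List ℕ} {q : ℕ} (h : q ∈ pr) : q ∣ prodL pr := by
  rw [prodL_eq]; exact List.dvd_prod h

theorem mem_cof {o x : ℕ} {l t : List ℕ} :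
    x ∈ cof o l t ↔ x ∈ t ∨ ∃ p ∈ l, x = p ∨ x = o / p := by
  induction l with
  | nil => change x ∈ t ↔ _; simp
  | cons a s ih =>
    change x ∈ a :: (o / a) :: cof o s t ↔ _
    simp only [List.mem_cons, ih, exists_eq_or_imp]
    generalize (∃ p ∈ s, x = p ∨ x = o / p) = P
    tauto

theorem filN_cons (M d : ℕ) (l t : List ℕ) :
    filN M (d :: l) t = if OFF(M, d) = true then d :: filN M l t else filN M l t := by
  rw [← ite_rec]; rfl

theorem mem_filN {M x : ℕ} {l t : List ℕ} :
    x ∈ filN M l t ↔ x ∈ t ∨ x ∈ l ∧ M.testBit x = false := by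
  induction l with
  | nil => change x ∈ t ↔ _; simp
  | cons a s ih =>
    rw [filN_cons]
    split_ifs with h
    · rw [off_iff] at h
      simp only [List.mem_cons, ih]
      constructor
      · rintro (rfl | h1 | h1)
        · exact Or.inr ⟨Or.inl rfl, h⟩
        · exact Or.inl h1
        · exact Or.inr ⟨Or.inr h1.1, h1.2⟩
      · rintro (h1 | ⟨rfl | h1, h2⟩)
        · exact Or.inr (Or.inl h1)
        · exact Or.inl rfl
        · exact Or.inr (Or.inr ⟨h1, h2⟩)
    · rw [off_iff] at h
      simp only [List.mem_cons, ih]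
      constructor
      · rintro (h1 | h1)
        · exact Or.inl h1
        · exact Or.inr ⟨Or.inr h1.1, h1.2⟩
      · rintro (h1 | ⟨rfl | h1, h2⟩)
        · exact Or.inl h1
        · exact absurd h2 h
        · exact Or.inr ⟨h1, h2⟩

theorem room_zero (d : ℕ) (l : List ℕ) (M : ℕ) :
    room (d :: l) M 0 = if OFF(M, d) = true then 0 else room l M 0 := by
  rw [← ite_rec]; rfl

theorem room_succ (d : ℕ) (l : List ℕ) (M b : ℕ) :
    room (d :: l) M (b + 1) = if OFF(M, d) = true then room l SET(M, d) b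
      else room l M (b + 1) := by
  rw [← ite_rec]; rfl

theorem le_room {l : List ℕ} {M b : ℕ} {S : Finset ℕ} (h : ∀ d ∈ l, M.testBit d = false → d ∈ S) :
    b ≤ room l M b + S.card := by
  induction l generalizing M b S with
  | nil => exact Nat.le_add_right _ _
  | cons a t ih =>
    rcases b with _ | b
    · exact Nat.zero_le _
    rw [room_succ]
    split_ifs with h1
    · rw [off_iff] at h1
      have ha := h a List.mem_cons_self h1
      have := ih (M := SET(M, a)) (b := b) (S := S.erase a) fun d hd hM => by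
        rw [testBit_set, Bool.or_eq_false_iff, decide_eq_false_iff_not] at hM
        exact Finset.mem_erase.2 ⟨fun e => hM.2 e.symm, h d (List.mem_cons_of_mem _ hd) hM.1⟩
      have h2 := Finset.card_erase_add_one ha
      omega
    · exact ih fun d hd => h d (List.mem_cons_of_mem _ hd)

theorem eds_cons (HB f p : ℕ) (t : List ℕ) :
    eds HB f (p :: t) = if Nat.ble p 3 = true then eds HB f t else
      filN HB ((p - 1) / Nat.gcd (p - 1) f :: cof ((p - 1) / Nat.gcd (p - 1) f)
        (facL PL ((p - 1) / Nat.gcd (p - 1) f)) []) (eds HB f t) := by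
  rw [← ite_rec]; rfl

theorem mem_eds {HB f d : ℕ} {pr : List ℕ} (hpr : ∀ p ∈ pr, p.Prime ∧ p ≤ 94248)
    (h : d ∈ eds HB f pr) :
    HB.testBit d = false ∧ ∃ p ∈ pr, d ∣ (p - 1) / Nat.gcd (p - 1) f := by
  induction pr with
  | nil => exact absurd h List.not_mem_nil
  | cons p t ih =>
    have ih' := fun h => ih (fun q hq => hpr q (List.mem_cons_of_mem _ hq)) h
    have tail : d ∈ eds HB f t →
        HB.testBit d = false ∧ ∃ q ∈ p :: t, d ∣ (q - 1) / Nat.gcd (q - 1) f := fun h => by
      obtain ⟨a, q, hq, b⟩ := ih' h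
      exact ⟨a, q, List.mem_cons_of_mem _ hq, b⟩
    rw [eds_cons] at h
    split_ifs at h with h1
    · exact tail h
    rcases mem_filN.1 h with h | ⟨h, hb⟩
    · exact tail h
    refine ⟨hb, p, List.mem_cons_self, ?_⟩
    obtain ⟨hp, hle⟩ := hpr p List.mem_cons_self
    have hp1 : 0 < p - 1 := by have := hp.two_le; omega
    have he : 1 ≤ (p - 1) / Nat.gcd (p - 1) f :=
      Nat.div_pos (Nat.le_of_dvd hp1 (Nat.gcd_dvd_left _ _)) (Nat.gcd_pos_of_pos_left _ hp1)
    have hs := (facL_spec he ((Nat.div_le_self _ _).trans (by omega))).2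
    rcases List.mem_cons.1 h with rfl | h
    · exact dvd_rfl
    rcases mem_cof.1 h with h | ⟨q, hq, rfl | rfl⟩
    · exact absurd h List.not_mem_nil
    · exact ((hs _).1 hq).2
    · exact Nat.div_dvd_of_dvd ((hs _).1 hq).2

theorem mem_addP {PP x : ℕ} {pr ps : List ℕ} (h : x ∈ addP PP pr ps) : x ∈ pr ∨ x ∈ ps := by
  induction pr with
  | nil => exact Or.inr h
  | cons p t ih =>
    have e : addP PP (p :: t) ps =
        if Nat.beq (PP % p) 0 = true then addP PP t ps else p :: addP PP t ps := by
      rw [← ite_rec]; rfl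
    rw [e] at h
    have tail : x ∈ addP PP t ps → x ∈ p :: t ∨ x ∈ ps := fun h =>
      (ih h).imp_left (List.mem_cons_of_mem _)
    split_ifs at h
    · exact tail h
    · rcases List.mem_cons.1 h with rfl | h
      · exact Or.inl List.mem_cons_self
      · exact tail h

theorem filS_cons (L A n : ℕ) (sm : List ℕ) :
    filS L A (n :: sm) = if Nat.beq (n % L) 0 = true then
      (if Nat.ble L (A * n) = true then n :: filS L A sm else filS L A sm) else filS L A sm := by
  rw [← ite_rec, ← ite_rec]; rfl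

theorem filS_sublist (L A : ℕ) (sm : List ℕ) : (filS L A sm).Sublist sm := by
  induction sm with
  | nil => exact List.Sublist.slnil
  | cons a t ih =>
    rw [filS_cons]
    split_ifs
    · exact ih.cons_cons a
    · exact ih.cons a
    · exact ih.cons a

theorem mem_filS {L A n : ℕ} {sm : List ℕ} (h : n ∈ sm) (h1 : L ∣ n) (h2 : L ≤ A * n) :
    n ∈ filS L A sm := by
  induction sm with
  | nil => exact absurd h List.not_mem_nil
  | cons a t ih =>
    rw [filS_cons]
    rcases List.mem_cons.1 h with rfl | h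
    · rw [if_pos (Nat.beq_eq.mpr (Nat.mod_eq_zero_of_dvd h1)), if_pos (Nat.ble_eq.mpr h2)]
      exact List.mem_cons_self
    · split_ifs
      · exact List.mem_cons_of_mem _ (ih h)
      · exact ih h
      · exact ih h

theorem hd_le {sm : List ℕ} {N : ℕ} (h1 : sm.Pairwise (· ≤ ·)) (h2 : ∀ n ∈ sm, n ≤ 6233)
    (h3 : N ∈ sm ∨ 6233 ≤ N) : hd sm 6233 ≤ N := by
  rcases sm with _ | ⟨a, t⟩
  · exact h3.resolve_left List.not_mem_nil
  · change a ≤ N
    rcases h3 with h3 | h3
    · rcases List.mem_cons.1 h3 with rfl | h3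
      · exact le_rfl
      · exact (List.pairwise_cons.1 h1).1 N h3
    · exact (h2 a List.mem_cons_self).trans h3

theorem hd_eq_iff {o : ℕ} {pr : List ℕ} (ho : 2 ≤ o) (hpr : ∀ q, q ∈ pr ↔ q.Prime ∧ q ∣ o) :
    hd pr 0 = o ↔ o.Prime := by
  rcases pr with _ | ⟨a, t⟩
  · exact absurd ((hpr _).2 ⟨Nat.minFac_prime (by omega), Nat.minFac_dvd o⟩) List.not_mem_nil
  · change a = o ↔ _
    obtain ⟨ha, hd⟩ := (hpr a).1 List.mem_cons_self
    exact ⟨fun e => e ▸ ha, fun h => (Nat.prime_dvd_prime_iff_eq ha h).1 hd⟩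

theorem toL_cons (a b c : ℕ) (t : L3) : toL (L3.cons a b c t) = ⟨a, b, c⟩ :: toL t := rfl

theorem keys_eq (nd : L3) : keys nd = (toL nd).map T.o := by
  induction nd with
  | nil => rfl
  | cons a b c t ih => rw [toL_cons, List.map_cons, ← ih]; rfl

theorem keys_cons (a b c : ℕ) (t : L3) : keys (L3.cons a b c t) = a :: keys t := rfl

theorem mem_ords {nd : L3} {t : List ℕ} {x : ℕ} :
    x ∈ ords nd t ↔ x ∈ t ∨ ∃ d ∈ keys nd, x = d ∨ x = d + 1 := by
  induction nd with
  | nil => change x ∈ t ↔ x ∈ t ∨ ∃ d ∈ ([] : List ℕ), _; simp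
  | cons a b c s ih =>
    change x ∈ a :: (a + 1) :: ords s t ↔ _
    simp only [keys_cons, List.mem_cons, ih, exists_eq_or_imp]
    generalize (∃ d ∈ keys s, x = d ∨ x = d + 1) = P
    tauto

theorem mem_prods_aux (d : ℕ) (r : List ℕ) (s : L3) {x : ℕ}
    (h : x ∈ r ∨ ∃ e ∈ keys s, x = d * e) :
    x ∈ (L3.rec r (fun e _ _ _ r => (d *' e) :: r) s : List ℕ) := by
  induction s with
  | nil =>
    rcases h with h | ⟨e, he, _⟩
    · exact h
    · exact absurd he List.not_mem_nil
  | cons a b c t ih =>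
    change x ∈ d * a :: _
    rcases h with h | ⟨e, he, h⟩
    · exact List.mem_cons_of_mem _ (ih (Or.inl h))
    · rcases List.mem_cons.1 he with rfl | he
      · exact h ▸ List.mem_cons_self
      · exact List.mem_cons_of_mem _ (ih (Or.inr ⟨e, he, h⟩))

theorem mul_mem_prods {nd : L3} {a b : ℕ} (ha : a ∈ keys nd) (hb : b ∈ keys nd) :
    a * b ∈ prods nd := by
  induction nd with
  | nil => exact absurd ha List.not_mem_nil
  | cons d m c t ih =>
    change a * b ∈ d * d :: (L3.rec (prods t) (fun e _ _ _ r => (d *' e) :: r) t : List ℕ)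
    rcases List.mem_cons.1 ha with rfl | ha' <;> rcases List.mem_cons.1 hb with rfl | hb'
    · exact List.mem_cons_self
    · exact List.mem_cons_of_mem _ (mem_prods_aux _ _ _ (Or.inr ⟨b, hb', rfl⟩))
    · exact List.mem_cons_of_mem _ (mem_prods_aux _ _ _ (Or.inr ⟨a, ha', mul_comm _ _⟩))
    · exact List.mem_cons_of_mem _ (mem_prods_aux _ _ _ (Or.inl (ih ha' hb')))

theorem testBit_mask (nd : L3) (d : ℕ) : (mask nd).testBit d = false ↔ 2 ≤ d ∧ d ∉ keys nd := by
  induction nd with
  | nil =>
    change (2 ^ 2 - 1 : ℕ).testBit d = false ↔ 2 ≤ d ∧ d ∉ ([] : List ℕ)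
    rw [Nat.testBit_two_pow_sub_one]
    simp only [decide_eq_false_iff_not, List.not_mem_nil, not_false_eq_true, and_true]
    omega
  | cons a b c t ih =>
    change (SET(mask t, a)).testBit d = false ↔ _
    rw [testBit_set, Bool.or_eq_false_iff, ih, decide_eq_false_iff_not, keys_cons, List.mem_cons]
    constructor
    · rintro ⟨⟨h1, h2⟩, h3⟩
      exact ⟨h1, fun h => h.elim (fun e => h3 e.symm) h2⟩
    · rintro ⟨h1, h2⟩
      exact ⟨⟨h1, fun h => h2 (Or.inr h)⟩, fun e => h2 (Or.inl e.symm)⟩

end Cfsg.Agent.KC
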