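import Mathlib
import Cfsg.Agent.KC.SndA

/-! Soundness of the enumeration of the centralizer orders. -/

set_option autoImplicit false

namespace Cfsg.Agent.KC

namespace SndC

theorem mem_ins {x y : ℕ} {l : List ℕ} (h : x = y ∨ x ∈ l) : x ∈ ins y l := by
  have h1 : ∀ l : List ℕ, (List.rec false (fun h _ ih => IF h =' y THEN true ELSE ih) l : Bool) = true → y ∈ l := by
    intro l
    induction l with
    | nil => exact fun e => absurd e Bool.false_ne_true
    | cons a t ih =>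
      intro e
      change (IF a =' y THEN true ELSE _) = true at e
      rw [ite_rec] at e
      split_ifs at e with e'
      · exact Nat.eq_of_beq_eq_true e' ▸ List.mem_cons_self
      · exact List.mem_cons_of_mem _ (ih e)
  unfold ins
  rw [ite_rec]
  split_ifs with e
  · exact h.elim (fun e' => e' ▸ h1 l e) id
  · exact List.mem_cons.2 h

theorem mem_fold {q P x : ℕ} {l t : List ℕ} (h : x ∈ t ∨ ∃ u ∈ l, Nat.gcd u q = 1 ∧ x = u * P) :
    x ∈ (List.rec t (fun u _ r => IF Nat.gcd u q =' 1 THEN ins (u *' P) r ELSE r) l : List ℕ) := by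
  induction l with
  | nil => exact h.resolve_right fun ⟨_, e, _⟩ => absurd e List.not_mem_nil
  | cons a s ih =>
    change x ∈ (IF Nat.gcd a q =' 1 THEN ins (a *' P) _ ELSE _)
    rw [ite_rec]
    rcases h with h | ⟨u, hu, e, rfl⟩
    · split_ifs
      · exact mem_ins (Or.inr (ih (Or.inl h)))
      · exact ih (Or.inl h)
    rcases List.mem_cons.1 hu with rfl | hu
    · rw [if_pos (Nat.beq_eq ▸ e)]
      exact mem_ins (Or.inl rfl)
    · split_ifs
      · exact mem_ins (Or.inr (ih (Or.inr ⟨u, hu, e, rfl⟩)))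
      · exact ih (Or.inr ⟨u, hu, e, rfl⟩)

theorem usL_cons (o PP a b c : ℕ) (t : L3) : usL o PP (L3.cons a b c t) =
    if a % o = 0 then if a = o then usL o PP t else if Nat.gcd (a / o) o + PP % (a / o) = 1 then
      List.rec (usL o PP t) (fun u _ r => IF Nat.gcd u (a / o) =' 1 THEN ins (u *' PART(c, a / o)) r ELSE r)
        (usL o PP t) else usL o PP t else usL o PP t := by
  have h : ∀ X Y : List ℕ, (IF (a % o) =' 0 THEN (IF a =' o THEN X ELSE
      IF (Nat.gcd (a / o) o + PP % (a / o)) =' 1 THEN Y ELSE X) ELSE X) =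
      if a % o = 0 then if a = o then X else if Nat.gcd (a / o) o + PP % (a / o) = 1 then Y else X else X :=
    fun X Y => by simp only [ite_rec, Nat.beq_eq]
  exact h _ _

theorem mem_usL {o PP : ℕ} (ho : o ≠ 0) (cl : L3) : ∀ u, u ≠ 0 → (∀ q, q.Prime → q ∣ u → ¬ q ∣ o ∧ q ∣ PP ∧
    ∃ z ∈ toL cl, z.o = q * o ∧ z.c ≠ 0 ∧ z.c.factorization q = u.factorization q) → u ∈ usL o PP cl := by
  induction cl with
  | nil =>
    intro u _ h
    rw [Nat.eq_one_iff_not_exists_prime_dvd.2 fun q hq e => (h q hq e).2.2.elim fun _ e =>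
      absurd e.1 List.not_mem_nil]
    exact List.mem_singleton_self 1
  | cons a b c t ih =>
    intro u hu h
    rw [usL_cons]
    by_cases h0 : ∃ q, q.Prime ∧ q ∣ u ∧ a = q * o ∧ c ≠ 0 ∧ c.factorization q = u.factorization q
    · obtain ⟨p, hp, h1, rfl, h2, h3⟩ := h0
      have h4 : u / PART(u, p) * PART(u, p) = u := Nat.div_mul_cancel (part_dvd u p)
      have h5 : u / PART(u, p) ≠ 0 := fun e => hu (by rw [← h4, e, zero_mul])
      have h6 : ¬ p ∣ u / PART(u, p) := fun e => by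
        have := (hp.dvd_iff_one_le_factorization h5).1 e
        rw [fact_div_part hu hp.ne_zero hp, if_pos dvd_rfl] at this
        omega
      rw [if_pos (Nat.mul_mod_left _ _), if_neg fun e => hp.ne_one ((mul_eq_right₀ ho).1 e),
        Nat.mul_div_cancel _ (Nat.pos_of_ne_zero ho), if_pos (by
          rw [(hp.coprime_iff_not_dvd.2 (h p hp h1).1).gcd_eq_one, Nat.mod_eq_zero_of_dvd (h p hp h1).2.1])]
      refine mem_fold (Or.inr ⟨_, ih _ h5 fun q hq e => ?_, (hp.coprime_iff_not_dvd.2 h6).symm, ?_⟩)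
      · obtain ⟨e1, e2, z, hz, e3, e4, e5⟩ := h q hq (e.trans (Dvd.intro _ h4))
        have e6 : q ≠ p := fun e' => h6 (e' ▸ e)
        refine ⟨e1, e2, z, (List.mem_cons.1 hz).resolve_left fun e' => e6 ?_, e3, e4, ?_⟩
        · rw [e'] at e3
          exact (mul_right_cancel₀ ho e3).symm
        · rw [fact_div_part hu hp.ne_zero hq, if_neg fun e' => e6 ((Nat.prime_dvd_prime_iff_eq hq hp).1 e'), e5]
      · rw [show PART(c, p) = PART(u, p) from Nat.eq_of_factorization_eq (part_ne_zero h2 p) (part_ne_zero hu p)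
          fun q => ?_, h4]
        by_cases hq : q.Prime
        · rw [fact_part h2 hp.ne_zero hq, fact_part hu hp.ne_zero hq]
          split_ifs with e
          · rw [(Nat.prime_dvd_prime_iff_eq hq hp).1 e, h3]
          · rfl
        · rw [Nat.factorization_eq_zero_of_not_prime _ hq, Nat.factorization_eq_zero_of_not_prime _ hq]
    have h1 := ih u hu fun q hq e => by
      obtain ⟨e1, e2, z, hz, e3⟩ := h q hq e
      exact ⟨e1, e2, z, (List.mem_cons.1 hz).resolve_left fun e' => h0 ⟨q, hq, e, by rwa [e'] at e3⟩, e3⟩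
    split_ifs
    exacts [h1, mem_fold (Or.inl h1), h1, h1]

theorem loop {hi p : ℕ} {g : ℕ → Bool} (hp : 0 < p) (n : ℕ) : ∀ x,
    Nat.rec (motive := fun _ => ℕ → Bool) (fun _ => false) (fun _ r x => IF x ≤' hi THEN
      (IF g x THEN r (x *' p) ELSE false) ELSE true) n x = true → ∀ j, x * p ^ j ≤ hi → g (x * p ^ j) = true := by
  induction n with
  | zero => exact fun _ e => absurd e Bool.false_ne_true
  | succ n ih =>
    intro x e j h
    change (IF x ≤' hi THEN (IF g x THEN _ ELSE false) ELSE true) = true at e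
    rw [ite_rec, ite_rec, if_pos (Nat.ble_eq ▸ (Nat.le_mul_of_pos_right _ (pow_pos hp j)).trans h)] at e
    split_ifs at e with e'
    rcases j with - | j
    · rwa [pow_zero, mul_one]
    · rw [pow_succ', ← mul_assoc] at h ⊢
      exact ih _ e j h

theorem smo_sound {hi : ℕ} {k : ℕ → Bool} (l : List ℕ) (hl : ∀ p ∈ l, p.Prime) : ∀ x m, smo hi k l x = true →
    m ≠ 0 → (∀ q, q.Prime → q ∣ m → q ∈ l) → x * m ≤ hi → k (x * m) = true := by
  induction l with
  | nil =>
    intro x m e _ h _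
    rwa [Nat.eq_one_iff_not_exists_prime_dvd.2 fun q hq e => absurd (h q hq e) List.not_mem_nil, mul_one]
  | cons p t ih =>
    intro x m e hm h h'
    have hp := hl p List.mem_cons_self
    obtain ⟨j, m, h1, rfl⟩ := Nat.exists_eq_pow_mul_and_not_dvd hm p hp.ne_one
    have h2 := right_ne_zero_of_mul hm
    rw [← mul_assoc] at h' ⊢
    exact ih (fun q hq => hl q (List.mem_cons_of_mem _ hq)) _ m (loop (g := smo hi k t) hp.pos 100 x e j
      ((Nat.le_mul_of_pos_right _ (Nat.pos_of_ne_zero h2)).trans h')) h2 (fun q hq e' =>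
        (List.mem_cons.1 (h q hq (e'.mul_left _))).resolve_left fun e'' => h1 (e'' ▸ e')) h'

theorem pws_sound {lo hi p x j : ℕ} {k : ℕ → Bool} (hp : 2 ≤ p) (e : pws lo hi k p x = true)
    (h1 : lo ≤ x * p ^ j) (h2 : x * p ^ j ≤ hi) : k (x * p ^ j) = true := by
  obtain ⟨i, rfl⟩ : ∃ i, j = Nat.log2 (lo / x) / (Nat.log2 (p - 1) + 1) + i := Nat.exists_eq_add_of_le (by
    by_contra! h
    have h3 := (Nat.le_div_iff_mul_le (Nat.succ_pos _)).1 (Nat.succ_le_of_lt h)
    have h4 : lo / x ≠ 0 := fun e => by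
      rw [e, Nat.log2_zero] at h3
      exact absurd h3 (Nat.not_le.2 (Nat.mul_pos (Nat.succ_pos _) (Nat.succ_pos _)))
    have h5 : p ≤ 2 ^ (Nat.log2 (p - 1) + 1) := by have := @Nat.lt_log2_self (p - 1); omega
    have h6 : p ^ (j + 1) ≤ lo / x := (Nat.pow_le_pow_left h5 _).trans (by
      rw [← pow_mul, mul_comm]; exact (Nat.le_log2 h4).1 h3)
    have h7 : 0 < x := Nat.pos_of_ne_zero fun e => h4 (by rw [e, Nat.div_zero])
    have h8 := ((Nat.le_div_iff_mul_le h7).1 h6).trans h1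
    rw [mul_comm] at h8
    exact absurd (Nat.le_of_mul_le_mul_left h8 h7) (Nat.not_le.2 (Nat.pow_lt_pow_right hp (Nat.lt_succ_self j))))
  rw [pow_add, ← mul_assoc] at h1 h2 ⊢
  have h3 := loop (g := fun y => IF lo ≤' y THEN k y ELSE true) (by omega : 0 < p) 100 _ e i h2
  simp only [ite_rec, Nat.ble_eq] at h3
  exact (if_pos h1).symm.trans h3

end SndC

theorem cand_sound {o c lo hi PP : ℕ} {cl : L3} {pr : List ℕ} {k : ℕ → Bool} (ho : 2 ≤ o)
    (hpr : ∀ q, q ∈ pr ↔ q.Prime ∧ q ∣ o) (hc : c ≠ 0) (hoc : o ∣ c) (h4 : o = 2 → 4 ∣ c)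
    (hlo : lo ≤ c) (hhi : c ≤ hi)
    (hu : ∀ q, q.Prime → q ∣ c → ¬ q ∣ o → q ∣ PP ∧
      ∃ z ∈ toL cl, z.o = q * o ∧ z.c ≠ 0 ∧ z.c.factorization q = c.factorization q)
    (h : (allL (usL o PP cl) fun u =>
      smo hi (pws lo hi k (hd pr 0)) (tl pr) (u *' (IF o =' 2 THEN 4 ELSE o))) = true) :
    k c = true := by
  have o0 : o ≠ 0 := by omega
  have h1 : c / PART(c, o) * PART(c, o) = c := Nat.div_mul_cancel (part_dvd c o)
  have h2 : c / PART(c, o) ≠ 0 := fun e => hc (by rw [← h1, e, zero_mul])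
  have h3 := allL_sound h _ (SndC.mem_usL o0 cl _ h2 fun q hq e => by
    have e1 : ¬ q ∣ o := fun e' => by
      have := (hq.dvd_iff_one_le_factorization h2).1 e
      rw [fact_div_part hc o0 hq, if_pos e'] at this
      omega
    rw [fact_div_part hc o0 hq, if_neg e1]
    exact ⟨e1, hu q hq (e.trans (Dvd.intro _ h1)) e1⟩)
  obtain ⟨h5, h6⟩ : (IF o =' 2 THEN 4 ELSE o : ℕ) ∣ c ∧ ∀ q : ℕ, q.Prime → q ∣ (IF o =' 2 THEN 4 ELSE o : ℕ) → q ∣ o := by
    simp only [ite_rec, Nat.beq_eq]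
    split_ifs with e
    · exact ⟨h4 e, fun q hq e' => e ▸ hq.dvd_of_dvd_pow (show q ∣ 2 ^ 2 from e')⟩
    · exact ⟨hoc, fun _ _ => id⟩
  generalize (IF o =' 2 THEN 4 ELSE o : ℕ) = a at h3 h5 h6
  have a0 : a ≠ 0 := ne_zero_of_dvd_ne_zero hc h5
  obtain ⟨m, hm⟩ : a ∣ PART(c, o) := (Nat.factorization_prime_le_iff_dvd a0 (part_ne_zero hc o)).1 fun q hq => by
    rw [fact_part hc o0 hq]
    split_ifs with e
    · exact (Nat.factorization_prime_le_iff_dvd a0 hc).2 h5 q hq
    · exact (Nat.factorization_eq_zero_of_not_dvd fun e' => e (h6 q hq e')).le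
  have h7 : ∀ q, q.Prime → q ∣ m → q ∈ pr := fun q hq e => (hpr q).2 ⟨hq, by_contra fun e' => by
    have := (hq.dvd_iff_one_le_factorization (part_ne_zero hc o)).1 (hm ▸ e.mul_left a)
    rw [fact_part hc o0 hq, if_neg e'] at this
    omega⟩
  have m0 : m ≠ 0 := right_ne_zero_of_mul (hm ▸ part_ne_zero hc o)
  rcases pr with - | ⟨p, t⟩
  · exact absurd ((hpr _).2 ⟨Nat.minFac_prime (by omega), Nat.minFac_dvd o⟩) List.not_mem_nil
  have hp := ((hpr p).1 List.mem_cons_self).1
  obtain ⟨j, m, h8, rfl⟩ := Nat.exists_eq_pow_mul_and_not_dvd m0 p hp.ne_one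
  generalize c / PART(c, o) = u at h1 h3
  have h9 : u * a * m * p ^ j = c := by rw [← h1, hm]; ring
  rw [← h9] at hlo hhi ⊢
  exact SndC.pws_sound hp.two_le (SndC.smo_sound t (fun q hq => ((hpr q).1 (List.mem_cons_of_mem _ hq)).1) _ m h3
    (right_ne_zero_of_mul m0) (fun q hq e => (List.mem_cons.1 (h7 q hq (e.mul_left _))).resolve_left
      fun e' => h8 (e' ▸ e)) ((Nat.le_mul_of_pos_right _ (pow_pos hp.pos j)).trans hhi)) hlo hhi

end Cfsg.Agent.KC
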