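import Mathlib
import Cfsg.Agent.KC.Def

/-! The invariant of the search. -/

set_option autoImplicit false

namespace Cfsg.Agent.KC

/-- The recorded demands are met by the remaining classes. -/
def Nd (R : List T) (nd : L3) : Prop :=
  (keys nd).Nodup ∧ ∀ e ∈ toL nd, ∃ y ∈ R, y.o = e.o ∧ e.f ∣ y.c

/-- The order in which the classes are placed. -/
def Le (x y : T) : Prop := x.c < y.c ∨ x.c = y.c ∧ (y.o < x.o ∨ y.o = x.o ∧ y.f ≤ x.f)

/-- The orders of remaining classes that are not yet demanded. -/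
noncomputable def free (R : List T) (nd : L3) : Finset ℕ := (R.map T.o).toFinset \ (keys nd).toFinset

/-- The tokens count the missing classes. -/
def Tok (P : List T) (nd : L3) : Prop :=
  (∀ d, tok nd d ≠ 0) ∧ ∀ d q, q.Prime → 1 < d →
    (tok nd d).factorization q + P.countP (isB d q) = P.countP (isA d q)

/-- The invariant: `R` is the list of the remaining classes. -/
structure Inv (K N : ℕ) (D : List T) (st : St) (R : List T) : Prop where
  perm : D.Perm (toL st.cl ++ R)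
  sorted : R.Pairwise Le
  below : ∀ y ∈ toL st.cl, ∀ z ∈ R, Le y z
  last : ∀ z ∈ R, Le ⟨st.po, st.pf, st.pc⟩ z
  s_eq : st.s = (R.map T.f).sum
  L_dvd : st.L ∣ N
  mass : st.A * N = st.L * ((R.map fun y => y.f * (N / y.c)).sum + 1)
  nmax : st.nmax = 0 ∨ N ≤ st.nmax
  nd : Nd R st.nd
  tok : Tok (toL st.cl) st.nd
  dem : st.dem + (free R st.nd).card ≤ R.length
  ps : ∀ p ∈ st.ps, p.Prime
  sq : Squarefree st.PP
  pp : ∀ y ∈ toL st.cl, ∀ q, q.Prime → q ∣ y.o → q ∣ st.PP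
  B : ∀ y ∈ toL st.cl, y.o.Prime → PART(y.c, y.o) ∣ st.B
  zp : ∀ z ∈ R, Nat.gcd z.o st.zp = 1
  zp' : Nat.gcd N (st.zp * st.zp) ∣ st.zp
  HB : ∀ d, st.HB.testBit d = false ↔ 2 ≤ d ∧ ∀ y ∈ toL st.cl, y.o ≠ d
  sm₁ : st.sm.Pairwise (· ≤ ·)
  sm₂ : ∀ n ∈ st.sm, n ≤ 6233
  sm₃ : N ∈ st.sm ∨ 6233 ≤ N

end Cfsg.Agent.KC
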