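import Mathlib
import Cfsg.Agent.KC.Inv
import Cfsg.Agent.KC.SndA

/-! The list of demands of the search. -/

set_option autoImplicit false

namespace Cfsg.Agent.KC

variable {R : List T} {nd : L3}

theorem tok_cons (a b c : ℕ) (t : L3) (d : ℕ) :
    tok (L3.cons a b c t) d = if a = d then c else tok t d := by
  have : tok (L3.cons a b c t) d = if Nat.beq a d = true then c else tok t d := by
    rw [← ite_rec]; rfl
  simpa only [Nat.beq_eq] using this

theorem tok_of_not_mem {d : ℕ} (h : d ∉ keys nd) : tok nd d = 1 := by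
  induction nd with
  | nil => rfl
  | cons a b c t ih =>
    rw [keys_cons, List.mem_cons, not_or] at h
    rw [tok_cons, if_neg fun e => h.1 e.symm, ih h.2]

theorem addN_cons (d m t a b c : ℕ) (s : L3) :
    addN d m t (L3.cons a b c s) = if a = d then L3.cons d (m + (b - m)) (t * c) s
      else L3.cons a b c (addN d m t s) := by
  have : addN d m t (L3.cons a b c s) = if Nat.beq a d = true then
      L3.cons d (m + (b - m)) (t * c) s else L3.cons a b c (addN d m t s) := by
    rw [← ite_rec]; rfl
  simpa only [Nat.beq_eq] using this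

theorem tok_addN (d m t : ℕ) (nd : L3) (e : ℕ) :
    tok (addN d m t nd) e = if e = d then t * tok nd d else tok nd e := by
  induction nd with
  | nil =>
    change tok (L3.cons d m t L3.nil) e = if e = d then t * 1 else 1
    rw [tok_cons, mul_one]
    by_cases h : e = d
    · rw [if_pos h, if_pos h.symm]
    · rw [if_neg h, if_neg fun e' => h e'.symm]; rfl
  | cons a b c s ih =>
    rw [addN_cons]
    by_cases h : a = d
    · subst h
      rw [if_pos rfl, tok_cons, tok_cons, tok_cons, if_pos rfl]
      by_cases h' : e = a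
      · rw [if_pos h', if_pos h'.symm]
      · rw [if_neg h', if_neg fun e' => h' e'.symm, if_neg fun e' => h' e'.symm]
    · rw [if_neg h, tok_cons, tok_cons, tok_cons, if_neg h, ih]
      by_cases h' : e = d
      · subst h'
        rw [if_neg h, if_pos rfl, if_pos rfl]
      · rw [if_neg h', if_neg h']

theorem mem_keys_addN {d m t x : ℕ} : x ∈ keys (addN d m t nd) ↔ x = d ∨ x ∈ keys nd := by
  induction nd with
  | nil => exact List.mem_cons
  | cons a b c s ih =>
    rw [addN_cons]
    split_ifs with h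
    · subst h
      simp only [keys_cons, List.mem_cons]
      tauto
    · simp only [keys_cons, List.mem_cons, ih]
      tauto

theorem nd_cons {a b c : ℕ} {s : L3} : Nd R (L3.cons a b c s) ↔
    a ∉ keys s ∧ (∃ y ∈ R, y.o = a ∧ b ∣ y.c) ∧ Nd R s := by
  unfold Nd
  rw [keys_cons, toL_cons, List.nodup_cons, List.forall_mem_cons]
  tauto

theorem nd_nil : Nd R L3.nil := ⟨List.nodup_nil, fun _ h => absurd h List.not_mem_nil⟩

theorem Nd.mono {R' : List T} (h : Nd R nd) (hR : ∀ y ∈ R, y.o ∈ keys nd → y ∈ R') :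
    Nd R' nd := by
  refine ⟨h.1, fun e he => ?_⟩
  obtain ⟨y, hy, h1, h2⟩ := h.2 e he
  refine ⟨y, hR y hy ?_, h1, h2⟩
  rw [keys_eq, h1]
  exact List.mem_map_of_mem he

theorem Nd.addN (h : Nd R nd) {d m : ℕ} (t : ℕ) (hy : ∃ y ∈ R, y.o = d ∧ m ∣ y.c) :
    Nd R (addN d m t nd) := by
  induction nd with
  | nil => exact nd_cons.2 ⟨List.not_mem_nil, hy, nd_nil⟩
  | cons a b c s ih =>
    obtain ⟨h1, h2, h3⟩ := nd_cons.1 h
    rw [addN_cons]
    split_ifs with e
    · subst e
      refine nd_cons.2 ⟨h1, ?_, h3⟩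
      rcases le_total m b with hl | hl
      · rw [Nat.add_sub_cancel' hl]; exact h2
      · rw [Nat.sub_eq_zero_of_le hl]; exact hy
    · refine nd_cons.2 ⟨fun hm => ?_, h2, ih h3⟩
      exact (mem_keys_addN.1 hm).elim e h1

theorem tok_addN_one (d m : ℕ) (nd : L3) (e : ℕ) : tok (addN d m 1 nd) e = tok nd e := by
  rw [tok_addN]
  split_ifs with h
  · rw [one_mul, h]
  · rfl

theorem tok_addL (l : List ℕ) (nd : L3) (e : ℕ) : tok (addL l nd) e = tok nd e := by
  induction l with
  | nil => rfl
  | cons a t ih => exact (tok_addN_one a a (addL t nd) e).trans ih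

theorem Nd.addL (h : Nd R nd) {l : List ℕ} (hy : ∀ d ∈ l, ∃ y ∈ R, y.o = d ∧ d ∣ y.c) :
    Nd R (addL l nd) := by
  induction l with
  | nil => exact h
  | cons a t ih =>
    exact (ih fun d hd => hy d (List.mem_cons_of_mem _ hd)).addN 1 (hy a List.mem_cons_self)

theorem dis_cons (o c g a b t : ℕ) (s : L3) :
    dis o c g (L3.cons a b t s) = if a = o then (if c % b = 0 then
      (if t = g then s else L3.cons a a (t / g) s) else L3.cons a b (t / g) s)
      else L3.cons a b t (dis o c g s) := by
  have : dis o c g (L3.cons a b t s) = if Nat.beq a o = true then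
      (if Nat.beq (c % b) 0 = true then
      (if Nat.beq t g = true then s else L3.cons a a (t / g) s) else L3.cons a b (t / g) s)
      else L3.cons a b t (dis o c g s) := by
    rw [← ite_rec, ← ite_rec, ← ite_rec]; rfl
  simpa only [Nat.beq_eq] using this

theorem tok_dis (h : (keys nd).Nodup) (o c g e : ℕ) (hg : g ∣ tok nd o) (h0 : tok nd o ≠ 0) :
    tok (dis o c g nd) e = if e = o then tok nd o / g else tok nd e := by
  induction nd with
  | nil =>
    change 1 = if e = o then 1 / g else 1
    rw [Nat.dvd_one.1 hg]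
    split_ifs <;> rfl
  | cons a b t s ih =>
    rw [keys_cons, List.nodup_cons] at h
    rw [dis_cons]
    by_cases e1 : a = o
    · subst e1
      rw [tok_cons, if_pos rfl] at h0
      have key : ∀ b', tok (L3.cons a b' (t / g) s) e =
          if e = a then tok (L3.cons a b t s) a / g else tok (L3.cons a b t s) e := by
        intro b'
        rw [tok_cons, tok_cons, tok_cons, if_pos rfl]
        by_cases h' : e = a
        · rw [if_pos h', if_pos h'.symm]
        · rw [if_neg h', if_neg fun e' => h' e'.symm, if_neg fun e' => h' e'.symm]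
      rw [if_pos rfl]
      split_ifs with h1 h2 h3 h4 h5
      · rw [h3, tok_of_not_mem h.1, tok_cons, if_pos rfl, h2, Nat.div_self]
        exact Nat.pos_of_ne_zero (h2 ▸ h0)
      · rw [tok_cons, if_neg fun e' => h3 e'.symm]
      · rw [key, if_pos h4]
      · rw [key, if_neg h4]
      · rw [key, if_pos h5]
      · rw [key, if_neg h5]
    · rw [tok_cons, if_neg e1] at hg h0
      rw [if_neg e1, tok_cons, tok_cons, tok_cons, if_neg e1, ih h.2 hg h0]
      by_cases h' : e = o
      · subst h'
        rw [if_neg e1, if_pos rfl, if_pos rfl]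
      · rw [if_neg h', if_neg h']

theorem mem_keys_dis {o c g x : ℕ} (h : x ∈ keys (dis o c g nd)) : x ∈ keys nd := by
  induction nd with
  | nil => exact h
  | cons a b t s ih =>
    rw [dis_cons] at h
    split_ifs at h
    · exact List.mem_cons_of_mem _ h
    · exact h
    · exact h
    · rcases List.mem_cons.1 h with rfl | h
      · exact List.mem_cons_self
      · exact List.mem_cons_of_mem _ (ih h)

theorem Nd.dis {x : T} (h : Nd (x :: R) nd) (g : ℕ)
    (hy : tok nd x.o ≠ g → ∃ y ∈ R, y.o = x.o ∧ x.o ∣ y.c) : Nd R (dis x.o x.c g nd) := by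
  induction nd with
  | nil => exact nd_nil
  | cons a b t s ih =>
    obtain ⟨h1, h2, h3⟩ := nd_cons.1 h
    rw [dis_cons]
    by_cases e : a = x.o
    · have h4 : Nd R s := h3.mono fun y hy hk => by
        rcases List.mem_cons.1 hy with rfl | hy
        · exact absurd (e ▸ hk) h1
        · exact hy
      rw [tok_cons, if_pos e] at hy
      rw [if_pos e]
      split_ifs with c1 c2
      · exact h4
      · exact nd_cons.2 ⟨h1, e ▸ hy c2, h4⟩
      · refine nd_cons.2 ⟨h1, ?_, h4⟩
        obtain ⟨y, hy, a1, a2⟩ := h2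
        rcases List.mem_cons.1 hy with rfl | hy
        · exact absurd (Nat.mod_eq_zero_of_dvd a2) c1
        · exact ⟨y, hy, a1, a2⟩
    · rw [tok_cons, if_neg e] at hy
      rw [if_neg e]
      refine nd_cons.2 ⟨fun hm => h1 (mem_keys_dis hm), ?_, ih h3 hy⟩
      obtain ⟨y, hy, a1, a2⟩ := h2
      rcases List.mem_cons.1 hy with rfl | hy
      · exact absurd a1.symm e
      · exact ⟨y, hy, a1, a2⟩

theorem addD_cons (o c p : ℕ) (t : List ℕ) (nd : L3) :
    addD o c (p :: t) nd = if p = o then addD o c t nd else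
      addN (o / p) c (if c % (p * p) = 0 then 1 else p) (addN p c 1 (addD o c t nd)) := by
  have : addD o c (p :: t) nd = if Nat.beq p o = true then addD o c t nd else
      addN (o / p) c (if Nat.beq (c % (p * p)) 0 = true then 1 else p)
        (addN p c 1 (addD o c t nd)) := by
    rw [← ite_rec, ← ite_rec]; rfl
  simpa only [Nat.beq_eq] using this

theorem Nd.addD (h : Nd R nd) {o c : ℕ} {pr : List ℕ}
    (hy : ∀ p ∈ pr, p ≠ o → (∃ y ∈ R, y.o = p ∧ c ∣ y.c) ∧ ∃ y ∈ R, y.o = o / p ∧ c ∣ y.c) :
    Nd R (addD o c pr nd) := by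
  induction pr with
  | nil => exact h
  | cons p t ih =>
    have ih' := ih fun q hq => hy q (List.mem_cons_of_mem _ hq)
    rw [addD_cons]
    by_cases e : p = o
    · rw [if_pos e]; exact ih'
    · rw [if_neg e]
      obtain ⟨a1, a2⟩ := hy p List.mem_cons_self e
      exact (ih'.addN 1 a1).addN _ a2

theorem tok_addD {o c : ℕ} {pr : List ℕ} (hn : pr.Nodup) (hpr : ∀ p ∈ pr, p.Prime ∧ p ∣ o)
    (h0 : ∀ d, tok nd d ≠ 0) :
    (∀ d, tok (addD o c pr nd) d ≠ 0) ∧ ∀ d q, q.Prime → 1 < d →
      (tok (addD o c pr nd) d).factorization q =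
        (tok nd d).factorization q + if q ∈ pr ∧ o = q * d ∧ ¬ q ^ 2 ∣ c then 1 else 0 := by
  induction pr with
  | nil => exact ⟨h0, fun d q _ _ => by rw [if_neg (by simp)]; rfl⟩
  | cons p t ih =>
    rw [List.nodup_cons] at hn
    obtain ⟨i1, i2⟩ := ih hn.2 fun q hq => hpr q (List.mem_cons_of_mem _ hq)
    obtain ⟨hp, hpo⟩ := hpr p List.mem_cons_self
    rw [addD_cons]
    by_cases e : p = o
    · rw [if_pos e]
      refine ⟨i1, fun d q hq hd => ?_⟩
      rw [i2 d q hq hd]
      congr 1
      refine if_congr ⟨fun ⟨a, b⟩ => ⟨List.mem_cons_of_mem _ a, b⟩, fun ⟨a, b, b'⟩ => ?_⟩ rfl rfl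
      rcases List.mem_cons.1 a with rfl | a
      · rw [← e] at b
        have := hp.pos
        nlinarith
      · exact ⟨a, b, b'⟩
    · rw [if_neg e]
      have hτ : (if c % (p * p) = 0 then 1 else p) ≠ 0 := by
        split_ifs
        · exact one_ne_zero
        · exact hp.ne_zero
      refine ⟨fun d => ?_, fun d q hq hd => ?_⟩
      · rw [tok_addN, tok_addN_one, tok_addN_one]
        split_ifs
        · rw [one_mul]; exact i1 _
        · exact mul_ne_zero hp.ne_zero (i1 _)
        · exact i1 _
      · rw [tok_addN, tok_addN_one, tok_addN_one]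
        have hiff : d = o / p ↔ o = p * d :=
          ⟨fun h => by rw [h, Nat.mul_div_cancel' hpo],
            fun h => by rw [h, Nat.mul_div_cancel_left _ hp.pos]⟩
        have hsq : c % (p * p) = 0 ↔ p ^ 2 ∣ c := by
          rw [sq]; exact ⟨Nat.dvd_of_mod_eq_zero, Nat.mod_eq_zero_of_dvd⟩
        by_cases hq' : q = p
        · subst hq'
          have i3 := i2 d q hq hd
          rw [if_neg fun h => hn.1 h.1, add_zero] at i3
          by_cases e1 : d = o / q
          · rw [if_pos e1, ← e1, Nat.factorization_mul hτ (i1 _), Finsupp.add_apply, i3,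
              add_comm]
            congr 1
            by_cases e2 : c % (q * q) = 0
            · rw [if_pos e2, if_neg fun h => h.2.2 (hsq.1 e2)]; simp
            · rw [if_neg e2, if_pos ⟨List.mem_cons_self, hiff.1 e1, fun h => e2 (hsq.2 h)⟩,
                hq.factorization_self]
          · rw [if_neg e1, i3, if_neg fun h => e1 (hiff.2 h.2.1), add_zero]
        · have e3 : (if q ∈ p :: t ∧ o = q * d ∧ ¬ q ^ 2 ∣ c then 1 else 0 : ℕ) =
              if q ∈ t ∧ o = q * d ∧ ¬ q ^ 2 ∣ c then 1 else 0 := by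
            refine if_congr ?_ rfl rfl
            rw [List.mem_cons, or_iff_right hq']
          rw [e3, ← i2 d q hq hd]
          by_cases e1 : d = o / p
          · rw [if_pos e1, ← e1, Nat.factorization_mul hτ (i1 _), Finsupp.add_apply]
            have : (if c % (p * p) = 0 then 1 else p).factorization q = 0 := by
              split_ifs
              · simp
              · exact Nat.factorization_eq_zero_of_not_dvd fun h =>
                  hq' ((Nat.prime_dvd_prime_iff_eq hq hp).1 h)
            rw [this, zero_add]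
          · rw [if_neg e1]

/-- The loop of `addS`. -/
noncomputable def addS' (k L B : ℕ) (ps : List ℕ) (nd : L3) : L3 :=
  List.rec nd (fun p _ ih => IF k %' p =' 0 THEN
    (IF B %' PART(L, p) =' 0 THEN ih ELSE addN p PART(L, p) 1 ih) ELSE ih) ps

theorem addS_eq (k L B : ℕ) (ps : List ℕ) (nd : L3) :
    addS k L B ps nd = if Nat.beq k 1 = true then nd else addS' k L B ps nd := by
  rw [← ite_rec]; rfl

theorem addS'_cons (k L B p : ℕ) (ps : List ℕ) (nd : L3) :
    addS' k L B (p :: ps) nd = if Nat.beq (k % p) 0 = true then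
      (if Nat.beq (B % PART(L, p)) 0 = true then addS' k L B ps nd
        else addN p PART(L, p) 1 (addS' k L B ps nd)) else addS' k L B ps nd := by
  rw [← ite_rec, ← ite_rec]; rfl

theorem tok_addS (k L B : ℕ) (ps : List ℕ) (nd : L3) (e : ℕ) :
    tok (addS k L B ps nd) e = tok nd e := by
  rw [addS_eq]
  split_ifs
  · rfl
  induction ps with
  | nil => rfl
  | cons p t ih =>
    rw [addS'_cons]
    split_ifs
    · exact ih
    · rw [tok_addN_one, ih]
    · exact ih

theorem Nd.addS (h : Nd R nd) (k : ℕ) {L B : ℕ} {ps : List ℕ}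
    (hy : ∀ p ∈ ps, ¬ PART(L, p) ∣ B → ∃ y ∈ R, y.o = p ∧ PART(L, p) ∣ y.c) :
    Nd R (addS k L B ps nd) := by
  rw [addS_eq]
  split_ifs
  · exact h
  induction ps with
  | nil => exact h
  | cons p t ih =>
    have ih' := ih fun q hq => hy q (List.mem_cons_of_mem _ hq)
    rw [addS'_cons]
    split_ifs with c1 c2
    · exact ih'
    · exact ih'.addN 1 (hy p List.mem_cons_self fun hd =>
        c2 (Nat.beq_eq.mpr (Nat.mod_eq_zero_of_dvd hd)))
    · exact ih'

theorem succ_le_of_not_dvd {t PP j n : ℕ} (ht : t ≠ 0) (hPP : PP ≠ 0) (hd : PP ^ j % t ≠ 0)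
    (h : ∀ q, q.Prime → q ∣ t → q ∣ PP ∧ t.factorization q ≤ n) : j + 1 ≤ n := by
  by_contra hn
  refine hd (Nat.mod_eq_zero_of_dvd ?_)
  rw [← Nat.factorization_prime_le_iff_dvd ht (pow_ne_zero _ hPP)]
  intro q hq
  by_cases hqt : q ∣ t
  · obtain ⟨a, b⟩ := h q hq hqt
    rw [Nat.factorization_pow, Finsupp.smul_apply, smul_eq_mul]
    have := Nat.le_mul_of_pos_right j (hq.factorization_pos_of_dvd hPP a)
    omega
  · rw [Nat.factorization_eq_zero_of_not_dvd hqt]; exact Nat.zero_le _

theorem demN_cons (PP a b t : ℕ) (s : L3) :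
    demN PP (L3.cons a b t s) = (if PP % t = 0 then 1 else if (PP * PP) % t = 0 then 2 else
      if (PP * PP * PP) % t = 0 then 3 else 4) + demN PP s := by
  have : demN PP (L3.cons a b t s) = (if Nat.beq (PP % t) 0 = true then 1 else
      if Nat.beq ((PP * PP) % t) 0 = true then 2 else
      if Nat.beq ((PP * PP * PP) % t) 0 = true then 3 else 4) + demN PP s := by
    rw [← ite_rec, ← ite_rec, ← ite_rec]; rfl
  simpa only [Nat.beq_eq] using this

theorem Nd.dem_le (h : Nd R nd) {PP : ℕ} (hPP : PP ≠ 0) (h0 : ∀ d, tok nd d ≠ 0)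
    (ht : ∀ d ∈ keys nd, ∀ q, q.Prime → q ∣ tok nd d →
      q ∣ PP ∧ (tok nd d).factorization q ≤ R.countP fun y => decide (y.o = d)) :
    demN PP nd + (free R nd).card ≤ R.length := by
  induction nd generalizing R with
  | nil =>
    change 0 + (free R L3.nil).card ≤ _
    rw [zero_add]
    refine (Finset.card_le_card Finset.sdiff_subset).trans ?_
    exact (List.toFinset_card_le _).trans (List.length_map _).le
  | cons a b t s ih =>
    obtain ⟨h1, ⟨y, hy, hya, -⟩, h3⟩ := nd_cons.1 h
    have hne : ∀ d ∈ keys s, a ≠ d := fun d hd e => h1 (e ▸ hd)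
    have i := ih (R := R.filter fun y => !decide (y.o = a))
      (h3.mono fun z hz hk => List.mem_filter.2 ⟨hz, by simpa using (hne _ hk).symm⟩)
      (fun d => by
        by_cases e : a = d
        · rw [tok_of_not_mem (e ▸ h1)]; exact one_ne_zero
        · have := h0 d
          rwa [tok_cons, if_neg e] at this)
      (fun d hd q hq hqd => by
        have := ht d (List.mem_cons_of_mem _ hd) q hq
        rw [tok_cons, if_neg (hne d hd)] at this
        refine ⟨(this hqd).1, (this hqd).2.trans (le_of_eq ?_)⟩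
        rw [List.countP_filter]
        refine List.countP_congr fun z _ => ?_
        simp only [Bool.and_eq_true, decide_eq_true_eq, Bool.not_eq_true', decide_eq_false_iff_not]
        exact ⟨fun e => ⟨e, fun e' => hne d hd (e'.symm.trans e)⟩, fun e => e.1⟩)
    have e1 : free (R.filter fun y => !decide (y.o = a)) s = free R (L3.cons a b t s) := by
      ext d
      simp only [free, keys_cons, Finset.mem_sdiff, List.mem_toFinset, List.mem_map,
        List.mem_filter, List.mem_cons, not_or, Bool.not_eq_true', decide_eq_false_iff_not]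
      constructor
      · rintro ⟨⟨z, ⟨a1, a2⟩, rfl⟩, a3⟩
        exact ⟨⟨z, a1, rfl⟩, a2, a3⟩
      · rintro ⟨⟨z, a1, rfl⟩, a2, a3⟩
        exact ⟨⟨z, ⟨a1, a2⟩, rfl⟩, a3⟩
    have e2 : R.length = (R.countP fun y => decide (y.o = a)) +
        (R.filter fun y => !decide (y.o = a)).length := by
      rw [← List.countP_eq_length_filter,
        List.length_eq_countP_add_countP (l := R) fun y => decide (y.o = a)]
      simp
    have ht0 : t ≠ 0 := by
      have := h0 a
      rwa [tok_cons, if_pos rfl] at this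
    have hta := ht a List.mem_cons_self
    rw [tok_cons, if_pos rfl] at hta
    have e3 : (if PP % t = 0 then 1 else if (PP * PP) % t = 0 then 2 else
        if (PP * PP * PP) % t = 0 then 3 else 4) ≤ R.countP fun y => decide (y.o = a) := by
      split_ifs with c1 c2 c3
      · exact List.countP_pos_iff.2 ⟨y, hy, by simpa using hya⟩
      · exact succ_le_of_not_dvd (j := 1) ht0 hPP (by rwa [pow_one]) hta
      · exact succ_le_of_not_dvd (j := 2) ht0 hPP (by rwa [sq]) hta
      · exact succ_le_of_not_dvd (j := 3) ht0 hPP (by rwa [pow_three']) hta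
    rw [demN_cons, ← e1]
    omega

theorem mul_div_le {M c k N : ℕ} (hc : 0 < c) (h1 : c ≤ k) (h2 : k ∣ N) :
    M * (N / k) ≤ N * (M / c + 1) := by
  obtain ⟨w, rfl⟩ := h2
  rw [Nat.mul_div_cancel_left _ (hc.trans_le h1)]
  have h3 : M ≤ c * (M / c + 1) := (Nat.lt_mul_div_succ M hc).le
  calc M * w ≤ c * (M / c + 1) * w := Nat.mul_le_mul_right _ h3
    _ ≤ k * (M / c + 1) * w := Nat.mul_le_mul_right _ (Nat.mul_le_mul_right _ h1)
    _ = k * w * (M / c + 1) := by ring

theorem ceil_le {c m k : ℕ} (hc : 0 < c) (h1 : c ≤ k) (h2 : m ∣ k) :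
    0 < (c + m - 1) / m * m ∧ (c + m - 1) / m * m ≤ k := by
  obtain ⟨w, rfl⟩ := h2
  have hm : 0 < m := Nat.pos_of_ne_zero fun e => by subst e; omega
  refine ⟨Nat.mul_pos (Nat.div_pos (by omega) hm) hm, ?_⟩
  rw [mul_comm m w]
  refine Nat.mul_le_mul_right _ (Nat.lt_succ_iff.1 ?_)
  rw [Nat.div_lt_iff_lt_mul hm, Nat.succ_mul, mul_comm w m]
  omega

theorem Nd.loss_le (h : Nd R nd) {c N : ℕ} (hc : 0 < c)
    (hR : ∀ y ∈ R, c ≤ y.c ∧ y.c ∣ N ∧ 1 ≤ y.f) :
    MM * (R.map fun y => y.f * (N / y.c)).sum + N * loss c nd ≤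
      N * ((R.map T.f).sum * (MM / c + 1)) := by
  induction nd generalizing R with
  | nil =>
    change _ + N * 0 ≤ _
    rw [mul_zero, add_zero]
    clear h
    induction R with
    | nil => simp
    | cons y t ih =>
      have i := ih fun z hz => hR z (List.mem_cons_of_mem _ hz)
      obtain ⟨a1, a2, -⟩ := hR y List.mem_cons_self
      have := Nat.mul_le_mul_left y.f (mul_div_le (M := MM) hc a1 a2)
      simp only [List.map_cons, List.sum_cons]
      nlinarith
  | cons a m t s ih =>
    obtain ⟨h1, ⟨y, hy, hya, hm⟩, h3⟩ := nd_cons.1 h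
    obtain ⟨u, v, rfl⟩ := List.append_of_mem hy
    have hsub : ∀ z ∈ u ++ v, z ∈ u ++ y :: v := fun z hz => by
      simp only [List.mem_append, List.mem_cons] at hz ⊢
      tauto
    have i := ih (R := u ++ v) (h3.mono fun z hz hk => by
      simp only [List.mem_append, List.mem_cons] at hz ⊢
      rcases hz with hz | rfl | hz
      · exact Or.inl hz
      · exact absurd (hya ▸ hk) h1
      · exact Or.inr hz) fun z hz => hR z (hsub z hz)
    obtain ⟨a1, a2, a3⟩ := hR y hy
    obtain ⟨b1, b2⟩ := ceil_le hc a1 hm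
    have c1 := mul_div_le (M := MM) hc a1 a2
    have c2 := mul_div_le (M := MM) b1 b2 a2
    have e : loss c (L3.cons a m t s) =
        MM / c - (MM / ((c + m - 1) / m * m) + 1) + loss c s := rfl
    rw [e]
    generalize MM / ((c + m - 1) / m * m) + 1 = B' at c2
    have c3 : MM * (N / y.c) + N * (MM / c - B') ≤ N * (MM / c + 1) := by
      rcases le_total (MM / c) B' with hl | hl
      · rw [Nat.sub_eq_zero_of_le hl, mul_zero, add_zero]; exact c1
      · obtain ⟨k, hk⟩ := Nat.exists_eq_add_of_le hl
        rw [hk, Nat.add_sub_cancel_left]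
        nlinarith
    obtain ⟨f, hf⟩ := Nat.exists_eq_add_of_le a3
    have c4 := Nat.mul_le_mul_left f c1
    simp only [List.map_append, List.map_cons, List.sum_append, List.sum_cons, hf] at i ⊢
    nlinarith

end Cfsg.Agent.KC
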