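import Mathlib
import Cfsg.Agent.KC.SndB

/-! Soundness of the late stages of one step of the search. -/

set_option autoImplicit false

namespace Cfsg.Agent.KC

variable {K N : ℕ} {D : List T}

/-- The outcome of a step. -/
def Res (K N : ℕ) (D : List T) (fin : ℕ → L3 → Bool) (k : St → Bool) (cl : L3) (R : List T) : Prop :=
  (R = [] ∧ fin N cl = true) ∨ (R ≠ [] ∧ ∃ st, Inv K N D st R ∧ st.cl = cl ∧ k st = true)

theorem Le.c_le {x y : T} (h : Le x y) : x.c ≤ y.c := by
  unfold Le at h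
  omega

theorem Good.f_pos (hD : Good K N D) {y : T} (hy : y ∈ D) : 1 ≤ y.f :=
  Nat.pos_of_dvd_of_pos (hD.f_dvd y hy) (Nat.totient_pos.2 (by have := hD.two_le y hy; omega))

theorem Good.c_pos (hD : Good K N D) {y : T} (hy : y ∈ D) : 0 < y.c := by
  have := hD.five_le y hy
  omega

theorem Good.c_dvd (hD : Good K N D) {y : T} (hy : y ∈ D) : y.c ∣ N :=
  (Dvd.intro_left _ rfl).trans (hD.dvd_N y hy)

theorem length_le_sum {R : List T} (h : ∀ y ∈ R, 1 ≤ y.f) : R.length ≤ (R.map T.f).sum := by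
  induction R with
  | nil => simp
  | cons a t ih =>
    have h1 := h a (by simp)
    have h2 := ih fun y hy => h y (by simp [hy])
    simp only [List.length_cons, List.map_cons, List.sum_cons]
    omega

theorem max_le {a b n : ℕ} (ha : a ≤ n) (hb : b ≤ n) : MAX(a, b) ≤ n := by
  simp only [Nat.add_eq, Nat.sub_eq]
  omega

theorem stE_sound (hD : Good K N D) {fin : ℕ → L3 → Bool} {k : St → Bool} {cl nd : L3}
    {ps sm : List ℕ} {s L A nmax PP B zp HB c o f dem : ℕ} {R : List T}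
    (I : Inv K N D ⟨cl, nd, ps, sm, s, L, A, nmax, dem, PP, B, zp, HB, c, o, f⟩ R)
    (h5 : 5 * c ≤ N) (hc : 0 < c)
    (h : stE fin k cl nd ps sm s L A nmax PP B zp HB c o f dem = true) :
    Res K N D fin k cl R := by
  have hR : ∀ y ∈ R, y ∈ D := fun y hy => I.perm.symm.subset (List.mem_append_right _ hy)
  have h1 := length_le_sum fun y hy => hD.f_pos (hR y hy)
  have h2 : dem + _ ≤ _ := I.dem
  have h3 : s = _ := I.s_eq
  have h4 : hd sm 6233 ≤ N := hd_le I.sm₁ I.sm₂ I.sm₃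
  have h6 : L ≤ N := Nat.le_of_dvd hD.pos I.L_dvd
  have h7 : A * N = L * _ := I.mass
  have hL : L ≠ 0 := fun h0 => by
    have : (0 : ℕ) ∣ N := h0 ▸ I.L_dvd
    have := hD.pos
    omega
  simp only [stE, ite_rec, Nat.ble_eq, Nat.beq_eq] at h
  rw [if_pos (by omega)] at h
  rcases eq_or_ne R [] with rfl | hne
  · simp only [List.map_nil, List.sum_nil, zero_add, mul_one] at h3 h7
    have h8 : L = N := le_antisymm h6 (Nat.le_of_dvd (by omega) (Dvd.intro_left _ h7))
    rw [if_pos h3, if_pos (by omega), h8] at h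
    exact Or.inl ⟨rfl, h⟩
  · have h8 : 0 < R.length := List.length_pos_iff.2 hne
    rw [if_neg (by omega), if_pos] at h
    · exact Or.inr ⟨hne, _, I, rfl, h⟩
    have h9 := I.nd.loss_le (N := N) hc fun y hy =>
      ⟨(I.last y hy).c_le, hD.c_dvd (hR y hy), hD.f_pos (hR y hy)⟩
    have h10 : MAX(MAX(hd sm 6233, L), 5 *' c) ≤ N := max_le (max_le h4 h6) h5
    have h11 : 0 < MAX(MAX(hd sm 6233, L), 5 *' c) := by
      simp only [Nat.add_eq, Nat.sub_eq, Nat.mul_eq]
      omega
    generalize MAX(MAX(hd sm 6233, L), 5 *' c) = W at h10 h11 ⊢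
    have h12 : MM ≤ N * (MM / W + 1) :=
      (Nat.lt_mul_div_succ MM h11).le.trans (Nat.mul_le_mul_right _ h10)
    refine Nat.le_of_mul_le_mul_left ?_ hD.pos
    rw [← h3] at h9
    change N * (A * MM + L * loss c nd) ≤ N * (L * (s * (MM / c + 1) + (MM / W + 1)))
    have h13 := Nat.mul_le_mul_left L (Nat.add_le_add h9 h12)
    calc N * (A * MM + L * loss c nd) = A * N * MM + L * (N * loss c nd) := by ring
      _ = L * (MM * (R.map fun y => y.f * (N / y.c)).sum + N * loss c nd + MM) := by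
        rw [h7]; ring
      _ ≤ _ := h13
      _ = _ := by ring

/-- The facts that are available after the choice of the class `x`. -/
structure Com (N : ℕ) (D : List T) (x : T) (R : List T) (cl nd : L3) (pr ps sm : List ℕ)
    (s L A PP HB : ℕ) : Prop where
  perm : D.Perm (toL cl ++ x :: R)
  sorted : (x :: R).Pairwise Le
  below : ∀ y ∈ toL cl, ∀ z ∈ x :: R, Le y z
  s_eq : s = (R.map T.f).sum
  L_dvd : L ∣ N
  mass : A * N = L * ((R.map fun y => y.f * (N / y.c)).sum + 1)
  tok : Tok (toL cl) nd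
  nd : Nd (x :: R) nd
  ps : ∀ p ∈ ps, p.Prime
  sq : Squarefree PP
  pp : ∀ y ∈ x :: toL cl, ∀ q, q.Prime → q ∣ y.o → q ∣ PP
  HB : ∀ d, HB.testBit d = false ↔ 2 ≤ d ∧ ∀ y ∈ toL cl, y.o ≠ d
  sm₁ : sm.Pairwise (· ≤ ·)
  sm₂ : ∀ n ∈ sm, n ≤ 6233
  sm₃ : N ∈ sm ∨ 6233 ≤ N
  prn : pr.Nodup
  pr : ∀ q, q ∈ pr ↔ q.Prime ∧ q ∣ x.o

section order

variable {P R : List T} {x y : T}

theorem mem_after (hD : Good K N D) (hp : D.Perm (P ++ x :: R))
    (hb : ∀ y ∈ P, ∀ z ∈ x :: R, Le y z) (hy : y ∈ D) (h1 : x.c ∣ y.c) (h2 : y.o < x.o) :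
    y ∈ R := by
  have h3 := Nat.le_of_dvd (hD.c_pos hy) h1
  rcases List.mem_append.1 (hp.subset hy) with h | h
  · have := hb y h x (by simp)
    unfold Le at this
    omega
  · rcases List.mem_cons.1 h with rfl | h
    · omega
    · exact h

theorem mem_before (hD : Good K N D) (hp : D.Perm (P ++ x :: R)) (hs : (x :: R).Pairwise Le)
    (hy : y ∈ D) (h1 : y.c ∣ x.c) (h2 : x.o < y.o) : y ∈ P := by
  have h3 := Nat.le_of_dvd (hD.c_pos (hp.symm.subset (by simp))) h1
  rcases List.mem_append.1 (hp.subset hy) with h | h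
  · exact h
  · rcases List.mem_cons.1 h with rfl | h
    · omega
    · have := (List.pairwise_cons.1 hs).1 y h
      unfold Le at this
      omega

theorem up_before (hD : Good K N D) (hp : D.Perm (P ++ x :: R)) (hs : (x :: R).Pairwise Le)
    {q : ℕ} (hq : q.Prime) (h1 : q ∣ x.c) (h2 : ¬ q ∣ x.o) :
    ∃ z ∈ P, z.o = q * x.o ∧ z.c ≠ 0 ∧ z.c.factorization q = x.c.factorization q := by
  have hx : x ∈ D := hp.symm.subset (by simp)
  obtain ⟨z, hz, h3, h4, h5⟩ := hD.up x hx q hq h1 h2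
  have h6 := hD.two_le x hx
  have h7 := (hD.c_pos hz).ne'
  have h8 := (hD.c_pos hx).ne'
  refine ⟨z, mem_before hD hp hs hz h4 (by have := hq.two_le; nlinarith), h3, h7, le_antisymm
    ((Nat.factorization_le_iff_dvd h7 h8).2 h4 q) ?_⟩
  exact (hq.pow_dvd_iff_le_factorization h7).1 (h5 _ (Nat.ordProj_dvd _ _))

theorem tok_le (hD : Good K N D) (hp : D.Perm (P ++ R)) {d q v : ℕ} (hq : q.Prime) (hd : 1 < d)
    (h : v + P.countP (isB d q) ≤ P.countP (isA d q)) : v ≤ R.countP (isB d q) := by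
  have h1 := hD.tokA d q hq hd
  rw [hp.countP_eq, hp.countP_eq, List.countP_append, List.countP_append] at h1
  omega

theorem tok_pos (hD : Good K N D) (hp : D.Perm (P ++ x :: R)) (hs : (x :: R).Pairwise Le)
    (hb : ∀ y ∈ P, ∀ z ∈ x :: R, Le y z) {q : ℕ} (hq : q.Prime) (h : isB x.o q x = true) :
    P.countP (isB x.o q) + 1 ≤ P.countP (isA x.o q) := by
  have h6 := hD.two_le x (hp.symm.subset (by simp))
  have h1 := hD.tokB x.o q x.c hq h6
  rw [hp.countP_eq, hp.countP_eq, List.countP_append, List.countP_append, List.countP_cons] at h1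
  have h2 : P.countP (fun y => isB x.o q y && decide (y.c ≤ x.c)) = P.countP (isB x.o q) :=
    List.countP_congr fun y hy => by simp [(hb y hy x (by simp)).c_le]
  have h3 : P.countP (fun y => isA x.o q y && decide (y.c ≤ x.c)) ≤ P.countP (isA x.o q) :=
    List.countP_mono_left fun y _ h => by simp_all
  have h4 : (x :: R).countP (fun y => isA x.o q y && decide (y.c ≤ x.c)) = 0 := by
    rw [List.countP_eq_zero]
    intro y hy
    simp only [isA, Bool.and_eq_true, decide_eq_true_eq, not_and, not_le, and_imp]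
    intro h4 _
    have h5 : x.o < y.o := by have := hq.two_le; nlinarith
    rcases List.mem_cons.1 hy with rfl | hy
    · omega
    · have := (List.pairwise_cons.1 hs).1 y hy
      unfold Le at this
      omega
  simp only [h, Bool.true_and, le_refl, decide_true, if_true] at h1
  omega

end order

theorem part_prime {c p : ℕ} (hc : c ≠ 0) (hp : p.Prime) : PART(c, p) = p ^ c.factorization p := by
  refine Nat.eq_of_factorization_eq (part_ne_zero hc p) (pow_ne_zero _ hp.ne_zero) fun q => ?_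
  by_cases hq : q.Prime
  · rw [fact_part hc hp.ne_zero hq, hp.factorization_pow, Finsupp.single_apply]
    by_cases h : p = q
    · simp [h]
    · rw [if_neg h, if_neg fun h1 => h ((Nat.prime_dvd_prime_iff_eq hq hp).1 h1).symm]
  · rw [Nat.factorization_eq_zero_of_not_prime _ hq, Nat.factorization_eq_zero_of_not_prime _ hq]

theorem fact_token {x : T} {PP q : ℕ} (hc : x.c ≠ 0) (ho : x.o ≠ 0) (hsq : Squarefree PP)
    (hq : q.Prime) (hpp : q ∣ x.c → ¬ q ∣ x.o → q ∣ PP) {u : ℕ} (hu : u = x.c / PART(x.c, x.o)) :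
    (u / PART(u, u / Nat.gcd u PP)).factorization q = if isB x.o q x = true then 1 else 0 := by
  have hu0 : u ≠ 0 := hu ▸ (Nat.div_pos (Nat.le_of_dvd (by omega) (part_dvd _ _))
    (Nat.pos_of_ne_zero (part_ne_zero hc _))).ne'
  have hPP := hsq.ne_zero
  have hw0 : u / Nat.gcd u PP ≠ 0 := (Nat.div_pos (Nat.gcd_le_left _ (by omega))
    (Nat.gcd_pos_of_pos_left _ (by omega))).ne'
  have h1 : u.factorization q = if q ∣ x.o then 0 else x.c.factorization q :=
    hu ▸ fact_div_part hc ho hq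
  have h2 : (u / Nat.gcd u PP).factorization q = u.factorization q -
      min (u.factorization q) (PP.factorization q) := by
    rw [Nat.factorization_div (Nat.gcd_dvd_left _ _), Finsupp.tsub_apply,
      Nat.factorization_gcd hu0 hPP, Finsupp.inf_apply]
  have h3 := (Nat.squarefree_iff_factorization_le_one hPP).1 hsq q
  have h4 := hq.dvd_iff_one_le_factorization hw0
  have h5 := hq.dvd_iff_one_le_factorization hc
  have h6 := hq.pow_dvd_iff_le_factorization (k := 2) hc
  have h7 := hq.dvd_iff_one_le_factorization hPP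
  rw [fact_div_part hu0 hw0 hq]
  simp only [isB, true_and, decide_eq_true_eq, h4, h5, h6, h2]
  by_cases h8 : q ∣ x.o
  · simp [h1, h8]
  · rw [if_neg h8] at h1
    have h9 := fun h => h7.1 (hpp (h5.2 h) h8)
    simp only [h8, not_false_eq_true, and_true]
    split_ifs <;> omega

theorem stD_sound (hD : Good K N D) {fin : ℕ → L3 → Bool} {k : St → Bool} {cl nd : L3}
    {pr ps sm : List ℕ} {s L A nmax PP B zp HB kk g : ℕ} {x : T} {R : List T}
    (C : Com N D x R cl nd pr ps sm s L A PP HB) (hn : nmax = 0 ∨ N ≤ nmax)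
    (hB : ∀ y ∈ x :: toL cl, y.o.Prime → PART(y.c, y.o) ∣ B)
    (hz : ∀ z ∈ R, Nat.gcd z.o zp = 1) (hz' : Nat.gcd N (zp * zp) ∣ zp) (hg0 : g ≠ 0)
    (hg : ∀ q, q.Prime → g.factorization q = if isB x.o q x = true then 1 else 0)
    (h : stD fin k cl nd pr ps sm s L A nmax PP B zp HB x.c x.o x.f kk g = true) :
    Res K N D fin k (L3.cons x.o x.f x.c cl) R := by
  have hx : x ∈ D := C.perm.symm.subset (by simp)
  have hR : ∀ y ∈ R, y ∈ D := fun y hy => C.perm.symm.subset (by simp [hy])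
  have ho := hD.two_le x hx
  have hp' : D.Perm ((x :: toL cl) ++ R) := C.perm.trans List.perm_middle
  have hgt : g ∣ tok nd x.o := by
    refine (Nat.factorization_prime_le_iff_dvd hg0 (C.tok.1 _)).1 fun q hq => ?_
    rw [hg q hq]
    split_ifs with h1
    · have h2 := tok_pos hD C.perm C.sorted C.below hq h1
      have h3 := C.tok.2 x.o q hq ho
      omega
    · omega
  have ht1 := fun e => tok_dis C.nd.1 x.o x.c g e hgt (C.tok.1 _)
  have ht0 : ∀ d, tok (dis x.o x.c g nd) d ≠ 0 := fun d => by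
    rw [ht1]
    split_ifs
    · exact (Nat.div_pos (Nat.le_of_dvd (Nat.pos_of_ne_zero (C.tok.1 _)) hgt)
        (Nat.pos_of_ne_zero hg0)).ne'
    · exact C.tok.1 _
  have ht2 : ∀ d q, q.Prime → 1 < d → (tok (dis x.o x.c g nd) d).factorization q +
      (x :: toL cl).countP (isB d q) = (toL cl).countP (isA d q) := fun d q hq hd => by
    have h3 := C.tok.2 d q hq hd
    rw [ht1, List.countP_cons]
    by_cases h1 : d = x.o
    · subst h1
      have h4 := (Nat.factorization_le_iff_dvd hg0 (C.tok.1 _)).2 hgt q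
      rw [if_pos rfl, Nat.factorization_div hgt, Finsupp.tsub_apply, ← hg q hq]
      omega
    · have h4 : ¬ isB d q x = true := by simp [isB, Ne.symm h1]
      rw [if_neg h1, if_neg h4]
      omega
  have hn1 : Nd R (dis x.o x.c g nd) := C.nd.dis g fun h1 => by
    have h2 : tok (dis x.o x.c g nd) x.o ≠ 1 := by
      rw [ht1, if_pos rfl]
      intro h2
      exact h1 (by rw [← Nat.div_mul_cancel hgt, h2, one_mul])
    obtain ⟨q, hq, h3⟩ := Nat.exists_prime_and_dvd h2
    have h4 := (hq.dvd_iff_one_le_factorization (ht0 _)).1 h3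
    have h5 := tok_le hD hp' hq ho (v := 1) (by
      have := ht2 x.o q hq ho
      rw [List.countP_cons (p := isA x.o q)]
      omega)
    obtain ⟨y, hy, h6⟩ := List.countP_pos_iff.1 h5
    simp only [isB, decide_eq_true_eq] at h6
    exact ⟨y, hy, h6.1, h6.1 ▸ hD.o_dvd y (hR y hy)⟩
  have hn2 : Nd R (addD x.o x.c pr (dis x.o x.c g nd)) := hn1.addD fun p hp hpo => by
    obtain ⟨hp1, hp2⟩ := (C.pr p).1 hp
    have h1 : p < x.o := lt_of_le_of_ne (Nat.le_of_dvd (by omega) hp2) hpo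
    have h2 : 1 < x.o / p := by
      obtain ⟨m, hm⟩ := hp2
      rw [hm, Nat.mul_div_cancel_left _ hp1.pos]
      by_contra h3
      rcases (by omega : m = 0 ∨ m = 1) with rfl | rfl <;> omega
    have h3 : x.o / p < x.o := Nat.div_lt_self (by omega) hp1.one_lt
    obtain ⟨y, hy, h4, h5⟩ := hD.pow x hx p hp2 hp1.one_lt
    obtain ⟨z, hz, h6, h7⟩ := hD.pow x hx _ (Nat.div_dvd_of_dvd hp2) h2
    exact ⟨⟨y, mem_after hD C.perm C.below hy h5 (by omega), h4, h5⟩,
      z, mem_after hD C.perm C.below hz h7 (by omega), h6, h7⟩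
  obtain ⟨ht3, ht4⟩ := tok_addD (c := x.c) C.prn (fun p hp => (C.pr p).1 hp) ht0
  have hL : L ≠ 0 := fun h0 => by
    have : (0 : ℕ) ∣ N := h0 ▸ C.L_dvd
    have := hD.pos
    omega
  have hn3 : Nd R (addS kk L B ps (addD x.o x.c pr (dis x.o x.c g nd))) :=
    hn2.addS kk fun p hp h1 => by
      have hp1 := C.ps p hp
      rw [part_prime hL hp1] at h1 ⊢
      have h2 : p ∣ L := (hp1.dvd_iff_one_le_factorization hL).2 (by
        by_contra h2
        rw [(by omega : L.factorization p = 0), pow_zero] at h1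
        exact h1 (one_dvd _))
      obtain ⟨z, hz, h3, h4⟩ := hD.sylow p hp1 (h2.trans C.L_dvd)
      have h5 := h4 _ ((Nat.ordProj_dvd L p).trans C.L_dvd)
      refine ⟨z, ?_, h3, h5⟩
      refine (List.mem_append.1 (hp'.subset hz)).resolve_left fun h6 => h1 ?_
      have h7 := hB z h6 (h3 ▸ hp1)
      rw [h3, part_prime (hD.c_pos hz).ne' hp1] at h7
      exact (pow_dvd_pow p ((hp1.pow_dvd_iff_le_factorization (hD.c_pos hz).ne').1 h5)).trans h7
  have ht5 : Tok (x :: toL cl) (addS kk L B ps (addD x.o x.c pr (dis x.o x.c g nd))) := by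
    refine ⟨fun d => by rw [tok_addS]; exact ht3 d, fun d q hq hd => ?_⟩
    have h1 := ht2 d q hq hd
    have h2 : (q ∈ pr ∧ x.o = q * d ∧ ¬ q ^ 2 ∣ x.c) ↔ isA d q x = true := by
      simp only [isA, decide_eq_true_eq, C.pr]
      exact ⟨fun h => h.2, fun h => ⟨⟨hq, _, h.1⟩, h⟩⟩
    rw [tok_addS, ht4 d q hq hd, List.countP_cons (p := isA d q)]
    simp only [h2]
    omega
  simp only [stD, ite_rec, Nat.beq_eq] at h
  rw [if_pos (by
    split_ifs
    · rfl
    · exact Nat.beq_eq ▸ Nat.mod_eq_zero_of_dvd hgt)] at h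
  refine stE_sound hD ?_ (hD.five_mul x hx) (hD.c_pos hx) h
  refine ⟨hp', (List.pairwise_cons.1 C.sorted).2, ?_, (List.pairwise_cons.1 C.sorted).1, C.s_eq,
    C.L_dvd, C.mass, hn, hn3, ht5, ?_, C.ps, C.sq, C.pp, hB, hz, hz', ?_, C.sm₁, C.sm₂, C.sm₃⟩
  · intro y hy z hz
    rcases List.mem_cons.1 hy with rfl | hy
    · exact (List.pairwise_cons.1 C.sorted).1 z hz
    · exact C.below y hy z (by simp [hz])
  · refine hn3.dem_le C.sq.ne_zero ht5.1 fun d hd q hq h1 => ?_
    rw [keys_eq, List.mem_map] at hd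
    obtain ⟨e, he, rfl⟩ := hd
    obtain ⟨y, hy, h2, -⟩ := hn3.2 e he
    have h3 : 1 < e.o := h2 ▸ hD.two_le y (hR y hy)
    have h4 := (hq.dvd_iff_one_le_factorization (ht5.1 _)).1 h1
    have h5 := ht5.2 e.o q hq h3
    refine ⟨?_, (tok_le hD hp' hq h3 h5.le).trans (List.countP_mono_left fun y _ h => ?_)⟩
    · obtain ⟨z, hz, h6⟩ := List.countP_pos_iff.1 (by omega : 0 < (x :: toL cl).countP (isA e.o q))
      simp only [isA, decide_eq_true_eq] at h6
      exact C.pp z hz q hq ⟨_, h6.1⟩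
    · simp only [isB, decide_eq_true_eq] at h ⊢
      exact h.1
  · intro d
    change (SET(HB, x.o)).testBit d = false ↔ 2 ≤ d ∧ ∀ y ∈ x :: toL cl, y.o ≠ d
    rw [testBit_set, Bool.or_eq_false_iff, C.HB]
    simp only [decide_eq_false_iff_not, List.forall_mem_cons]
    tauto

theorem stC_sound (hD : Good K N D) {fin : ℕ → L3 → Bool} {k : St → Bool} {cl nd : L3}
    {pr ps sm : List ℕ} {s L A nmax PP B zp HB kk : ℕ} {x : T} {R : List T}
    (C : Com N D x R cl nd pr ps sm s L A PP HB) (hn : nmax = 0 ∨ N ≤ nmax)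
    (hB : ∀ y ∈ x :: toL cl, y.o.Prime → PART(y.c, y.o) ∣ B)
    (hz : ∀ z ∈ R, Nat.gcd z.o zp = 1) (hz' : Nat.gcd N (zp * zp) ∣ zp)
    (h : stC fin k cl nd pr ps sm s L A nmax PP B zp HB x.c x.o x.f kk = true) :
    Res K N D fin k (L3.cons x.o x.f x.c cl) R := by
  have hx : x ∈ D := C.perm.symm.subset (by simp)
  have ho := hD.two_le x hx
  have hc := (hD.c_pos hx).ne'
  simp only [stC, ite_rec, Nat.beq_eq, Nat.ble_eq] at h
  rw [if_pos] at h
  · refine stD_sound hD C hn hB hz hz' ?_ (fun q hq => fact_token hc (by omega) C.sq hq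
      (fun h1 h2 => ?_) rfl) h
    · have hu0 : x.c / PART(x.c, x.o) ≠ 0 := (Nat.div_pos (Nat.le_of_dvd (by omega) (part_dvd _ _))
        (Nat.pos_of_ne_zero (part_ne_zero hc _))).ne'
      exact (Nat.div_pos (Nat.le_of_dvd (Nat.pos_of_ne_zero hu0) (part_dvd _ _))
        (Nat.pos_of_ne_zero (part_ne_zero hu0 _))).ne'
    · obtain ⟨z, hz, h3, -⟩ := up_before hD C.perm C.sorted hq h1 h2
      exact C.pp z (by simp [hz]) q hq ⟨_, h3⟩
  · split_ifs with h1 h2
    · rfl
    · have h3 : N ≤ nmax := hn.resolve_left h1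
      have h4 : L ≤ A * N := by rw [C.mass]; exact Nat.le_mul_of_pos_right _ (by omega)
      exact Nat.ble_eq ▸ h4.trans (Nat.mul_le_mul_left _ h3)
    · exact absurd ((max_le (hd_le C.sm₁ C.sm₂ C.sm₃) (Nat.le_of_dvd hD.pos C.L_dvd)).trans
        (hn.resolve_left h1)) h2

end Cfsg.Agent.KC
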