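import Mathlib
import Cfsg.Agent.KC.SndC
import Cfsg.Agent.KC.SndD

/-! Soundness of the early stages of one step of the search. -/

set_option autoImplicit false

namespace Cfsg.Agent.KC

variable {K N : ℕ} {D : List T}

theorem dvd_lcm' (a b : ℕ) : a ∣ LCM(a, b) ∧ b ∣ LCM(a, b) :=
  ⟨Nat.dvd_lcm_left a b, Nat.dvd_lcm_right a b⟩

theorem stP_sound (hD : Good K N D) {fin : ℕ → L3 → Bool} {k : St → Bool} {cl nd : L3}
    {pr ps sm : List ℕ} {s L A nmax PP B zp HB kk : ℕ} {x : T} {R : List T}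
    (C : Com N D x R cl nd pr ps sm s L A PP HB) (hn : nmax = 0 ∨ N ≤ nmax)
    (hB : ∀ y ∈ toL cl, y.o.Prime → PART(y.c, y.o) ∣ B)
    (hz : ∀ z ∈ x :: R, Nat.gcd z.o zp = 1) (hz' : Nat.gcd N (zp * zp) ∣ zp) (hp : x.o.Prime)
    (h : stP (K - 1) fin k cl nd pr ps sm s L A nmax PP B zp HB x.c x.o x.f kk = true) :
    Res K N D fin k (L3.cons x.o x.f x.c cl) R := by
  have hx : x ∈ D := C.perm.symm.subset (by simp)
  have hc := (hD.c_pos hx).ne'
  have hB' : ∀ y ∈ x :: toL cl, y.o.Prime → PART(y.c, y.o) ∣ LCM(B, PART(x.c, x.o)) := by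
    intro y hy h1
    rcases List.mem_cons.1 hy with rfl | hy
    · exact (dvd_lcm' _ _).2
    · exact (hB y hy h1).trans (dvd_lcm' _ _).1
  rw [stP, ite_rec] at h
  split_ifs at h with h1
  · refine stC_sound hD C ?_ hB' (fun z hz1 => hz z (by simp [hz1])) hz' h
    rw [ite_rec]
    split_ifs with h2
    · have h3 : x.o + nmax = 2 := Nat.eq_of_beq_eq_true h2
      exact Or.inr (hD.invb x hx (by have := hp.two_le; omega))
    · exact hn
  · have h2 : ¬ x.o ^ 2 ∣ x.c := fun h2 => h1 (by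
      rw [Nat.beq_eq]
      exact Nat.mod_eq_zero_of_dvd (n := x.c) (m := x.o * x.o) (pow_two x.o ▸ h2))
    obtain ⟨h3, h4, h5⟩ := hD.burn x hx hp h2
    rw [C.perm.countP_eq, List.countP_append, List.countP_cons] at h5
    simp only [decide_true, if_true] at h5
    have h6 : ∀ y ∈ toL cl, y.o ≠ x.o := by
      simpa using List.countP_eq_zero.1 (by omega : (toL cl).countP (fun z => decide (z.o = x.o)) = 0)
    have h7 : ∀ y ∈ R, y.o ≠ x.o := by
      simpa using List.countP_eq_zero.1 (by omega : R.countP (fun z => decide (z.o = x.o)) = 0)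
    rw [ite_rec, if_neg (by rw [Nat.beq_eq]; exact h4), ite_rec, if_neg (by
      rw [Nat.beq_eq]
      exact fun h8 => h3 (by
        rw [pow_two]
        exact (Nat.dvd_of_mod_eq_zero h8).trans C.L_dvd)), ite_rec,
      if_pos ((off_iff _ _).2 ((C.HB _).2 ⟨hp.two_le, h6⟩))] at h
    have h8 : PART(x.c, x.o) = x.o := by
      have h8 := (hp.dvd_iff_one_le_factorization hc).1 (hD.o_dvd x hx)
      have h9 := mt (hp.pow_dvd_iff_le_factorization (k := 2) hc).2 h2
      rw [part_prime hc hp, (by omega : x.c.factorization x.o = 1), pow_one]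
    rw [h8] at hB'
    refine stC_sound hD C hn hB' (fun y hy => ?_) ?_ h
    · have hy' : y ∈ D := C.perm.symm.subset (by simp [hy])
      refine Nat.Coprime.mul_right (hz y (by simp [hy])) ((Nat.coprime_comm.1
        ((Nat.Prime.coprime_iff_not_dvd hp).2 fun h9 => ?_)))
      obtain ⟨z, hz1, h10, h11⟩ := hD.pow y hy' x.o h9 hp.one_lt
      have h12 : z = x := by
        rcases List.mem_append.1 (C.perm.subset hz1) with h12 | h12
        · exact absurd h10 (h6 z h12)
        · exact (List.mem_cons.1 h12).resolve_right fun h13 => h7 z h13 h10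
      subst h12
      have h13 := Nat.le_of_dvd (by omega) h11
      have h14 := Nat.le_of_dvd (by have := hD.two_le y hy'; omega) h9
      have h15 := (List.pairwise_cons.1 C.sorted).1 y hy
      have h16 := h7 y hy
      unfold Le at h15
      omega
    · change Nat.gcd N (zp * x.o * (zp * x.o)) ∣ zp * x.o
      have h9 : Nat.gcd N (x.o ^ 2) ∣ x.o := by
        obtain ⟨i, hi, h9⟩ := (Nat.dvd_prime_pow hp).1 (Nat.gcd_dvd_right N (x.o ^ 2))
        have h10 : i ≠ 2 := by
          rintro rfl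
          exact h3 (h9 ▸ Nat.gcd_dvd_left _ _)
        rw [h9]
        simpa using pow_dvd_pow x.o (by omega : i ≤ 1)
      rw [(by ring : zp * x.o * (zp * x.o) = zp * zp * x.o ^ 2)]
      exact (gcd_mul_dvd_mul_gcd N (zp * zp) (x.o ^ 2)).trans (Nat.mul_dvd_mul hz' h9)

theorem stM_sound (hD : Good K N D) {fin : ℕ → L3 → Bool} {k : St → Bool} {cl nd : L3}
    {pr ps sm : List ℕ} {s L A nmax PP B zp HB kk : ℕ} {x : T} {R : List T}
    (C : Com N D x R cl nd pr ps sm s L A PP HB) (hn : nmax = 0 ∨ N ≤ nmax)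
    (hB : ∀ y ∈ toL cl, y.o.Prime → PART(y.c, y.o) ∣ B)
    (hz : ∀ z ∈ x :: R, Nat.gcd z.o zp = 1) (hz' : Nat.gcd N (zp * zp) ∣ zp)
    (h : stM (K - 1) fin k cl nd pr ps sm (hd pr 0 =' x.o) s nmax PP B zp HB x.o x.f x.c kk L A =
      true) : Res K N D fin k (L3.cons x.o x.f x.c cl) R := by
  have hx : x ∈ D := C.perm.symm.subset (by simp)
  have hN := hD.pos
  have hL : L ≠ 0 := fun h0 => by
    have : (0 : ℕ) ∣ N := h0 ▸ C.L_dvd
    omega
  have h4 : L ≤ A * N := by rw [C.mass]; exact Nat.le_mul_of_pos_right _ (by omega)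
  have C' : Com N D x R cl nd pr ps (filS L A sm) s L A PP HB :=
    { C with
      sm₁ := C.sm₁.sublist (filS_sublist _ _ _)
      sm₂ := fun n hn => C.sm₂ n ((filS_sublist _ _ _).subset hn)
      sm₃ := C.sm₃.imp_left fun h1 => mem_filS h1 C.L_dvd h4 }
  have hA : 1 ≤ A := Nat.pos_of_ne_zero fun h0 => by
    rw [h0] at h4
    omega
  rw [stM, ite_rec, if_pos, ite_rec, if_pos, ite_rec] at h
  · split_ifs at h with h1
    · exact stP_sound hD C' hn hB hz hz'
        ((hd_eq_iff (hD.two_le x hx) C.pr).1 (Nat.eq_of_beq_eq_true h1)) h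
    · refine stC_sound hD C' hn (fun y hy h2 => ?_) (fun z hz1 => hz z (by simp [hz1])) hz' h
      rcases List.mem_cons.1 hy with rfl | hy
      · exact absurd (Nat.beq_eq ▸ (hd_eq_iff (hD.two_le y hx) C.pr).2 h2) h1
      · exact hB y hy h2
  · rw [Nat.beq_eq]
    exact Nat.mod_eq_zero_of_dvd ((Nat.gcd_dvd_gcd_of_dvd_left _ C.L_dvd).trans hz')
  · rw [ite_rec]
    split_ifs with h1
    · have h2 := length_le_sum (R := R) fun y hy => hD.f_pos (C.perm.symm.subset (by simp [hy]))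
      rw [← C.s_eq, Nat.eq_of_beq_eq_true h1] at h2
      have h3 := C.mass
      rw [List.length_eq_zero_iff.1 (by omega : R.length = 0)] at h3
      simp only [List.map_nil, List.sum_nil, zero_add, mul_one] at h3
      have h5 := Nat.le_of_dvd hN C.L_dvd
      rw [Nat.beq_eq]
      refine le_antisymm (Nat.le_of_mul_le_mul_right (c := N) (by omega) hN) hA
    · exact Nat.ble_eq ▸ hA

theorem stB_sound (hD : Good K N D) {fin : ℕ → L3 → Bool} {k : St → Bool} {cl nd : L3}
    {pr ps sm : List ℕ} {s L A nmax PP B zp HB : ℕ} {x : T} {R : List T}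
    (C : Com N D x R cl nd pr ps sm s N ((R.map fun y => y.f * (N / y.c)).sum + 1) PP HB)
    (hL : L ∣ N) (hA : A * N = L * (((x :: R).map fun y => y.f * (N / y.c)).sum + 1))
    (hn : nmax = 0 ∨ N ≤ nmax) (hB : ∀ y ∈ toL cl, y.o.Prime → PART(y.c, y.o) ∣ B)
    (hz : ∀ z ∈ x :: R, Nat.gcd z.o zp = 1) (hz' : Nat.gcd N (zp * zp) ∣ zp)
    (h : stB (K - 1) fin k cl nd pr ps sm (hd pr 0 =' x.o) s L A nmax PP B zp HB x.o x.f
      (Nat.totient x.o / x.f) x.c = true) : Res K N D fin k (L3.cons x.o x.f x.c cl) R := by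
  have hx : x ∈ D := C.perm.symm.subset (by simp)
  have h1 := hD.dvd_N x hx
  set e := Nat.totient x.o / x.f * x.c with he
  have h2 : L * (e / Nat.gcd L e) = Nat.lcm L e := by
    rw [Nat.lcm, Nat.mul_div_assoc _ (Nat.gcd_dvd_right _ _)]
  have h3 : x.c ∣ L * (e / Nat.gcd L e) :=
    h2 ▸ (Dvd.intro_left _ rfl).trans (Nat.dvd_lcm_right L e)
  refine stM_sound hD (L := L * (e / Nat.gcd L e)) (kk := e / Nat.gcd L e)
    (A := A * (e / Nat.gcd L e) - x.f * (L * (e / Nat.gcd L e) / x.c))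
    { C with L_dvd := h2 ▸ Nat.lcm_dvd hL h1, mass := ?_ } hn hB hz hz' h
  generalize e / Nat.gcd L e = kk at h3 ⊢
  obtain ⟨a, ha⟩ := h3
  obtain ⟨b, hb⟩ := hD.c_dvd hx
  have hc := hD.c_pos hx
  have h4 : N / x.c = b := by rw [hb, Nat.mul_div_cancel_left _ hc]
  rw [List.map_cons, List.sum_cons, h4] at hA
  rw [Nat.sub_mul, ha, Nat.mul_div_cancel_left _ hc]
  refine Nat.sub_eq_of_eq_add ?_
  calc A * kk * N = A * N * kk := by ring
    _ = L * kk * (x.f * b + (R.map fun y => y.f * (N / y.c)).sum + 1) := by rw [hA]; ring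
    _ = _ := by
      rw [ha]
      generalize (R.map fun y => y.f * (N / y.c)).sum = W
      rw [hb]
      ring

theorem mem_free {R : List T} {nd : L3} {d : ℕ} : d ∈ free R nd ↔ (∃ y ∈ R, y.o = d) ∧ d ∉ keys nd := by
  simp [free]

section step

variable {cl nd : L3} {ps sm : List ℕ} {s L A nmax dem PP B zp HB pc po pf : ℕ} {x : T}
  {R : List T}

theorem Inv.free_le (hD : Good K N D)
    (I : Inv K N D ⟨cl, nd, ps, sm, s, L, A, nmax, dem, PP, B, zp, HB, pc, po, pf⟩ (x :: R)) :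
    x.f + (free (x :: R) nd).card ≤ s - dem + 1 := by
  have h1 := length_le_sum (R := R) fun y hy => hD.f_pos (I.perm.symm.subset (by simp [hy]))
  have h2 : dem + (free (x :: R) nd).card ≤ _ := I.dem
  have h3 : s = _ := I.s_eq
  simp only [List.length_cons, List.map_cons, List.sum_cons] at h2 h3
  omega

theorem Inv.div_mem (hD : Good K N D) {st : St} (I : Inv K N D st (x :: R)) {d : ℕ}
    (h1 : d ∣ x.o) (h2 : 1 < d) : ∃ y ∈ x :: R, y.o = d := by
  have hx : x ∈ D := I.perm.symm.subset (by simp)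
  rcases eq_or_ne d x.o with rfl | h3
  · exact ⟨x, by simp, rfl⟩
  · obtain ⟨y, hy, h4, h5⟩ := hD.pow x hx d h1 h2
    have h6 := Nat.le_of_dvd (by have := hD.two_le x hx; omega) h1
    exact ⟨y, List.mem_cons_of_mem _ (mem_after hD I.perm I.below hy h5 (by omega)), h4⟩

theorem stA_sound (hD : Good K N D) {fin : ℕ → L3 → Bool} {k : St → Bool} {lo hi : ℕ}
    (I : Inv K N D ⟨cl, nd, ps, sm, s, L, A, nmax, dem, PP, B, zp, HB, pc, po, pf⟩ (x :: R))
    (hlo : lo ≤ x.c) (hhi : x.c ≤ hi)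
    (h : stA (K - 1) fin k cl nd ps sm s L A nmax PP B zp HB pc po pf lo hi (s - dem) (mask nd)
      x.o = true) : Res K N D fin k (L3.cons x.o x.f x.c cl) R := by
  have hx : x ∈ D := I.perm.symm.subset (by simp)
  have ho := hD.two_le x hx
  have hf := hD.f_pos hx
  have hfr := I.free_le hD
  rw [stA, ite_rec, if_pos (by rw [Nat.beq_eq]; exact I.zp x (by simp)), ite_rec] at h
  split_ifs at h with h1
  rw [Nat.ble_eq] at h1
  obtain ⟨hn, hpr⟩ := facL_spec (by omega : 1 ≤ x.o) h1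
  generalize facL PL x.o = pr at h hn hpr
  have hds : ∀ d ∈ x.o :: cof x.o pr [], (mask nd).testBit d = false → d ∈ free (x :: R) nd := by
    intro d hd h2
    rw [testBit_mask] at h2
    refine mem_free.2 ⟨I.div_mem hD ?_ h2.1, h2.2⟩
    simp only [List.mem_cons, mem_cof, List.not_mem_nil, false_or] at hd
    rcases hd with rfl | ⟨p, hp, rfl | rfl⟩
    · rfl
    · exact ((hpr _).1 hp).2
    · exact Nat.div_dvd_of_dvd ((hpr _).1 hp).2
  have h2 := le_room (b := Nat.succ (s - dem)) hds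
  have h3 := allR_sound h (x.f - 1) (by omega)
  have h4 : Nat.succ (x.f - 1) = x.f := by omega
  have h5 : (x.o /' prodL pr *' prodP pr) = Nat.totient x.o := totient_eq (by omega) hn hpr
  rw [stF, h4, h5, ite_rec, if_pos (by
    rw [Nat.beq_eq]
    exact Nat.mod_eq_zero_of_dvd (hD.f_dvd x hx))] at h3
  have hed : ∀ d ∈ eds HB x.f pr, 2 ≤ d ∧ ∃ y ∈ x :: R, y.o = d := fun d hd => by
    obtain ⟨h6, p, hp, h7⟩ := mem_eds (fun p hp => ⟨((hpr p).1 hp).1,
      (Nat.le_of_dvd (by omega) ((hpr p).1 hp).2).trans h1⟩) hd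
    obtain ⟨h8, h9⟩ := (I.HB d).1 h6
    obtain ⟨z, hz, h10⟩ := hD.aut x hx p ((hpr p).1 hp).1 ((hpr p).1 hp).2 d h7 h8
    exact ⟨h8, z, (List.mem_append.1 (I.perm.subset hz)).resolve_left fun h => h9 z h h10, h10⟩
  have h6 := le_room (b := Nat.succ (s - dem)) (S := free (x :: R) nd) (M := mask nd)
    (l := filN (mask nd) (eds HB x.f pr) (x.o :: cof x.o pr [])) fun d hd h7 => by
      rcases mem_filN.1 hd with hd | hd
      · exact hds d hd h7
      · exact mem_free.2 ⟨(hed d hd.1).2, ((testBit_mask _ _).1 h7).2⟩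
  simp only [] at h3
  rw [ite_rec, if_pos (by rw [Nat.ble_eq]; omega)] at h3
  have h7 := cand_sound ho hpr (hD.c_pos hx).ne' (hD.o_dvd x hx) (hD.four x hx) ?_ hhi
    (fun q hq h8 h9 => ?_) h3
  · refine stB_sound hD ?_ I.L_dvd I.mass I.nmax I.B I.zp I.zp' h7
    refine ⟨I.perm, I.sorted, I.below, ?_, dvd_rfl, mul_comm _ _, ?_, I.nd.addL fun d hd => ?_,
      fun p hp => ?_, ?_, fun y hy q hq h8 => ?_, I.HB, I.sm₁, I.sm₂, I.sm₃, hn, hpr⟩
    · have h8 : s = _ := I.s_eq
      rw [List.map_cons, List.sum_cons] at h8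
      change s - x.f = _
      omega
    · simpa only [Tok, tok_addL] using I.tok
    · obtain ⟨y, hy, h8⟩ := (hed d hd).2
      exact ⟨y, hy, h8, h8 ▸ hD.o_dvd y (I.perm.symm.subset (List.mem_append_right _ hy))⟩
    · exact (mem_addP hp).elim (fun h8 => ((hpr p).1 h8).1) (I.ps p)
    · have h8 := squarefree_prodL hn fun q hq => ((hpr q).1 hq).1
      have h9 : Squarefree PP := I.sq
      change Squarefree (Nat.lcm PP (prodL pr))
      rw [Nat.squarefree_iff_factorization_le_one (Nat.lcm_ne_zero h9.ne_zero h8.ne_zero),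
        Nat.factorization_lcm h9.ne_zero h8.ne_zero]
      exact fun p => sup_le ((Nat.squarefree_iff_factorization_le_one h9.ne_zero).1 h9 p)
        ((Nat.squarefree_iff_factorization_le_one h8.ne_zero).1 h8 p)
    · rcases List.mem_cons.1 hy with rfl | hy
      · exact (dvd_prodL ((hpr q).2 ⟨hq, h8⟩)).trans (dvd_lcm' _ _).2
      · exact (I.pp y hy q hq h8).trans (dvd_lcm' _ _).1
  · have h8 := I.last x (by simp)
    simp only [Le] at h8
    rw [ite_rec]
    split_ifs with h9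
    · exact hlo
    · refine max_le hlo ?_
      rw [ite_rec] at h9
      split_ifs at h9 with h10
      · rw [Nat.beq_eq] at h10
        rw [Nat.ble_eq] at h9
        omega
      · rw [Nat.beq_eq] at h10
        rw [Nat.ble_eq] at h9
        omega
  · obtain ⟨z, hz, h10⟩ := up_before hD I.perm I.sorted hq h8 h9
    exact ⟨I.pp z hz q hq ⟨_, h10.1⟩, z, hz, h10⟩

end step

end Cfsg.Agent.KC
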