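import Mathlib
import Cfsg.Agent.KC.SndE
import Cfsg.Agent.KC.Def2

/-! Soundness of the search. -/

set_option autoImplicit false

namespace Cfsg.Agent.KC

variable {K N : ℕ} {D : List T}

theorem toL_nil : toL L3.nil = [] := rfl

theorem mem_mulK {nd : L3} {y z : ℕ} {t : List ℕ} :
    z ∈ mulK nd y t ↔ z ∈ t ∨ ∃ d ∈ keys nd, z = d * y := by
  induction nd with
  | nil => simp [mulK, keys]
  | cons a b c tl ih =>
    change z ∈ (a * y) :: mulK tl y t ↔ z ∈ t ∨ ∃ d ∈ a :: keys tl, z = d * y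
    simp only [List.mem_cons, ih, exists_eq_or_imp]
    tauto

theorem mem_gen2 {nd : L3} {l : List ℕ} {y z : ℕ} (hy : y ∈ l)
    (h : z = y ∨ z = 2 * y + 1 ∨ z = y * y ∨ ∃ d ∈ keys nd, z = d * y) : z ∈ gen2 nd l := by
  induction l with
  | nil => simp at hy
  | cons a tl ih =>
    change z ∈ a :: (2 * a + 1) :: (a * a) :: mulK nd a (gen2 nd tl)
    simp only [List.mem_cons, mem_mulK]
    rcases List.mem_cons.1 hy with rfl | hy
    · tauto
    · have := ih hy
      tauto

theorem split_comp {o : ℕ} (ho : 2 ≤ o) (hp : ¬ o.Prime) :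
    ∃ p m, p.Prime ∧ 1 < m ∧ p < o ∧ m < o ∧ o = p * m := by
  obtain ⟨m, hm⟩ := Nat.minFac_dvd o
  have h1 := Nat.minFac_prime (by omega : o ≠ 1)
  have h2 : 1 < m := by
    by_contra h2
    rcases (by omega : m = 0 ∨ m = 1) with rfl | rfl
    · omega
    · exact hp (by rw [hm, mul_one]; exact h1)
  have h3 := h1.two_le
  exact ⟨_, m, h1, h2, by nlinarith, by nlinarith, hm⟩

section step

variable {cl nd : L3} {ps sm : List ℕ} {s L A nmax dem PP B zp HB pc po pf : ℕ} {x : T}
  {R : List T}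

theorem stO2_sound (hD : Good K N D)
    (I : Inv K N D ⟨cl, nd, ps, sm, s, L, A, nmax, dem, PP, B, zp, HB, pc, po, pf⟩ (x :: R))
    {hi : ℕ} (hhi : x.o ≤ hi) {p : ℕ → Bool} (h : stO2 cl nd hi (s - dem) p = true) :
    p x.o = true := by
  have hx : x ∈ D := I.perm.symm.subset (by simp)
  have ho := hD.two_le x hx
  have hf := hD.f_pos hx
  have hfr := I.free_le hD
  set F := free (x :: R) nd with hF
  set G := 2 :: ords nd (ords cl (prods nd)) with hG
  have g1 : ∀ d, d ∈ keys nd ∨ d ∈ keys cl → d ∈ G ∧ d + 1 ∈ G := fun d hd => by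
    simp only [hG, List.mem_cons, mem_ords]
    rcases hd with hd | hd
    · exact ⟨Or.inr (Or.inr ⟨d, hd, Or.inl rfl⟩), Or.inr (Or.inr ⟨d, hd, Or.inr rfl⟩)⟩
    · exact ⟨Or.inr (Or.inl (Or.inr ⟨d, hd, Or.inl rfl⟩)),
        Or.inr (Or.inl (Or.inr ⟨d, hd, Or.inr rfl⟩))⟩
  have g2 : ∀ a b, a ∈ keys nd → b ∈ keys nd → a * b ∈ G := fun a b ha hb => by
    simp only [hG, List.mem_cons, mem_ords]
    exact Or.inr (Or.inl (Or.inl (mul_mem_prods ha hb)))
  have g3 : ∀ r, r.Prime → r ∣ x.o → ∀ d, d ∣ (r - 1) / Nat.gcd (r - 1) x.f → 1 < d → d ∉ F →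
      d ∈ keys nd ∨ d ∈ keys cl := fun r hr h1 d h2 h3 h4 => by
    obtain ⟨z, hz, h5⟩ := hD.aut x hx r hr h1 d h2 h3
    rcases List.mem_append.1 (I.perm.subset hz) with h6 | h6
    · exact Or.inr (keys_eq cl ▸ List.mem_map.2 ⟨z, h6, h5⟩)
    · exact Or.inl (by_contra fun h7 => h4 (mem_free.2 ⟨⟨z, h6, h5⟩, h7⟩))
  have g4 : ∀ d, d ∣ x.o → 1 < d → d ∉ F → d ∈ keys nd := fun d h1 h2 h3 =>
    by_contra fun h4 => h3 (mem_free.2 ⟨I.div_mem hD h1 h2, h4⟩)
  have g5 : x.f = 1 → ∀ r, r.Prime → r ∣ x.o → r - 1 ∉ F → r ∈ G := fun h1 r hr h2 h3 => by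
    rcases hr.eq_two_or_odd' with rfl | h4
    · simp [hG]
    · have h5 := hr.two_le
      have h6 : 1 < r - 1 := by obtain ⟨j, rfl⟩ := h4; omega
      have h7 := (g1 _ (g3 r hr h2 (r - 1) (by simp [h1]) h6 h3)).2
      rwa [Nat.sub_add_cancel (by omega)] at h7
  have g6 : ∀ a b, a ∈ F → b ∈ F → a ≠ b → 2 ≤ F.card := fun a b ha hb hab =>
    Finset.one_lt_card.2 ⟨a, ha, b, hb, hab⟩
  have g7 : ∀ a b c, a ∈ F → b ∈ F → c ∈ F → a ≠ b → a ≠ c → b ≠ c → 3 ≤ F.card :=
    fun a b c ha hb hc h1 h2 h3 => Finset.two_lt_card_iff.2 ⟨a, b, c, ha, hb, hc, h1, h2, h3⟩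
  rw [stO2, ite_rec] at h
  split_ifs at h with h1
  · have h2 : s - dem = 2 := by
      rw [ite_rec] at h1
      split_ifs at h1 with h2
      exact Nat.eq_of_beq_eq_true h2
    refine allN_sound h x.o ?_ hhi (by simp)
    by_cases h3 : x.o = 3
    · simp [h3]
    refine List.mem_cons_of_mem _ ?_
    by_cases h4 : x.o ∈ F
    swap
    · exact mem_gen2 (g1 _ (Or.inl (g4 _ dvd_rfl ho h4))).1 (Or.inl rfl)
    have h5 := Finset.card_pos.2 ⟨_, h4⟩
    by_cases hp : x.o.Prime
    · rcases hp.eq_two_or_odd' with h6 | ⟨j, hj⟩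
      · exact mem_gen2 (y := 2) (by simp) (Or.inl h6)
      by_cases h6 : j ∈ F
      · have h7 := g6 _ _ h4 h6 (by omega)
        exact mem_gen2 (g5 (by omega) _ hp dvd_rfl fun h8 => by
          have := g7 _ _ _ h4 h6 h8 (by omega) (by omega) (by omega)
          omega) (Or.inl rfl)
      · refine mem_gen2 (g1 j (g3 _ hp dvd_rfl j ?_ (by omega) h6)).1 (Or.inr (Or.inl hj))
        rw [hj, Nat.add_sub_cancel]
        rcases (by omega : x.f = 1 ∨ x.f = 2) with h7 | h7 <;> simp [h7]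
    · obtain ⟨q, m, hq, hm, h6, h7, h8⟩ := split_comp ho hp
      have h9 : ∀ r, r ∈ F → r ≠ x.o → x.f = 1 ∧ ∀ d, d < x.o → d ≠ r → d ∉ F := fun r hr h9 => by
        have := g6 _ _ h4 hr h9.symm
        refine ⟨by omega, fun d h10 h11 h12 => ?_⟩
        have := g7 _ _ _ h4 hr h12 h9.symm (by omega) h11.symm
        omega
      have hq2 := hq.two_le
      by_cases h10 : q ∈ F
      · obtain ⟨h11, h12⟩ := h9 q h10 (by omega)
        have h13 := g5 h11 q hq ⟨_, h8⟩ (h12 _ (by omega) (by omega))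
        rcases eq_or_ne m q with rfl | h14
        · exact mem_gen2 h13 (Or.inr (Or.inr (Or.inl h8)))
        · exact mem_gen2 h13 (Or.inr (Or.inr (Or.inr ⟨m, g4 m (Dvd.intro_left _ h8.symm) hm
            (h12 m h7 h14), h8.trans (mul_comm _ _)⟩)))
      have h11 := g4 q ⟨_, h8⟩ hq.one_lt h10
      have h12 : m ∣ x.o := Dvd.intro_left _ h8.symm
      refine mem_gen2 (y := m) ?_ (Or.inr (Or.inr (Or.inr ⟨q, h11, h8⟩)))
      by_cases h13 : m ∈ F
      swap
      · exact (g1 m (Or.inl (g4 m h12 hm h13))).1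
      obtain ⟨h14, h15⟩ := h9 m h13 (by omega)
      by_cases h16 : m.Prime
      · exact g5 h14 m h16 h12 (h15 _ (by omega) (by omega))
      · obtain ⟨r, n, hr, hn, h17, h18, h19⟩ := split_comp hm h16
        rw [h19]
        exact g2 r n (g4 r ((Dvd.intro _ h19.symm).trans h12) hr.one_lt (h15 _ (by omega) (by omega)))
          (g4 n ((Dvd.intro_left _ h19.symm).trans h12) hn (h15 _ (by omega) (by omega)))
  rw [stO, ite_rec] at h
  split_ifs at h with h2
  · have h3 : s - dem = 0 := Nat.eq_of_beq_eq_true h2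
    refine allL_sound h _ (g4 _ dvd_rfl ho fun h4 => ?_)
    have := Finset.card_pos.2 ⟨_, h4⟩
    omega
  rw [ite_rec] at h
  split_ifs at h with h3
  · have h4 : s - dem = 1 := Nat.eq_of_beq_eq_true h3
    refine allN_sound h x.o ?_ hhi (by simp)
    by_cases h5 : x.o ∈ F
    swap
    · exact (g1 _ (Or.inl (g4 _ dvd_rfl ho h5))).1
    have h6 := Finset.card_pos.2 ⟨_, h5⟩
    have h7 : ∀ d, d < x.o → d ∉ F := fun d h7 h8 => by
      have := g6 _ _ h5 h8 (by omega)
      omega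
    by_cases hp : x.o.Prime
    · exact g5 (by omega) _ hp dvd_rfl (h7 _ (by omega))
    · obtain ⟨q, m, hq, hm, h8, h9, h10⟩ := split_comp ho hp
      rw [h10]
      exact g2 q m (g4 q ⟨_, h10⟩ hq.one_lt (h7 _ h8)) (g4 m (Dvd.intro_left _ h10.symm) hm (h7 _ h9))
  · have h4 := allR_sound h (x.o - 2) (by change _ < hi - 1; omega)
    change p (x.o - 2 + 2) = true at h4
    rwa [Nat.sub_add_cancel ho] at h4

theorem sum_mul_le {R : List T} {c N : ℕ} (h : ∀ y ∈ R, c ≤ y.c) :
    (R.map fun y => y.f * (N / y.c)).sum * c ≤ (R.map T.f).sum * N := by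
  induction R with
  | nil => simp
  | cons a t ih =>
    have h1 := ih fun y hy => h y (by simp [hy])
    have h2 : N / a.c * c ≤ N := (Nat.mul_le_mul_left _ (h a (by simp))).trans (Nat.div_mul_le_self _ _)
    have h3 := Nat.mul_le_mul_left a.f h2
    simp only [List.map_cons, List.sum_cons, add_mul, mul_assoc]
    omega

end step

theorem lev2_sound (hD : Good K N D) {fin : ℕ → L3 → Bool} {k : St → Bool} {st : St} {x : T}
    {R : List T} (I : Inv K N D st (x :: R)) (h : lev2 (K - 1) fin k st = true) :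
    Res K N D fin k (L3.cons x.o x.f x.c st.cl) R := by
  obtain ⟨cl, nd, ps, sm, s, L, A, nmax, dem, PP, B, zp, HB, pc, po, pf⟩ := st
  have hx : x ∈ D := I.perm.symm.subset (by simp)
  have hN := hD.pos
  have h1 : A * N = L * _ := I.mass
  have h2 : s = _ := I.s_eq
  have hL : 0 < L := Nat.pos_of_dvd_of_pos I.L_dvd hN
  have hA : 0 < A := Nat.pos_of_ne_zero fun h0 => by
    rw [h0, zero_mul] at h1
    exact (Nat.mul_pos hL (Nat.succ_pos _)).ne h1
  have h3 := sum_mul_le (N := N) (R := x :: R) (c := x.c) fun y hy => by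
    rcases List.mem_cons.1 hy with rfl | hy
    · rfl
    · exact ((List.pairwise_cons.1 I.sorted).1 y hy).c_le
  have h4 := hD.five_mul x hx
  have hhi : x.c ≤ (5 * s + 1) * L / (5 * A) := by
    rw [Nat.le_div_iff_mul_le (by omega)]
    refine Nat.le_of_mul_le_mul_right (c := N) ?_ hN
    rw [← h2] at h3
    generalize ((x :: R).map fun y => y.f * (N / y.c)).sum = W at h1 h3
    calc x.c * (5 * A) * N = 5 * x.c * (A * N) := by ring
      _ = L * (5 * (W * x.c) + 5 * x.c) := by rw [h1]; ring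
      _ ≤ L * (5 * (s * N) + N) := by gcongr
      _ = _ := by ring
  have hlo : MAX(pc, Nat.succ (L /' A)) ≤ x.c := by
    refine max_le (I.last x (by simp)).c_le ?_
    change L / A < x.c
    rw [Nat.div_lt_iff_lt_mul hA]
    refine Nat.lt_of_mul_lt_mul_right (a := N) ?_
    obtain ⟨b, hb⟩ := hD.c_dvd hx
    have hc := hD.c_pos hx
    have hf := hD.f_pos hx
    rw [List.map_cons, List.sum_cons, (by rw [hb, Nat.mul_div_cancel_left _ hc] : N / x.c = b)] at h1
    generalize (R.map fun y => y.f * (N / y.c)).sum = W at h1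
    calc L * N = L * (x.c * (1 * b)) := by rw [hb, one_mul]
      _ ≤ L * (x.c * (x.f * b)) := by gcongr
      _ < L * (x.c * (x.f * b + W + 1)) := by gcongr; omega
      _ = _ := by rw [mul_assoc, h1]; ring
  change (IF MAX(pc, Nat.succ (L /' A)) ≤' ((5 * s + 1) * L / (5 * A)) THEN
    stO2 cl nd ((5 * s + 1) * L / (5 * A)) (s - dem) (stA (K - 1) fin k cl nd ps sm s L A nmax PP B zp
      HB pc po pf MAX(pc, Nat.succ (L /' A)) ((5 * s + 1) * L / (5 * A)) (s - dem) (mask nd))
    ELSE true) = true at h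
  rw [ite_rec, if_pos (Nat.ble_eq ▸ hlo.trans hhi)] at h
  exact stA_sound hD I hlo hhi (stO2_sound hD I
    ((Nat.le_of_dvd (hD.c_pos hx) (hD.o_dvd x hx)).trans hhi) h)

/-- The list of classes lies in the selected part. -/
def Mat : List (ℕ × ℕ) → L3 → List T → Prop
  | [], _, _ => True
  | _ :: _, _, [] => True
  | a :: l, cl, x :: R => hash cl % a.1 = a.2 ∧ Mat l (L3.cons x.o x.f x.c cl) R

theorem go_sound (hD : Good K N D) {fin : ℕ → L3 → Bool} (n : ℕ) :
    ∀ (st : St) (R : List T), R ≠ [] → Inv K N D st R → go (K - 1) fin n st = true →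
      ∃ cl, D.Perm (toL cl) ∧ fin N cl = true := by
  induction n with
  | zero => intro st R _ _ h; exact absurd h Bool.false_ne_true
  | succ n ih =>
    intro st R hR I h
    obtain ⟨x, R, rfl⟩ := List.exists_cons_of_ne_nil hR
    rcases lev2_sound hD I h with ⟨rfl, h1⟩ | ⟨h1, st', I', -, h2⟩
    · exact ⟨_, I.perm.trans (List.perm_append_singleton _ _), h1⟩
    · exact ih st' R h1 I' h2

theorem run_sound (hD : Good K N D) {fin : ℕ → L3 → Bool} (l : List (ℕ × ℕ)) :
    ∀ (st : St) (R : List T), R ≠ [] → Inv K N D st R → Mat l st.cl R →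
      run (K - 1) fin l st = true → ∃ cl, D.Perm (toL cl) ∧ fin N cl = true := by
  induction l with
  | nil => exact fun st R hR I _ h => go_sound hD _ st R hR I h
  | cons a l ih =>
    intro st R hR I hm h
    obtain ⟨x, R, rfl⟩ := List.exists_cons_of_ne_nil hR
    obtain ⟨M, j⟩ := a
    have h0 : lev2 (K - 1) fin (run (K - 1) fin l) st = true := by
      obtain ⟨cl, nd, ps, sm, s, L, A, nmax, dem, PP, B, zp, HB, pc, po, pf⟩ := st
      change (IF hash cl %' M =' j THEN lev2 (K - 1) fin (run (K - 1) fin l)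
        ⟨cl, nd, ps, sm, s, L, A, nmax, dem, PP, B, zp, HB, pc, po, pf⟩ ELSE true) = true at h
      rwa [ite_rec, if_pos (Nat.beq_eq ▸ hm.1)] at h
    rcases lev2_sound hD I h0 with ⟨rfl, h1⟩ | ⟨h1, st', I', h3, h2⟩
    · exact ⟨_, I.perm.trans (List.perm_append_singleton _ _), h1⟩
    · exact ih st' R h1 I' (h3 ▸ hm.2) h2

/-- The selected part of the search ends at an accepted leaf. -/
def W (K1 : ℕ) (OK : List ℕ) (l : List (ℕ × ℕ)) : Prop :=
  ∀ (N : ℕ) (D R : List T), Good (K1 + 1) N D → D.Perm R → R.Pairwise Le → Mat l L3.nil R →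
    ∃ P : List T, P.Perm D ∧ finL OK N P = true

theorem W_of_chunk {K1 : ℕ} {OK : List ℕ} {l : List (ℕ × ℕ)} (h : chunk K1 OK l = true) :
    W K1 OK l := by
  intro N D R hD hp hs hm
  obtain ⟨y, hy, hy2⟩ := hD.inv
  have h4 := hD.four y hy hy2
  have I : Inv (K1 + 1) N D (st0 K1) R := by
    refine ⟨hp, hs, by simp [st0, toL_nil], fun z hz => ?_, ?_, h4.trans (hD.c_dvd hy), ?_, Or.inl rfl,
      ⟨by simp [st0, keys_eq, toL_nil, toL_cons], ?_⟩, ⟨fun d => ?_, fun d q _ _ => ?_⟩, ?_, by simp [st0, Nat.prime_two],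
      Nat.prime_two.squarefree, by simp [st0, toL_nil], by simp [st0, toL_nil], by simp [st0],
      by simp [st0],
      fun d => ?_, by simp [st0, SM], by simp [st0, SM], hD.small⟩
    · have h1 := hD.five_le z (hp.symm.subset hz)
      have h2 := Nat.le_of_dvd (by omega) (hD.o_dvd z (hp.symm.subset hz))
      simp only [Le, st0]
      omega
    · have h1 := hD.sumf
      rw [(hp.map _).sum_eq] at h1
      change K1 = _
      omega
    · rw [← (hp.map _).sum_eq, hD.mass]
      rfl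
    · simpa [st0, toL_nil, toL_cons] using ⟨y, hp.subset hy, hy2, h4⟩
    · change (IF 2 =' d THEN 1 ELSE 1) ≠ 0
      simp [ite_rec]
    · change (IF 2 =' d THEN 1 ELSE 1 : ℕ).factorization q + 0 = 0
      simp [ite_rec]
    · have h1 : 2 ∈ (R.map T.o).toFinset := by simpa using ⟨y, hp.subset hy, hy2⟩
      have h2 := List.toFinset_card_le (R.map T.o)
      have h3 : free R (st0 K1).nd = (R.map T.o).toFinset.erase 2 := by
        simp [free, st0, keys_eq, toL_nil, toL_cons, Finset.sdiff_singleton_eq_erase]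
      have h5 := Finset.card_erase_add_one h1
      rw [h3]
      rw [List.length_map] at h2
      change 1 + _ ≤ _
      omega
    · have h1 : Nat.testBit 3 d = false ↔ _ := testBit_mask L3.nil d
      simpa [st0, toL_nil, keys_eq] using h1
  obtain ⟨cl, h1, h2⟩ := run_sound (K := K1 + 1) hD l _ R (List.ne_nil_of_mem (hp.subset hy)) I hm h
  exact ⟨_, h1.symm, h2⟩

theorem Mat.exists_snoc {M : ℕ} (hM : 0 < M) (l : List (ℕ × ℕ)) :
    ∀ (cl : L3) (R : List T), Mat l cl R → ∃ j < M, Mat (l ++ [(M, j)]) cl R := by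
  induction l with
  | nil =>
    intro cl R _
    cases R with
    | nil => exact ⟨0, hM, trivial⟩
    | cons x R => exact ⟨_, Nat.mod_lt (hash cl) hM, rfl, trivial⟩
  | cons a l ih =>
    intro cl R h
    cases R with
    | nil => exact ⟨0, hM, trivial⟩
    | cons x R =>
      obtain ⟨j, hj, h1⟩ := ih _ R h.2
      exact ⟨j, hj, h.1, h1⟩

theorem W_split {K1 : ℕ} {OK : List ℕ} {l : List (ℕ × ℕ)} (M : ℕ)
    (h : ∀ j : Fin (M + 1), W K1 OK (l ++ [(M + 1, j.1)])) : W K1 OK l := by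
  intro N D R hD hp hs hm
  obtain ⟨j, hj, h1⟩ := hm.exists_snoc (Nat.succ_pos M)
  exact h ⟨j, hj⟩ N D R hD hp hs h1

theorem W.leaf {K1 : ℕ} {OK : List ℕ} (h : W K1 OK []) {N : ℕ} {D : List T}
    (hD : Good (K1 + 1) N D) : ∃ P : List T, P.Perm D ∧ finL OK N P = true := by
  classical
  have h1 := List.pairwise_mergeSort (le := fun x y : T => decide (Le x y))
    (fun a b c => by simp only [decide_eq_true_eq]; unfold Le; omega)
    (fun a b => by simp only [Bool.or_eq_true, decide_eq_true_eq]; unfold Le; omega) D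
  exact h N D _ hD (List.mergeSort_perm D _).symm (h1.imp fun h => of_decide_eq_true h) trivial

end Cfsg.Agent.KC
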