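import Mathlib
import Cfsg.Agent.KC.SndF
import Cfsg.Agent.KC.Run10

/-! The parts of the search are put together. -/

set_option autoImplicit false

namespace Cfsg.Agent.KC

theorem w10_3_5 : W 9 [168, 360, 2520, 29120]
    [(1, 0), (1, 0), (13, 5)] := by
  refine W_split 2 fun j => ?_
  fin_cases j
  exacts [W_of_chunk c10_5_0,
    W_of_chunk c10_5_1,
    W_of_chunk c10_5_2]

theorem w10_3_7 : W 9 [168, 360, 2520, 29120]
    [(1, 0), (1, 0), (13, 7)] := by
  refine W_split 2 fun j => ?_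
  fin_cases j
  exacts [W_of_chunk c10_7_0,
    W_of_chunk c10_7_1,
    W_of_chunk c10_7_2]

theorem w10_3_12 : W 9 [168, 360, 2520, 29120]
    [(1, 0), (1, 0), (13, 12)] := by
  refine W_split 4 fun j => ?_
  fin_cases j
  exacts [W_of_chunk c10_12_0,
    W_of_chunk c10_12_1,
    W_of_chunk c10_12_2,
    W_of_chunk c10_12_3,
    W_of_chunk c10_12_4]

theorem w10_2 : W 9 [168, 360, 2520, 29120]
    [(1, 0), (1, 0)] := by
  refine W_split 12 fun j => ?_
  fin_cases j
  exacts [W_of_chunk c10_0,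
    W_of_chunk c10_1,
    W_of_chunk c10_2,
    W_of_chunk c10_3,
    W_of_chunk c10_4,
    w10_3_5,
    W_of_chunk c10_6,
    w10_3_7,
    W_of_chunk c10_8,
    W_of_chunk c10_9,
    W_of_chunk c10_10,
    W_of_chunk c10_11,
    w10_3_12]

theorem w10_1 : W 9 [168, 360, 2520, 29120]
    [(1, 0)] := by
  refine W_split 0 fun j => ?_
  fin_cases j
  exacts [w10_2]

theorem w10_0 : W 9 [168, 360, 2520, 29120]
    [] := by
  refine W_split 0 fun j => ?_
  fin_cases j
  exacts [w10_1]

end Cfsg.Agent.KC
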