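import Mathlib

/-!
The numerical data of the rational classes of a simple group: element order, number of conjugacy
classes, centralizer order.
-/

set_option autoImplicit false

namespace Cfsg.Agent.KC

/-- The data of a rational class: element order, number of classes, centralizer order. -/
structure T : Type where
  /-- the element order -/
  o : ℕ
  /-- the number of conjugacy classes -/
  f : ℕ
  /-- the centralizer order -/
  c : ℕ

/-- Classes of order `q * d` whose centralizer order is not divisible by `q ^ 2`. -/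
def isA (d q : ℕ) (y : T) : Bool := decide (y.o = q * d ∧ ¬ q ^ 2 ∣ y.c)

/-- Classes of order `d` prime to `q` whose centralizer order is exactly divisible by `q`. -/
def isB (d q : ℕ) (y : T) : Bool := decide (y.o = d ∧ q ∣ y.c ∧ ¬ q ^ 2 ∣ y.c ∧ ¬ q ∣ d)

/-- The orders of the non-abelian simple groups below `6233`. -/
def SM : List ℕ := [60, 168, 360, 504, 660, 1092, 2448, 2520, 3420, 4080, 5616, 6048, 6072]

/-- The numerical properties of the list of non-trivial rational classes. -/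
structure Good (K N : ℕ) (D : List T) : Prop where
  pos : 0 < N
  sumf : (D.map T.f).sum + 1 = K
  mass : (D.map fun y => y.f * (N / y.c)).sum + 1 = N
  two_le : ∀ y ∈ D, 2 ≤ y.o
  o_dvd : ∀ y ∈ D, y.o ∣ y.c
  five_le : ∀ y ∈ D, 5 ≤ y.c
  f_dvd : ∀ y ∈ D, y.f ∣ Nat.totient y.o
  dvd_N : ∀ y ∈ D, Nat.totient y.o / y.f * y.c ∣ N
  five_mul : ∀ y ∈ D, 5 * y.c ≤ N
  four : ∀ y ∈ D, y.o = 2 → 4 ∣ y.c
  inv : ∃ y ∈ D, y.o = 2
  pow : ∀ y ∈ D, ∀ d, d ∣ y.o → 1 < d → ∃ z ∈ D, z.o = d ∧ y.c ∣ z.c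
  aut : ∀ y ∈ D, ∀ p, p.Prime → p ∣ y.o → ∀ d, d ∣ (p - 1) / Nat.gcd (p - 1) y.f → 1 < d →
    ∃ z ∈ D, z.o = d
  up : ∀ y ∈ D, ∀ q, q.Prime → q ∣ y.c → ¬ q ∣ y.o →
    ∃ z ∈ D, z.o = q * y.o ∧ z.c ∣ y.c ∧ ∀ k, q ^ k ∣ y.c → q ^ k ∣ z.c
  sylow : ∀ p, p.Prime → p ∣ N → ∃ z ∈ D, z.o = p ∧ ∀ k, p ^ k ∣ N → p ^ k ∣ z.c
  burn : ∀ y ∈ D, y.o.Prime → ¬ y.o ^ 2 ∣ y.c →
    ¬ y.o ^ 2 ∣ N ∧ y.f + 1 ≠ y.o ∧ D.countP (fun z => decide (z.o = y.o)) ≤ 1
  tokA : ∀ d q, q.Prime → 1 < d → D.countP (isA d q) ≤ D.countP (isB d q)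
  tokB : ∀ d q k, q.Prime → 1 < d → D.countP (fun y => isB d q y && decide (y.c ≤ k)) ≤
    D.countP (fun y => isA d q y && decide (y.c ≤ k))
  invb : ∀ y ∈ D, y.o = 2 → N ≤ (K - 1) * (y.c * y.c)
  small : N ∈ SM ∨ 6233 ≤ N
  frob : ∀ n, n ∣ N → n ∣ (D.map fun y => if y.o ∣ n then y.f * (N / y.c) else 0).sum + 1

/-- The list comes from the group. -/
structure Link (G : Type*) [Group G] (D : List T) : Prop where
  rep : ∀ y ∈ D, ∃ g : G, orderOf g = y.o ∧ Nat.card (Subgroup.centralizer ({g} : Set G)) = y.c ∧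
    Nat.card (Subgroup.normalizer (Subgroup.zpowers g : Set G)) = Nat.totient y.o / y.f * y.c
  cover : ∀ g : G, g ≠ 1 → ∃ y ∈ D, y.o = orderOf g
  conj : D.countP (fun z => decide (z.o = 2)) ≤ 1 →
    ∀ x y : G, orderOf x = 2 → orderOf y = 2 → IsConj x y

end Cfsg.Agent.KC
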