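import Mathlib
import Cfsg.Agent.KC.Good

/-! Rational classes: definitions. -/

set_option autoImplicit false

namespace Cfsg.Agent.KC

variable {G : Type*} [Group G]

/-- `g` and `h` generate conjugate cyclic subgroups. -/
def Rc (g h : G) : Prop := ∃ a : G, Subgroup.zpowers (a * g * a⁻¹) = Subgroup.zpowers h

/-- The centralizer order. -/
noncomputable def cen (g : G) : ℕ := Nat.card (Subgroup.centralizer ({g} : Set G))

/-- The order of the normalizer of the cyclic subgroup. -/
noncomputable def nor (g : G) : ℕ := Nat.card (Subgroup.normalizer (Subgroup.zpowers g : Set G))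

/-- The data of the rational class of `g`. -/
noncomputable def dat (g : G) : T := ⟨orderOf g, Nat.totient (orderOf g) / (nor g / cen g), cen g⟩

/-- A list of representatives of the non-trivial rational classes. -/
structure Reps (L : List G) : Prop where
  ne_one : ∀ g ∈ L, g ≠ 1
  pair : L.Pairwise fun g h => ¬ Rc g h
  cover : ∀ g : G, g ≠ 1 → ∃ r ∈ L, Rc r g

end Cfsg.Agent.KC
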