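import Mathlib
import Cfsg.Agent.KC.Rc

/-! Rational classes: representatives, sizes and counting. -/

set_option autoImplicit false
set_option linter.unusedSectionVars false

namespace Cfsg.Agent.KC

open Subgroup

variable {G : Type*} [Group G]

theorem Rc.refl (g : G) : Rc g g := ⟨1, by simp⟩

theorem zpowers_conj (a g : G) :
    zpowers (a * g * a⁻¹) = (zpowers g).map (MulAut.conj a).toMonoidHom := by
  rw [MonoidHom.map_zpowers]; rfl

theorem zpowers_conj_congr (a : G) {g h : G} (e : zpowers g = zpowers h) :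
    zpowers (a * g * a⁻¹) = zpowers (a * h * a⁻¹) := by rw [zpowers_conj, zpowers_conj, e]

theorem Rc.symm {g h : G} (H : Rc g h) : Rc h g := by
  obtain ⟨a, e⟩ := H
  refine ⟨a⁻¹, ?_⟩
  rw [← zpowers_conj_congr a⁻¹ e]
  congr 1; group

theorem Rc.trans {g h k : G} (H : Rc g h) (H' : Rc h k) : Rc g k := by
  obtain ⟨a, e⟩ := H
  obtain ⟨b, e'⟩ := H'
  refine ⟨b * a, ?_⟩
  rw [← e', ← zpowers_conj_congr b e]
  congr 1; group

theorem Rc.of_isConj {g h : G} (H : IsConj g h) : Rc g h := by
  obtain ⟨a, rfl⟩ := isConj_iff.1 H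
  exact ⟨a, rfl⟩

theorem zpowers_pow_congr {g h : G} (e : zpowers g = zpowers h) (n : ℕ) :
    zpowers (g ^ n) = zpowers (h ^ n) := by
  have k : ∀ {g h : G}, zpowers g = zpowers h → zpowers (g ^ n) ≤ zpowers (h ^ n) := fun {g h} e => by
    obtain ⟨i, hi⟩ := mem_zpowers_iff.1 (e ▸ mem_zpowers g : g ∈ zpowers h)
    refine zpowers_le.2 (mem_zpowers_iff.2 ⟨i, ?_⟩)
    rw [← hi, ← zpow_natCast, ← zpow_natCast, ← zpow_mul, ← zpow_mul, mul_comm]
  exact le_antisymm (k e) (k e.symm)

theorem centralizer_eq (g : G) : centralizer ({g} : Set G) = centralizer (zpowers g : Set G) := by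
  ext x
  rw [mem_centralizer_singleton_iff, mem_centralizer_iff]
  refine ⟨fun h => ?_, fun h => (h g (mem_zpowers g)).symm⟩
  rintro _ ⟨n, rfl⟩
  exact ((show Commute x g from h).zpow_right n).symm.eq

theorem mem_nor_iff {a g : G} [Finite G] :
    a ∈ normalizer (zpowers g : Set G) ↔ zpowers (a * g * a⁻¹) = zpowers g := by
  rw [zpowers_conj, mem_normalizer_iff]
  constructor
  · intro h
    ext x
    rw [mem_map_equiv, h]
    simp [mul_assoc]
  · intro h x
    nth_rw 2 [← h]
    rw [mem_map_equiv]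
    simp [mul_assoc]

theorem cen_conj (a g : G) : cen (a * g * a⁻¹) = cen g := by
  refine (Nat.card_congr ((MulAut.conj a).toEquiv.subtypeEquiv fun x => ?_)).symm
  simp only [mem_centralizer_singleton_iff, MulEquiv.toEquiv_eq_coe, EquivLike.coe_coe,
    MulAut.conj_apply, conj_mul, mul_left_inj, mul_right_inj]

variable [Finite G]

theorem nor_conj (a g : G) : nor (a * g * a⁻¹) = nor g := by
  refine (Nat.card_congr ((MulAut.conj a).toEquiv.subtypeEquiv fun x => ?_)).symm
  simp only [mem_nor_iff, MulEquiv.toEquiv_eq_coe, EquivLike.coe_coe, MulAut.conj_apply]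
  rw [show a * x * a⁻¹ * (a * g * a⁻¹) * (a * x * a⁻¹)⁻¹ = a * (x * g * x⁻¹) * a⁻¹ by group,
    zpowers_conj a, zpowers_conj a, (map_injective (MulAut.conj a).injective).eq_iff]

theorem Rc.pow {g h : G} (H : Rc g h) (n : ℕ) : Rc (g ^ n) (h ^ n) := by
  obtain ⟨a, e⟩ := H
  exact ⟨a, by rw [← conj_pow]; exact zpowers_pow_congr e n⟩

theorem Rc.orderOf_eq {g h : G} (H : Rc g h) : orderOf g = orderOf h := by
  obtain ⟨a, e⟩ := H
  rw [← Nat.card_zpowers h, ← e, Nat.card_zpowers]
  exact ((MulAut.conj a).orderOf_eq g).symm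

theorem Rc.dat_eq {g h : G} (H : Rc g h) : dat g = dat h := by
  have h1 := H.orderOf_eq
  obtain ⟨a, e⟩ := H
  have h2 : cen g = cen h := by rw [← cen_conj a, cen, cen, centralizer_eq, centralizer_eq, e]
  have h3 : nor g = nor h := by rw [← nor_conj a, nor, nor, e]
  rw [dat, dat, h1, h2, h3]

theorem cen_pos (g : G) : 0 < cen g := Nat.card_pos

theorem card_range_mul (g : G) :
    Nat.card (zpowers g).normalizerMonoidHom.range * cen g = nor g := by
  rw [← index_ker, normalizerMonoidHom_ker, nor, ← card_mul_index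
    ((centralizer (zpowers g : Set G)).subgroupOf (normalizer (zpowers g : Set G))), mul_comm, cen,
    centralizer_eq, Nat.card_congr (subgroupOfEquivOfLe (centralizer_le_normalizer _)).toEquiv]

theorem card_aut (g : G) : Nat.card (MulAut (zpowers g)) = Nat.totient (orderOf g) := by
  rw [IsCyclic.card_mulAut, Nat.card_zpowers]

theorem index_range (g : G) : (zpowers g).normalizerMonoidHom.range.index = (dat g).f := by
  change _ = Nat.totient (orderOf g) / (nor g / cen g)
  rw [← card_range_mul, Nat.mul_div_cancel _ (cen_pos g), ← card_aut,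
    ← card_mul_index (zpowers g).normalizerMonoidHom.range, Nat.mul_div_cancel_left _ Nat.card_pos]

theorem card_range_mul_f (g : G) :
    Nat.card (zpowers g).normalizerMonoidHom.range * (dat g).f = Nat.totient (orderOf g) := by
  rw [← index_range, card_mul_index, card_aut]

theorem dat_f_dvd (g : G) : (dat g).f ∣ Nat.totient (orderOf g) :=
  Dvd.intro_left _ (card_range_mul_f g)

theorem dat_f_pos (g : G) : 0 < (dat g).f := index_range g ▸ Nat.pos_of_ne_zero index_ne_zero_of_finite

theorem nor_eq (g : G) : nor g = Nat.totient (orderOf g) / (dat g).f * cen g := by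
  rw [← card_range_mul_f, Nat.mul_div_cancel _ (dat_f_pos g), card_range_mul]

theorem exists_orderOf_of_dvd_aut (g : G) {p : ℕ} (hp : p.Prime) (hpo : p ∣ orderOf g) {d : ℕ}
    (hd : d ∣ (p - 1) / Nat.gcd (p - 1) (dat g).f) : ∃ a : G, orderOf a = d := by
  have := Fact.mk hp
  have ho : NeZero (Nat.card (zpowers g)) := ⟨Nat.card_pos.ne'⟩
  have hpo' : p ∣ Nat.card (zpowers g) := by rwa [Nat.card_zpowers]
  let e := IsCyclic.mulAutMulEquiv (zpowers g)
  let ψ : MulAut (zpowers g) →* (ZMod p)ˣ := (ZMod.unitsMap hpo').comp e.toMonoidHom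
  have hψ : Function.Surjective ψ := (ZMod.unitsMap_surjective hpo').comp e.surjective
  obtain ⟨u, hu⟩ := IsCyclic.exists_ofOrder_eq_natCard (α := (ZMod p)ˣ)
  rw [Nat.card_eq_fintype_card, ZMod.card_units] at hu
  obtain ⟨σ, rfl⟩ := hψ u
  have : (zpowers g).normalizerMonoidHom.range.Normal := ⟨fun x hx y => by
    rwa [show y * x * y⁻¹ = x from e.injective (by
      rw [map_mul, map_mul, mul_comm (e y), mul_assoc, ← map_mul, mul_inv_cancel, map_one, mul_one])]⟩
  obtain ⟨a, ha⟩ := (zpowers g).normalizerMonoidHom.range.pow_index_mem σ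
  rw [index_range] at ha
  have h1 : orderOf (ψ σ ^ (dat g).f) ∣ orderOf (a : G) := by
    rw [← map_pow, ← ha, orderOf_coe]
    exact (orderOf_map_dvd _ _).trans (orderOf_map_dvd _ _)
  rw [orderOf_pow' _ (dat_f_pos g).ne', hu] at h1
  exact ⟨_, orderOf_pow_orderOf_div (orderOf_pos (a : G)).ne' (hd.trans h1)⟩

theorem rc_one_iff {g : G} : Rc g 1 ↔ g = 1 :=
  ⟨fun h => orderOf_eq_one_iff.1 (h.orderOf_eq.trans orderOf_one), fun h => h ▸ Rc.refl _⟩

theorem exists_reps (G : Type*) [Group G] [Finite G] : ∃ L : List G, Reps L := by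
  classical
  let s : Setoid G := ⟨Rc, Rc.refl, Rc.symm, Rc.trans⟩
  have := Fintype.ofFinite (Quotient s)
  refine ⟨((Finset.univ.erase (Quotient.mk s 1)).toList.map Quotient.out), ?_, ?_, fun g hg => ?_⟩
  · intro g hg e
    obtain ⟨q, hq, rfl⟩ := List.mem_map.1 hg
    rw [Finset.mem_toList, Finset.mem_erase] at hq
    exact hq.1 (by rw [← e, Quotient.out_eq])
  · rw [List.pairwise_map]
    refine (Finset.nodup_toList _).imp fun {a b} hab h => hab ?_
    rw [← Quotient.out_eq a, ← Quotient.out_eq b]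
    exact Quotient.sound h
  · refine ⟨_, List.mem_map.2 ⟨Quotient.mk s g, ?_, rfl⟩, Quotient.exact (s := s) (Quotient.out_eq (Quotient.mk s g))⟩
    rw [Finset.mem_toList, Finset.mem_erase]
    exact ⟨fun e => hg (rc_one_iff.1 (Quotient.exact e)), Finset.mem_univ _⟩

open Classical in
theorem card_class [Fintype G] (g : G) :
    (Finset.univ.filter fun h => Rc g h).card = (dat g).f * (Nat.card G / cen g) := by
  have h1 : ∀ a : G, (Finset.univ.filter fun h => zpowers (a * g * a⁻¹) = zpowers h).card =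
      Nat.totient (orderOf g) := fun a => by
    have e : orderOf (a * g * a⁻¹) = orderOf g := (MulAut.conj a).orderOf_eq g
    rw [← e]
    generalize a * g * a⁻¹ = x
    rw [← IsCyclic.card_orderOf_eq_totient (α := zpowers x) (by rw [Fintype.card_zpowers])]
    refine (Finset.card_bij (fun (y : zpowers x) _ => (y : G)) (fun y hy => ?_)
      (fun _ _ _ _ e => Subtype.ext e) fun h hh => ?_).symm
    · rw [Finset.mem_filter] at hy ⊢
      refine ⟨Finset.mem_univ _, (eq_of_le_of_card_ge (zpowers_le.2 y.2) ?_).symm⟩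
      rw [Nat.card_zpowers, Nat.card_zpowers, orderOf_coe, hy.2]
    · rw [Finset.mem_filter] at hh
      refine ⟨⟨h, hh.2 ▸ mem_zpowers h⟩, Finset.mem_filter.2 ⟨Finset.mem_univ _, ?_⟩, rfl⟩
      rw [← orderOf_coe]
      change orderOf h = _
      rw [← Nat.card_zpowers, ← Nat.card_zpowers, hh.2]
  have h2 : ∀ h : G, (Finset.univ.filter fun a => zpowers (a * g * a⁻¹) = zpowers h).card =
      if Rc g h then nor g else 0 := fun h => by
    split_ifs with H
    · obtain ⟨b, hb⟩ := H
      rw [nor, ← Fintype.card_subtype, ← Nat.card_eq_fintype_card]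
      refine Nat.card_congr ((Equiv.mulLeft b⁻¹).subtypeEquiv fun a => ?_)
      rw [mem_nor_iff, Equiv.coe_mulLeft, ← hb]
      refine ⟨fun e => ?_, fun e => ?_⟩
      · have := zpowers_conj_congr b⁻¹ e
        convert this using 2 <;> group
      · have := zpowers_conj_congr b e
        convert this using 2; group
    · exact Finset.card_eq_zero.2 (Finset.filter_eq_empty_iff.2 fun a _ e => H ⟨a, e⟩)
  have h3 := Finset.sum_card_bipartiteAbove_eq_sum_card_bipartiteBelow (s := Finset.univ)
    (t := Finset.univ) fun a h : G => zpowers (a * g * a⁻¹) = zpowers h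
  simp only [Finset.bipartiteAbove, Finset.bipartiteBelow, h1, h2, Finset.sum_const, smul_eq_mul,
    ← Finset.sum_filter, Finset.card_univ, ← Nat.card_eq_fintype_card] at h3
  obtain ⟨m, hm⟩ : cen g ∣ Nat.card G := card_subgroup_dvd_card _
  rw [← card_range_mul, ← card_range_mul_f, hm] at h3
  rw [hm, Nat.mul_div_cancel_left _ (cen_pos g)]
  refine Nat.eq_of_mul_eq_mul_right (Nat.mul_pos (Nat.card_pos (α :=
    (zpowers g).normalizerMonoidHom.range)) (cen_pos g)) ?_
  rw [← h3]; ring

theorem Reps.nodup {L : List G} (hL : Reps L) : L.Nodup :=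
  hL.pair.imp fun {a b} h (e : a = b) => h (e ▸ Rc.refl a)

theorem Reps.eq_of_rc {L : List G} (hL : Reps L) {a b : G} (ha : a ∈ L) (hb : b ∈ L) (h : Rc a b) :
    a = b := by
  by_contra e
  have : Std.Symm fun g h : G => ¬ Rc g h := ⟨fun _ _ h h' => h h'.symm⟩
  exact hL.pair.forall ha hb e h

/-- Sums of functions that are constant on rational classes. -/
theorem Reps.sum_eq {L : List G} (hL : Reps L) [Fintype G] (F : G → ℕ)
    (hF : ∀ g h, Rc g h → F g = F h) :
    ∑ g, F g = (L.map fun r => (dat r).f * (Nat.card G / cen r) * F r).sum + F 1 := by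
  classical
  rw [← List.sum_toFinset _ hL.nodup, ← Finset.sum_erase_add _ _ (Finset.mem_univ 1)]
  congr 1
  rw [show Finset.univ.erase (1 : G) = L.toFinset.biUnion fun r => Finset.univ.filter (Rc r) from ?_,
    Finset.sum_biUnion fun a ha b hb e => Finset.disjoint_filter.2 fun g _ h1 h2 =>
      e (hL.eq_of_rc (by simpa using ha) (by simpa using hb) (h1.trans h2.symm))]
  · refine Finset.sum_congr rfl fun r _ => ?_
    rw [← card_class, ← smul_eq_mul, ← Finset.sum_const]
    exact Finset.sum_congr (by convert rfl) fun g hg => (hF _ _ (Finset.mem_filter.1 hg).2).symm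
  · ext g
    simp only [Finset.mem_erase, Finset.mem_univ, and_true, Finset.mem_biUnion, List.mem_toFinset,
      Finset.mem_filter, true_and]
    exact ⟨hL.cover g, fun ⟨r, hr, h⟩ e => hL.ne_one r hr (rc_one_iff.1 (e ▸ h))⟩

open Classical in
theorem Reps.countP_eq {L : List G} (hL : Reps L) (p : T → Bool) :
    (L.map dat).countP p = (L.toFinset.filter fun g => p (dat g) = true).card := by
  rw [List.countP_map, List.countP_eq_length_filter,
    ← List.toFinset_card_of_nodup (hL.nodup.filter _), List.toFinset_filter]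
  rfl

/-- An injection of rational classes. -/
theorem Reps.countP_le {L : List G} (hL : Reps L) (p q : T → Bool) (Φ : G → G → Prop)
    (h1 : ∀ g, g ≠ 1 → p (dat g) = true → ∃ h, h ≠ 1 ∧ q (dat h) = true ∧ Φ g h)
    (h2 : ∀ g g' h h', p (dat g) = true → p (dat g') = true → Φ g h → Φ g' h' → Rc h h' →
      Rc g g') :
    (L.map dat).countP p ≤ (L.map dat).countP q := by
  classical
  have k : ∀ g, ∃ r, g ≠ 1 → p (dat g) = true →
      r ∈ L ∧ q (dat r) = true ∧ ∃ h, Φ g h ∧ Rc r h := fun g => by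
    by_cases e : g ≠ 1 ∧ p (dat g) = true
    · obtain ⟨h, a, b, c⟩ := h1 g e.1 e.2
      obtain ⟨r, hr, d⟩ := hL.cover h a
      exact ⟨r, fun _ _ => ⟨hr, d.dat_eq ▸ b, h, c, d⟩⟩
    · exact ⟨1, fun a b => absurd ⟨a, b⟩ e⟩
  choose f hf using k
  rw [hL.countP_eq, hL.countP_eq]
  refine Finset.card_le_card_of_injOn f (fun g hg => ?_) fun g hg g' hg' e => ?_
  · simp only [Finset.coe_filter, List.mem_toFinset, Set.mem_ofPred_eq] at hg ⊢
    exact (hf g (hL.ne_one g hg.1) hg.2).imp_right And.left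
  · simp only [Finset.coe_filter, List.mem_toFinset, Set.mem_ofPred_eq] at hg hg'
    obtain ⟨-, -, h, a, b⟩ := hf g (hL.ne_one g hg.1) hg.2
    obtain ⟨-, -, h', a', b'⟩ := hf g' (hL.ne_one g' hg'.1) hg'.2
    exact hL.eq_of_rc hg.1 hg'.1 (h2 g g' h h' hg.2 hg'.2 a a' (b.symm.trans (e ▸ b')))

/-- A property that singles out one rational class. -/
theorem Reps.countP_le_one {L : List G} (hL : Reps L) (p : T → Bool)
    (h : ∀ g g' : G, p (dat g) = true → p (dat g') = true → Rc g g') :
    (L.map dat).countP p ≤ 1 := by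
  classical
  rw [hL.countP_eq]
  refine Finset.card_le_one.2 fun a ha b hb => ?_
  simp only [Finset.mem_filter, List.mem_toFinset] at ha hb
  exact hL.eq_of_rc ha.1 hb.1 (h a b ha.2 hb.2)

theorem Reps.rc_of_countP_le_one {L : List G} (hL : Reps L) (p : T → Bool)
    (h : (L.map dat).countP p ≤ 1) {g g' : G} (hg : g ≠ 1) (hg' : g' ≠ 1)
    (h1 : p (dat g) = true) (h2 : p (dat g') = true) : Rc g g' := by
  classical
  rw [hL.countP_eq] at h
  obtain ⟨r, hr, a⟩ := hL.cover g hg
  obtain ⟨r', hr', a'⟩ := hL.cover g' hg'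
  have e := Finset.card_le_one.1 h r (by simp [hr, a.dat_eq, h1]) r' (by simp [hr', a'.dat_eq, h2])
  exact a.symm.trans (e ▸ a')

end Cfsg.Agent.KC
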