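import Mathlib
import Cfsg.Agent.KC.Def2

/-! Parts of the search, evaluated by the kernel. -/

set_option autoImplicit false

namespace Cfsg.Agent.KC

theorem c11_6_0_0 : chunk 10 [168, 360, 2448, 2520, 29120]
    [(1, 0), (1, 0), (41, 6), (15, 0), (5, 0)] = true := by
  decide +kernel

theorem c11_6_0_1 : chunk 10 [168, 360, 2448, 2520, 29120]
    [(1, 0), (1, 0), (41, 6), (15, 0), (5, 1)] = true := by
  decide +kernel

theorem c11_6_0_2 : chunk 10 [168, 360, 2448, 2520, 29120]
    [(1, 0), (1, 0), (41, 6), (15, 0), (5, 2)] = true := by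
  decide +kernel

theorem c11_6_0_3 : chunk 10 [168, 360, 2448, 2520, 29120]
    [(1, 0), (1, 0), (41, 6), (15, 0), (5, 3)] = true := by
  decide +kernel

theorem c11_6_0_4_0 : chunk 10 [168, 360, 2448, 2520, 29120]
    [(1, 0), (1, 0), (41, 6), (15, 0), (5, 4), (3, 0)] = true := by
  decide +kernel

theorem c11_6_0_4_1 : chunk 10 [168, 360, 2448, 2520, 29120]
    [(1, 0), (1, 0), (41, 6), (15, 0), (5, 4), (3, 1)] = true := by
  decide +kernel

theorem c11_6_0_4_2 : chunk 10 [168, 360, 2448, 2520, 29120]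
    [(1, 0), (1, 0), (41, 6), (15, 0), (5, 4), (3, 2)] = true := by
  decide +kernel

theorem c11_6_1 : chunk 10 [168, 360, 2448, 2520, 29120]
    [(1, 0), (1, 0), (41, 6), (15, 1)] = true := by
  decide +kernel

theorem c11_6_2 : chunk 10 [168, 360, 2448, 2520, 29120]
    [(1, 0), (1, 0), (41, 6), (15, 2)] = true := by
  decide +kernel

theorem c11_6_3 : chunk 10 [168, 360, 2448, 2520, 29120]
    [(1, 0), (1, 0), (41, 6), (15, 3)] = true := by
  decide +kernel

theorem c11_6_4 : chunk 10 [168, 360, 2448, 2520, 29120]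
    [(1, 0), (1, 0), (41, 6), (15, 4)] = true := by
  decide +kernel

theorem c11_6_5 : chunk 10 [168, 360, 2448, 2520, 29120]
    [(1, 0), (1, 0), (41, 6), (15, 5)] = true := by
  decide +kernel

theorem c11_6_6 : chunk 10 [168, 360, 2448, 2520, 29120]
    [(1, 0), (1, 0), (41, 6), (15, 6)] = true := by
  decide +kernel

theorem c11_6_7 : chunk 10 [168, 360, 2448, 2520, 29120]
    [(1, 0), (1, 0), (41, 6), (15, 7)] = true := by
  decide +kernel

theorem c11_6_8 : chunk 10 [168, 360, 2448, 2520, 29120]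
    [(1, 0), (1, 0), (41, 6), (15, 8)] = true := by
  decide +kernel

theorem c11_6_9 : chunk 10 [168, 360, 2448, 2520, 29120]
    [(1, 0), (1, 0), (41, 6), (15, 9)] = true := by
  decide +kernel

theorem c11_6_10 : chunk 10 [168, 360, 2448, 2520, 29120]
    [(1, 0), (1, 0), (41, 6), (15, 10)] = true := by
  decide +kernel

theorem c11_6_11 : chunk 10 [168, 360, 2448, 2520, 29120]
    [(1, 0), (1, 0), (41, 6), (15, 11)] = true := by
  decide +kernel

theorem c11_6_12_0 : chunk 10 [168, 360, 2448, 2520, 29120]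
    [(1, 0), (1, 0), (41, 6), (15, 12), (3, 0)] = true := by
  decide +kernel

theorem c11_6_12_1 : chunk 10 [168, 360, 2448, 2520, 29120]
    [(1, 0), (1, 0), (41, 6), (15, 12), (3, 1)] = true := by
  decide +kernel

theorem c11_6_12_2 : chunk 10 [168, 360, 2448, 2520, 29120]
    [(1, 0), (1, 0), (41, 6), (15, 12), (3, 2)] = true := by
  decide +kernel

theorem c11_6_13_0 : chunk 10 [168, 360, 2448, 2520, 29120]
    [(1, 0), (1, 0), (41, 6), (15, 13), (3, 0)] = true := by
  decide +kernel

end Cfsg.Agent.KC
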