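import Mathlib
import Cfsg.Agent.KC.Def2

/-! Parts of the search, evaluated by the kernel. -/

set_option autoImplicit false

namespace Cfsg.Agent.KC

theorem c11_6_13_1 : chunk 10 [168, 360, 2448, 2520, 29120]
    [(1, 0), (1, 0), (41, 6), (15, 13), (3, 1)] = true := by
  decide +kernel

theorem c11_6_13_2 : chunk 10 [168, 360, 2448, 2520, 29120]
    [(1, 0), (1, 0), (41, 6), (15, 13), (3, 2)] = true := by
  decide +kernel

theorem c11_6_14 : chunk 10 [168, 360, 2448, 2520, 29120]
    [(1, 0), (1, 0), (41, 6), (15, 14)] = true := by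
  decide +kernel

theorem c11_7 : chunk 10 [168, 360, 2448, 2520, 29120]
    [(1, 0), (1, 0), (41, 7)] = true := by
  decide +kernel

theorem c11_8_0 : chunk 10 [168, 360, 2448, 2520, 29120]
    [(1, 0), (1, 0), (41, 8), (5, 0)] = true := by
  decide +kernel

theorem c11_8_1_0 : chunk 10 [168, 360, 2448, 2520, 29120]
    [(1, 0), (1, 0), (41, 8), (5, 1), (3, 0)] = true := by
  decide +kernel

theorem c11_8_1_1 : chunk 10 [168, 360, 2448, 2520, 29120]
    [(1, 0), (1, 0), (41, 8), (5, 1), (3, 1)] = true := by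
  decide +kernel

theorem c11_8_1_2 : chunk 10 [168, 360, 2448, 2520, 29120]
    [(1, 0), (1, 0), (41, 8), (5, 1), (3, 2)] = true := by
  decide +kernel

theorem c11_8_2 : chunk 10 [168, 360, 2448, 2520, 29120]
    [(1, 0), (1, 0), (41, 8), (5, 2)] = true := by
  decide +kernel

theorem c11_8_3 : chunk 10 [168, 360, 2448, 2520, 29120]
    [(1, 0), (1, 0), (41, 8), (5, 3)] = true := by
  decide +kernel

theorem c11_8_4 : chunk 10 [168, 360, 2448, 2520, 29120]
    [(1, 0), (1, 0), (41, 8), (5, 4)] = true := by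
  decide +kernel

theorem c11_9 : chunk 10 [168, 360, 2448, 2520, 29120]
    [(1, 0), (1, 0), (41, 9)] = true := by
  decide +kernel

theorem c11_10_0 : chunk 10 [168, 360, 2448, 2520, 29120]
    [(1, 0), (1, 0), (41, 10), (3, 0)] = true := by
  decide +kernel

theorem c11_10_1 : chunk 10 [168, 360, 2448, 2520, 29120]
    [(1, 0), (1, 0), (41, 10), (3, 1)] = true := by
  decide +kernel

theorem c11_10_2 : chunk 10 [168, 360, 2448, 2520, 29120]
    [(1, 0), (1, 0), (41, 10), (3, 2)] = true := by
  decide +kernel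

theorem c11_11_0 : chunk 10 [168, 360, 2448, 2520, 29120]
    [(1, 0), (1, 0), (41, 11), (5, 0)] = true := by
  decide +kernel

theorem c11_11_1 : chunk 10 [168, 360, 2448, 2520, 29120]
    [(1, 0), (1, 0), (41, 11), (5, 1)] = true := by
  decide +kernel

theorem c11_11_2 : chunk 10 [168, 360, 2448, 2520, 29120]
    [(1, 0), (1, 0), (41, 11), (5, 2)] = true := by
  decide +kernel

theorem c11_11_3_0 : chunk 10 [168, 360, 2448, 2520, 29120]
    [(1, 0), (1, 0), (41, 11), (5, 3), (3, 0)] = true := by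
  decide +kernel

theorem c11_11_3_1 : chunk 10 [168, 360, 2448, 2520, 29120]
    [(1, 0), (1, 0), (41, 11), (5, 3), (3, 1)] = true := by
  decide +kernel

theorem c11_11_3_2 : chunk 10 [168, 360, 2448, 2520, 29120]
    [(1, 0), (1, 0), (41, 11), (5, 3), (3, 2)] = true := by
  decide +kernel

theorem c11_11_4 : chunk 10 [168, 360, 2448, 2520, 29120]
    [(1, 0), (1, 0), (41, 11), (5, 4)] = true := by
  decide +kernel

theorem c11_12 : chunk 10 [168, 360, 2448, 2520, 29120]
    [(1, 0), (1, 0), (41, 12)] = true := by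
  decide +kernel

theorem c11_13_0 : chunk 10 [168, 360, 2448, 2520, 29120]
    [(1, 0), (1, 0), (41, 13), (3, 0)] = true := by
  decide +kernel

end Cfsg.Agent.KC
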