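import Mathlib
import Cfsg.Agent.KC.Def2

/-! Parts of the search, evaluated by the kernel. -/

set_option autoImplicit false

namespace Cfsg.Agent.KC

theorem c11_13_1 : chunk 10 [168, 360, 2448, 2520, 29120]
    [(1, 0), (1, 0), (41, 13), (3, 1)] = true := by
  decide +kernel

theorem c11_13_2 : chunk 10 [168, 360, 2448, 2520, 29120]
    [(1, 0), (1, 0), (41, 13), (3, 2)] = true := by
  decide +kernel

theorem c11_14_0 : chunk 10 [168, 360, 2448, 2520, 29120]
    [(1, 0), (1, 0), (41, 14), (3, 0)] = true := by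
  decide +kernel

theorem c11_14_1 : chunk 10 [168, 360, 2448, 2520, 29120]
    [(1, 0), (1, 0), (41, 14), (3, 1)] = true := by
  decide +kernel

theorem c11_14_2 : chunk 10 [168, 360, 2448, 2520, 29120]
    [(1, 0), (1, 0), (41, 14), (3, 2)] = true := by
  decide +kernel

theorem c11_15_0 : chunk 10 [168, 360, 2448, 2520, 29120]
    [(1, 0), (1, 0), (41, 15), (3, 0)] = true := by
  decide +kernel

theorem c11_15_1 : chunk 10 [168, 360, 2448, 2520, 29120]
    [(1, 0), (1, 0), (41, 15), (3, 1)] = true := by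
  decide +kernel

theorem c11_15_2 : chunk 10 [168, 360, 2448, 2520, 29120]
    [(1, 0), (1, 0), (41, 15), (3, 2)] = true := by
  decide +kernel

theorem c11_16_0 : chunk 10 [168, 360, 2448, 2520, 29120]
    [(1, 0), (1, 0), (41, 16), (9, 0)] = true := by
  decide +kernel

theorem c11_16_1 : chunk 10 [168, 360, 2448, 2520, 29120]
    [(1, 0), (1, 0), (41, 16), (9, 1)] = true := by
  decide +kernel

theorem c11_16_2_0_0 : chunk 10 [168, 360, 2448, 2520, 29120]
    [(1, 0), (1, 0), (41, 16), (9, 2), (3, 0), (3, 0)] = true := by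
  decide +kernel

theorem c11_16_2_0_1 : chunk 10 [168, 360, 2448, 2520, 29120]
    [(1, 0), (1, 0), (41, 16), (9, 2), (3, 0), (3, 1)] = true := by
  decide +kernel

theorem c11_16_2_0_2 : chunk 10 [168, 360, 2448, 2520, 29120]
    [(1, 0), (1, 0), (41, 16), (9, 2), (3, 0), (3, 2)] = true := by
  decide +kernel

theorem c11_16_2_1 : chunk 10 [168, 360, 2448, 2520, 29120]
    [(1, 0), (1, 0), (41, 16), (9, 2), (3, 1)] = true := by
  decide +kernel

theorem c11_16_2_2 : chunk 10 [168, 360, 2448, 2520, 29120]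
    [(1, 0), (1, 0), (41, 16), (9, 2), (3, 2)] = true := by
  decide +kernel

theorem c11_16_3 : chunk 10 [168, 360, 2448, 2520, 29120]
    [(1, 0), (1, 0), (41, 16), (9, 3)] = true := by
  decide +kernel

theorem c11_16_4 : chunk 10 [168, 360, 2448, 2520, 29120]
    [(1, 0), (1, 0), (41, 16), (9, 4)] = true := by
  decide +kernel

theorem c11_16_5_0 : chunk 10 [168, 360, 2448, 2520, 29120]
    [(1, 0), (1, 0), (41, 16), (9, 5), (3, 0)] = true := by
  decide +kernel

theorem c11_16_5_1 : chunk 10 [168, 360, 2448, 2520, 29120]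
    [(1, 0), (1, 0), (41, 16), (9, 5), (3, 1)] = true := by
  decide +kernel

theorem c11_16_5_2 : chunk 10 [168, 360, 2448, 2520, 29120]
    [(1, 0), (1, 0), (41, 16), (9, 5), (3, 2)] = true := by
  decide +kernel

theorem c11_16_6_0 : chunk 10 [168, 360, 2448, 2520, 29120]
    [(1, 0), (1, 0), (41, 16), (9, 6), (3, 0)] = true := by
  decide +kernel

end Cfsg.Agent.KC
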