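import Mathlib
import Cfsg.Agent.KC.Def2

/-! Parts of the search, evaluated by the kernel. -/

set_option autoImplicit false

namespace Cfsg.Agent.KC

theorem c11_16_6_1 : chunk 10 [168, 360, 2448, 2520, 29120]
    [(1, 0), (1, 0), (41, 16), (9, 6), (3, 1)] = true := by
  decide +kernel

theorem c11_16_6_2 : chunk 10 [168, 360, 2448, 2520, 29120]
    [(1, 0), (1, 0), (41, 16), (9, 6), (3, 2)] = true := by
  decide +kernel

theorem c11_16_7 : chunk 10 [168, 360, 2448, 2520, 29120]
    [(1, 0), (1, 0), (41, 16), (9, 7)] = true := by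
  decide +kernel

theorem c11_16_8 : chunk 10 [168, 360, 2448, 2520, 29120]
    [(1, 0), (1, 0), (41, 16), (9, 8)] = true := by
  decide +kernel

theorem c11_17 : chunk 10 [168, 360, 2448, 2520, 29120]
    [(1, 0), (1, 0), (41, 17)] = true := by
  decide +kernel

theorem c11_18_0 : chunk 10 [168, 360, 2448, 2520, 29120]
    [(1, 0), (1, 0), (41, 18), (5, 0)] = true := by
  decide +kernel

theorem c11_18_1 : chunk 10 [168, 360, 2448, 2520, 29120]
    [(1, 0), (1, 0), (41, 18), (5, 1)] = true := by
  decide +kernel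

theorem c11_18_2 : chunk 10 [168, 360, 2448, 2520, 29120]
    [(1, 0), (1, 0), (41, 18), (5, 2)] = true := by
  decide +kernel

theorem c11_18_3 : chunk 10 [168, 360, 2448, 2520, 29120]
    [(1, 0), (1, 0), (41, 18), (5, 3)] = true := by
  decide +kernel

theorem c11_18_4 : chunk 10 [168, 360, 2448, 2520, 29120]
    [(1, 0), (1, 0), (41, 18), (5, 4)] = true := by
  decide +kernel

theorem c11_19_0 : chunk 10 [168, 360, 2448, 2520, 29120]
    [(1, 0), (1, 0), (41, 19), (11, 0)] = true := by
  decide +kernel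

theorem c11_19_1 : chunk 10 [168, 360, 2448, 2520, 29120]
    [(1, 0), (1, 0), (41, 19), (11, 1)] = true := by
  decide +kernel

theorem c11_19_2_0 : chunk 10 [168, 360, 2448, 2520, 29120]
    [(1, 0), (1, 0), (41, 19), (11, 2), (3, 0)] = true := by
  decide +kernel

theorem c11_19_2_1 : chunk 10 [168, 360, 2448, 2520, 29120]
    [(1, 0), (1, 0), (41, 19), (11, 2), (3, 1)] = true := by
  decide +kernel

theorem c11_19_2_2 : chunk 10 [168, 360, 2448, 2520, 29120]
    [(1, 0), (1, 0), (41, 19), (11, 2), (3, 2)] = true := by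
  decide +kernel

theorem c11_19_3_0 : chunk 10 [168, 360, 2448, 2520, 29120]
    [(1, 0), (1, 0), (41, 19), (11, 3), (3, 0)] = true := by
  decide +kernel

theorem c11_19_3_1 : chunk 10 [168, 360, 2448, 2520, 29120]
    [(1, 0), (1, 0), (41, 19), (11, 3), (3, 1)] = true := by
  decide +kernel

theorem c11_19_3_2 : chunk 10 [168, 360, 2448, 2520, 29120]
    [(1, 0), (1, 0), (41, 19), (11, 3), (3, 2)] = true := by
  decide +kernel

end Cfsg.Agent.KC
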