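import Mathlib
import Cfsg.Agent.KC.Def2

/-! Parts of the search, evaluated by the kernel. -/

set_option autoImplicit false

namespace Cfsg.Agent.KC

theorem c11_19_4 : chunk 10 [168, 360, 2448, 2520, 29120]
    [(1, 0), (1, 0), (41, 19), (11, 4)] = true := by
  decide +kernel

theorem c11_19_5 : chunk 10 [168, 360, 2448, 2520, 29120]
    [(1, 0), (1, 0), (41, 19), (11, 5)] = true := by
  decide +kernel

theorem c11_19_6_0 : chunk 10 [168, 360, 2448, 2520, 29120]
    [(1, 0), (1, 0), (41, 19), (11, 6), (3, 0)] = true := by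
  decide +kernel

theorem c11_19_6_1 : chunk 10 [168, 360, 2448, 2520, 29120]
    [(1, 0), (1, 0), (41, 19), (11, 6), (3, 1)] = true := by
  decide +kernel

theorem c11_19_6_2 : chunk 10 [168, 360, 2448, 2520, 29120]
    [(1, 0), (1, 0), (41, 19), (11, 6), (3, 2)] = true := by
  decide +kernel

theorem c11_19_7 : chunk 10 [168, 360, 2448, 2520, 29120]
    [(1, 0), (1, 0), (41, 19), (11, 7)] = true := by
  decide +kernel

theorem c11_19_8 : chunk 10 [168, 360, 2448, 2520, 29120]
    [(1, 0), (1, 0), (41, 19), (11, 8)] = true := by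
  decide +kernel

theorem c11_19_9 : chunk 10 [168, 360, 2448, 2520, 29120]
    [(1, 0), (1, 0), (41, 19), (11, 9)] = true := by
  decide +kernel

theorem c11_19_10 : chunk 10 [168, 360, 2448, 2520, 29120]
    [(1, 0), (1, 0), (41, 19), (11, 10)] = true := by
  decide +kernel

theorem c11_20 : chunk 10 [168, 360, 2448, 2520, 29120]
    [(1, 0), (1, 0), (41, 20)] = true := by
  decide +kernel

theorem c11_21_0 : chunk 10 [168, 360, 2448, 2520, 29120]
    [(1, 0), (1, 0), (41, 21), (7, 0)] = true := by
  decide +kernel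

theorem c11_21_1 : chunk 10 [168, 360, 2448, 2520, 29120]
    [(1, 0), (1, 0), (41, 21), (7, 1)] = true := by
  decide +kernel

theorem c11_21_2 : chunk 10 [168, 360, 2448, 2520, 29120]
    [(1, 0), (1, 0), (41, 21), (7, 2)] = true := by
  decide +kernel

theorem c11_21_3 : chunk 10 [168, 360, 2448, 2520, 29120]
    [(1, 0), (1, 0), (41, 21), (7, 3)] = true := by
  decide +kernel

theorem c11_21_4 : chunk 10 [168, 360, 2448, 2520, 29120]
    [(1, 0), (1, 0), (41, 21), (7, 4)] = true := by
  decide +kernel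

theorem c11_21_5 : chunk 10 [168, 360, 2448, 2520, 29120]
    [(1, 0), (1, 0), (41, 21), (7, 5)] = true := by
  decide +kernel

theorem c11_21_6 : chunk 10 [168, 360, 2448, 2520, 29120]
    [(1, 0), (1, 0), (41, 21), (7, 6)] = true := by
  decide +kernel

theorem c11_22 : chunk 10 [168, 360, 2448, 2520, 29120]
    [(1, 0), (1, 0), (41, 22)] = true := by
  decide +kernel

theorem c11_23_0 : chunk 10 [168, 360, 2448, 2520, 29120]
    [(1, 0), (1, 0), (41, 23), (5, 0)] = true := by
  decide +kernel

theorem c11_23_1 : chunk 10 [168, 360, 2448, 2520, 29120]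
    [(1, 0), (1, 0), (41, 23), (5, 1)] = true := by
  decide +kernel

theorem c11_23_2 : chunk 10 [168, 360, 2448, 2520, 29120]
    [(1, 0), (1, 0), (41, 23), (5, 2)] = true := by
  decide +kernel

theorem c11_23_3 : chunk 10 [168, 360, 2448, 2520, 29120]
    [(1, 0), (1, 0), (41, 23), (5, 3)] = true := by
  decide +kernel

end Cfsg.Agent.KC
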