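import Mathlib
import Cfsg.Agent.KC.Def2

/-! Parts of the search, evaluated by the kernel. -/

set_option autoImplicit false

namespace Cfsg.Agent.KC

theorem c11_23_4 : chunk 10 [168, 360, 2448, 2520, 29120]
    [(1, 0), (1, 0), (41, 23), (5, 4)] = true := by
  decide +kernel

theorem c11_24_0 : chunk 10 [168, 360, 2448, 2520, 29120]
    [(1, 0), (1, 0), (41, 24), (3, 0)] = true := by
  decide +kernel

theorem c11_24_1 : chunk 10 [168, 360, 2448, 2520, 29120]
    [(1, 0), (1, 0), (41, 24), (3, 1)] = true := by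
  decide +kernel

theorem c11_24_2 : chunk 10 [168, 360, 2448, 2520, 29120]
    [(1, 0), (1, 0), (41, 24), (3, 2)] = true := by
  decide +kernel

theorem c11_25 : chunk 10 [168, 360, 2448, 2520, 29120]
    [(1, 0), (1, 0), (41, 25)] = true := by
  decide +kernel

theorem c11_26_0_0 : chunk 10 [168, 360, 2448, 2520, 29120]
    [(1, 0), (1, 0), (41, 26), (7, 0), (3, 0)] = true := by
  decide +kernel

theorem c11_26_0_1 : chunk 10 [168, 360, 2448, 2520, 29120]
    [(1, 0), (1, 0), (41, 26), (7, 0), (3, 1)] = true := by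
  decide +kernel

theorem c11_26_0_2 : chunk 10 [168, 360, 2448, 2520, 29120]
    [(1, 0), (1, 0), (41, 26), (7, 0), (3, 2)] = true := by
  decide +kernel

theorem c11_26_1 : chunk 10 [168, 360, 2448, 2520, 29120]
    [(1, 0), (1, 0), (41, 26), (7, 1)] = true := by
  decide +kernel

theorem c11_26_2_0 : chunk 10 [168, 360, 2448, 2520, 29120]
    [(1, 0), (1, 0), (41, 26), (7, 2), (3, 0)] = true := by
  decide +kernel

theorem c11_26_2_1 : chunk 10 [168, 360, 2448, 2520, 29120]
    [(1, 0), (1, 0), (41, 26), (7, 2), (3, 1)] = true := by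
  decide +kernel

theorem c11_26_2_2 : chunk 10 [168, 360, 2448, 2520, 29120]
    [(1, 0), (1, 0), (41, 26), (7, 2), (3, 2)] = true := by
  decide +kernel

theorem c11_26_3 : chunk 10 [168, 360, 2448, 2520, 29120]
    [(1, 0), (1, 0), (41, 26), (7, 3)] = true := by
  decide +kernel

theorem c11_26_4 : chunk 10 [168, 360, 2448, 2520, 29120]
    [(1, 0), (1, 0), (41, 26), (7, 4)] = true := by
  decide +kernel

theorem c11_26_5 : chunk 10 [168, 360, 2448, 2520, 29120]
    [(1, 0), (1, 0), (41, 26), (7, 5)] = true := by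
  decide +kernel

theorem c11_26_6 : chunk 10 [168, 360, 2448, 2520, 29120]
    [(1, 0), (1, 0), (41, 26), (7, 6)] = true := by
  decide +kernel

theorem c11_27 : chunk 10 [168, 360, 2448, 2520, 29120]
    [(1, 0), (1, 0), (41, 27)] = true := by
  decide +kernel

theorem c11_28 : chunk 10 [168, 360, 2448, 2520, 29120]
    [(1, 0), (1, 0), (41, 28)] = true := by
  decide +kernel

theorem c11_29_0_0 : chunk 10 [168, 360, 2448, 2520, 29120]
    [(1, 0), (1, 0), (41, 29), (3, 0), (3, 0)] = true := by
  decide +kernel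

theorem c11_29_0_1 : chunk 10 [168, 360, 2448, 2520, 29120]
    [(1, 0), (1, 0), (41, 29), (3, 0), (3, 1)] = true := by
  decide +kernel

theorem c11_29_0_2 : chunk 10 [168, 360, 2448, 2520, 29120]
    [(1, 0), (1, 0), (41, 29), (3, 0), (3, 2)] = true := by
  decide +kernel

theorem c11_29_1 : chunk 10 [168, 360, 2448, 2520, 29120]
    [(1, 0), (1, 0), (41, 29), (3, 1)] = true := by
  decide +kernel

end Cfsg.Agent.KC
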