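import Mathlib
import Cfsg.Agent.KC.Def2

/-! Parts of the search, evaluated by the kernel. -/

set_option autoImplicit false

namespace Cfsg.Agent.KC

theorem c11_29_2 : chunk 10 [168, 360, 2448, 2520, 29120]
    [(1, 0), (1, 0), (41, 29), (3, 2)] = true := by
  decide +kernel

theorem c11_30 : chunk 10 [168, 360, 2448, 2520, 29120]
    [(1, 0), (1, 0), (41, 30)] = true := by
  decide +kernel

theorem c11_31_0 : chunk 10 [168, 360, 2448, 2520, 29120]
    [(1, 0), (1, 0), (41, 31), (5, 0)] = true := by
  decide +kernel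

theorem c11_31_1_0 : chunk 10 [168, 360, 2448, 2520, 29120]
    [(1, 0), (1, 0), (41, 31), (5, 1), (3, 0)] = true := by
  decide +kernel

theorem c11_31_1_1 : chunk 10 [168, 360, 2448, 2520, 29120]
    [(1, 0), (1, 0), (41, 31), (5, 1), (3, 1)] = true := by
  decide +kernel

theorem c11_31_1_2 : chunk 10 [168, 360, 2448, 2520, 29120]
    [(1, 0), (1, 0), (41, 31), (5, 1), (3, 2)] = true := by
  decide +kernel

theorem c11_31_2 : chunk 10 [168, 360, 2448, 2520, 29120]
    [(1, 0), (1, 0), (41, 31), (5, 2)] = true := by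
  decide +kernel

theorem c11_31_3 : chunk 10 [168, 360, 2448, 2520, 29120]
    [(1, 0), (1, 0), (41, 31), (5, 3)] = true := by
  decide +kernel

theorem c11_31_4 : chunk 10 [168, 360, 2448, 2520, 29120]
    [(1, 0), (1, 0), (41, 31), (5, 4)] = true := by
  decide +kernel

theorem c11_32_0 : chunk 10 [168, 360, 2448, 2520, 29120]
    [(1, 0), (1, 0), (41, 32), (3, 0)] = true := by
  decide +kernel

theorem c11_32_1 : chunk 10 [168, 360, 2448, 2520, 29120]
    [(1, 0), (1, 0), (41, 32), (3, 1)] = true := by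
  decide +kernel

theorem c11_32_2 : chunk 10 [168, 360, 2448, 2520, 29120]
    [(1, 0), (1, 0), (41, 32), (3, 2)] = true := by
  decide +kernel

theorem c11_33 : chunk 10 [168, 360, 2448, 2520, 29120]
    [(1, 0), (1, 0), (41, 33)] = true := by
  decide +kernel

theorem c11_34_0 : chunk 10 [168, 360, 2448, 2520, 29120]
    [(1, 0), (1, 0), (41, 34), (5, 0)] = true := by
  decide +kernel

theorem c11_34_1 : chunk 10 [168, 360, 2448, 2520, 29120]
    [(1, 0), (1, 0), (41, 34), (5, 1)] = true := by
  decide +kernel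

theorem c11_34_2 : chunk 10 [168, 360, 2448, 2520, 29120]
    [(1, 0), (1, 0), (41, 34), (5, 2)] = true := by
  decide +kernel

theorem c11_34_3 : chunk 10 [168, 360, 2448, 2520, 29120]
    [(1, 0), (1, 0), (41, 34), (5, 3)] = true := by
  decide +kernel

theorem c11_34_4 : chunk 10 [168, 360, 2448, 2520, 29120]
    [(1, 0), (1, 0), (41, 34), (5, 4)] = true := by
  decide +kernel

theorem c11_35 : chunk 10 [168, 360, 2448, 2520, 29120]
    [(1, 0), (1, 0), (41, 35)] = true := by
  decide +kernel

end Cfsg.Agent.KC
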