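import Mathlib
import Cfsg.Agent.KC.Def2

/-! Parts of the search, evaluated by the kernel. -/

set_option autoImplicit false

namespace Cfsg.Agent.KC

theorem c11_36_0_0 : chunk 10 [168, 360, 2448, 2520, 29120]
    [(1, 0), (1, 0), (41, 36), (7, 0), (3, 0)] = true := by
  decide +kernel

theorem c11_36_0_1 : chunk 10 [168, 360, 2448, 2520, 29120]
    [(1, 0), (1, 0), (41, 36), (7, 0), (3, 1)] = true := by
  decide +kernel

theorem c11_36_0_2 : chunk 10 [168, 360, 2448, 2520, 29120]
    [(1, 0), (1, 0), (41, 36), (7, 0), (3, 2)] = true := by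
  decide +kernel

theorem c11_36_1 : chunk 10 [168, 360, 2448, 2520, 29120]
    [(1, 0), (1, 0), (41, 36), (7, 1)] = true := by
  decide +kernel

theorem c11_36_2 : chunk 10 [168, 360, 2448, 2520, 29120]
    [(1, 0), (1, 0), (41, 36), (7, 2)] = true := by
  decide +kernel

theorem c11_36_3 : chunk 10 [168, 360, 2448, 2520, 29120]
    [(1, 0), (1, 0), (41, 36), (7, 3)] = true := by
  decide +kernel

theorem c11_36_4 : chunk 10 [168, 360, 2448, 2520, 29120]
    [(1, 0), (1, 0), (41, 36), (7, 4)] = true := by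
  decide +kernel

theorem c11_36_5_0 : chunk 10 [168, 360, 2448, 2520, 29120]
    [(1, 0), (1, 0), (41, 36), (7, 5), (3, 0)] = true := by
  decide +kernel

theorem c11_36_5_1 : chunk 10 [168, 360, 2448, 2520, 29120]
    [(1, 0), (1, 0), (41, 36), (7, 5), (3, 1)] = true := by
  decide +kernel

theorem c11_36_5_2 : chunk 10 [168, 360, 2448, 2520, 29120]
    [(1, 0), (1, 0), (41, 36), (7, 5), (3, 2)] = true := by
  decide +kernel

theorem c11_36_6 : chunk 10 [168, 360, 2448, 2520, 29120]
    [(1, 0), (1, 0), (41, 36), (7, 6)] = true := by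
  decide +kernel

theorem c11_37 : chunk 10 [168, 360, 2448, 2520, 29120]
    [(1, 0), (1, 0), (41, 37)] = true := by
  decide +kernel

theorem c11_38 : chunk 10 [168, 360, 2448, 2520, 29120]
    [(1, 0), (1, 0), (41, 38)] = true := by
  decide +kernel

theorem c11_39_0 : chunk 10 [168, 360, 2448, 2520, 29120]
    [(1, 0), (1, 0), (41, 39), (11, 0)] = true := by
  decide +kernel

theorem c11_39_1 : chunk 10 [168, 360, 2448, 2520, 29120]
    [(1, 0), (1, 0), (41, 39), (11, 1)] = true := by
  decide +kernel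

theorem c11_39_2 : chunk 10 [168, 360, 2448, 2520, 29120]
    [(1, 0), (1, 0), (41, 39), (11, 2)] = true := by
  decide +kernel

theorem c11_39_3 : chunk 10 [168, 360, 2448, 2520, 29120]
    [(1, 0), (1, 0), (41, 39), (11, 3)] = true := by
  decide +kernel

theorem c11_39_4 : chunk 10 [168, 360, 2448, 2520, 29120]
    [(1, 0), (1, 0), (41, 39), (11, 4)] = true := by
  decide +kernel

theorem c11_39_5 : chunk 10 [168, 360, 2448, 2520, 29120]
    [(1, 0), (1, 0), (41, 39), (11, 5)] = true := by
  decide +kernel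

theorem c11_39_6 : chunk 10 [168, 360, 2448, 2520, 29120]
    [(1, 0), (1, 0), (41, 39), (11, 6)] = true := by
  decide +kernel

theorem c11_39_7_0 : chunk 10 [168, 360, 2448, 2520, 29120]
    [(1, 0), (1, 0), (41, 39), (11, 7), (3, 0)] = true := by
  decide +kernel

theorem c11_39_7_1 : chunk 10 [168, 360, 2448, 2520, 29120]
    [(1, 0), (1, 0), (41, 39), (11, 7), (3, 1)] = true := by
  decide +kernel

theorem c11_39_7_2 : chunk 10 [168, 360, 2448, 2520, 29120]
    [(1, 0), (1, 0), (41, 39), (11, 7), (3, 2)] = true := by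
  decide +kernel

end Cfsg.Agent.KC
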