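import Mathlib
import Cfsg.Agent.KC.Def2

/-! Parts of the search, evaluated by the kernel. -/

set_option autoImplicit false

namespace Cfsg.Agent.KC

theorem c11_39_8 : chunk 10 [168, 360, 2448, 2520, 29120]
    [(1, 0), (1, 0), (41, 39), (11, 8)] = true := by
  decide +kernel

theorem c11_39_9 : chunk 10 [168, 360, 2448, 2520, 29120]
    [(1, 0), (1, 0), (41, 39), (11, 9)] = true := by
  decide +kernel

theorem c11_39_10_0 : chunk 10 [168, 360, 2448, 2520, 29120]
    [(1, 0), (1, 0), (41, 39), (11, 10), (3, 0)] = true := by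
  decide +kernel

theorem c11_39_10_1 : chunk 10 [168, 360, 2448, 2520, 29120]
    [(1, 0), (1, 0), (41, 39), (11, 10), (3, 1)] = true := by
  decide +kernel

theorem c11_39_10_2 : chunk 10 [168, 360, 2448, 2520, 29120]
    [(1, 0), (1, 0), (41, 39), (11, 10), (3, 2)] = true := by
  decide +kernel

theorem c11_40 : chunk 10 [168, 360, 2448, 2520, 29120]
    [(1, 0), (1, 0), (41, 40)] = true := by
  decide +kernel

end Cfsg.Agent.KC
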