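import Mathlib
import Cfsg.Agent.KC.Def2

/-! Parts of the search, evaluated by the kernel. -/

set_option autoImplicit false

namespace Cfsg.Agent.KC

theorem c9 : chunk 8 [168, 360, 504, 1092, 2520]
    [] = true := by
  decide +kernel

end Cfsg.Agent.KC
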